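import Cfsg.Agent.H75.ClosedFusion
import Cfsg.Agent.H35.GlaubermanNPC

/-!
The Glauberman–Thompson theorem for a strongly closed subgroup, adapted from `H23.GlaubermanThompson`.
-/

set_option autoImplicit false
set_option linter.all false

namespace Cfsg.Agent.H75

open Subgroup Cfsg.Agent.H23
open scoped Pointwise

universe u

variable {G : Type u} [Group G] [Finite G] {p : ℕ} [hp : Fact p.Prime]

/-- `dHat D S` is strongly closed in `S` for every `p`-subgroup `S`. -/
theorem exists_dHat_eq (P : Sylow p G) {D : Subgroup G} (hD : Cfsg.IsStronglyClosed D (P : Subgroup G))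
    {S : Subgroup G} (hS : IsPGroup p S) :
    Cfsg.IsStronglyClosed (dHat D S) S := by
  obtain ⟨k, -, hk⟩ := H61.exists_cj_le (H61.sylowIn_of_le P le_top) le_top hS
  have e : (dHat D S).map (MulAut.conj k).toMonoidHom = (S.map (MulAut.conj k).toMonoidHom) ⊓ D := by
    rw [← dHat_cj]; exact dHat_of_le hD hk
  refine ⟨dHat_le D S, fun x hx g hg => subset_closure ⟨hg, k * g⁻¹, ?_⟩⟩
  have h1 : (MulAut.conj k).toMonoidHom x ∈ (dHat D S).map (MulAut.conj k).toMonoidHom := mem_map_of_mem _ hx
  rw [e] at h1
  simpa [mul_assoc] using h1.2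

/-- Without `dHat`, fall back on the theorem for `S` itself. -/
theorem hasNormalPComplement_of_classical (b : Bool) (hp2 : p ≠ 2) {H : Type u} [Group H] [Finite H]
    (Q : Sylow p H) (W : Subgroup H) (hW : W = if b then Cfsg.centerThompsonAOf (Q : Subgroup H)
      else Cfsg.centerThompsonOf p (Q : Subgroup H))
    (h : HasNormalPComplement p (normalizer (W : Set H))) : HasNormalPComplement p H := by
  subst hW
  cases b
  · exact H23.glauberman_thompson hp2 _ H rfl Q (by simpa using h)
  · exact H35.glauberman_npc hp2 _ H rfl Q (by simpa using h)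

/-- One step of the induction. -/
theorem closed_npc_step (b : Bool) (hp2 : p ≠ 2) (P : Sylow p G) {D : Subgroup G}
    (hD : Cfsg.IsStronglyClosed D (P : Subgroup G))
    (h : HasNormalPComplement p (normalizer (zjOf b p D : Set G)))
    (IH : ∀ (H : Type u) [Group H] [Finite H], Nat.card H < Nat.card G →
      ∀ (Q : Sylow p H) (E : Subgroup H), Cfsg.IsStronglyClosed E (Q : Subgroup H) →
        HasNormalPComplement p (normalizer (zjOf b p E : Set H)) →
        HasNormalPComplement p H) :
    HasNormalPComplement p G := by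
  by_contra hnot
  have htriv : ∀ E : Subgroup G, E = zjOf b p D → E.Normal → False := by
    rintro E rfl hn
    rw [normalizer_eq_top_iff.2 hn] at h
    exact hnot ((H22.hasNormalPComplement_congr Subgroup.topEquiv).1 h)
  have hPN : (P : Subgroup G) ≤ normalizer (zjOf b p D : Set G) :=
    (le_normalizer_of_stronglyClosed hD).trans (normalizer_le_normalizer_zjOf b D)
  have hDne : D ≠ ⊥ := by
    intro e
    exact htriv _ rfl (by
      rw [e, show zjOf b p (⊥ : Subgroup G) = ⊥ from le_bot_iff.1 (zjOf_le b ⊥)]; infer_instance)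
  have IHsub : ∀ (S H E : Subgroup G), S ≤ H → IsPGroup p S → ¬ p ∣ S.relIndex H → H ≠ ⊤ →
      Cfsg.IsStronglyClosed E S →
      HasNormalPComplement p (normalizer (zjOf b p E : Set G)) →
      HasNormalPComplement p H := by
    intro S H E hSH hS hSi hH hE hyp
    have hS' : IsPGroup p (S.subgroupOf H) := hS.of_equiv (subgroupOfEquivOfLe hSH).symm
    refine IH H (H19.card_lt_of_ne_top H hH) (hS'.toSylow hSi) (E.subgroupOf H) ?_ ?_
    · exact stronglyClosed_subgroupOf hE
    refine hasNormalPComplement_of_map_le ((le_normalizer_map _).trans ?_) hyp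
    rw [map_zjOf b _ _ H.subtype_injective.injOn, map_subgroupOf_eq_of_le (hE.1.trans hSH)]
  have hcore : ∀ N : Subgroup G, N.Normal → ¬ p ∣ Nat.card N → N = ⊥ := by
    intro N hNn hN
    by_contra hne
    refine hnot (hasNormalPComplement_of_quotient N hN ?_)
    refine IH (G ⧸ N) (H19.card_quotient_lt N hne)
      (P.mapSurjective (QuotientGroup.mk'_surjective N)) (D.map (QuotientGroup.mk' N))
      (H50.stronglyClosed_quotient hD N) ?_
    rw [← map_zjOf b _ _ ((injOn_mk_of_isPGroup N hN P.2).mono hD.1),
      normalizer_map_mk N hN ((P.2.to_le hD.1).to_le (zjOf_le (p := p) b D))]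
    exact hasNormalPComplement_map _ h
  have hproper : ∀ H : Subgroup G, (P : Subgroup G) ≤ H → H ≠ ⊤ → HasNormalPComplement p H :=
    fun H hPH hH => IHsub _ H D hPH P.2
      (fun hd => P.not_dvd_index (hd.trans (relIndex_dvd_index_of_le hPH))) hH hD h
  have hloc : ∀ (S H : Subgroup G), IsSylowIn p S H → S ≠ ⊥ → H ≠ ⊤ →
      (∀ W : Subgroup G, W ≤ S → W ≠ ⊥ → normalizer (S : Set G) ≤ normalizer (W : Set G) →
        HasNormalPComplement p (normalizer (W : Set G))) → HasNormalPComplement p H := by
    intro S H hS hSne hH hW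
    by_cases he : dHat D S = ⊥
    · have hS' : IsPGroup p (S.subgroupOf H) := hS.2.1.of_equiv (subgroupOfEquivOfLe hS.1).symm
      refine hasNormalPComplement_of_classical b hp2 (H := H) (hS'.toSylow hS.2.2) _ rfl ?_
      cases b
      · refine hasNormalPComplement_of_map_le ((le_normalizer_map _).trans ?_)
          (hW _ (H23.centerThompsonOf_le S) (H23.centerThompsonOf_ne_bot hS.2.1 hSne)
            (H23.normalizer_le_normalizer_centerThompsonOf S))
        simp only [Bool.false_eq_true, if_false]
        rw [H23.map_centerThompsonOf _ _ H.subtype_injective.injOn]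
        exact le_of_eq (by rw [show ((hS'.toSylow hS.2.2 : Subgroup H)).map H.subtype = S from map_subgroupOf_eq_of_le hS.1])
      · refine hasNormalPComplement_of_map_le ((le_normalizer_map _).trans ?_)
          (hW _ (H35.centerThompsonAOf_le S) (H35.centerThompsonAOf_ne_bot hS.2.1 hSne)
            (H35.normalizer_le_normalizer_centerThompsonAOf S))
        simp only [if_true]
        rw [H35.map_centerThompsonAOf _ _ H.subtype_injective.injOn]
        exact le_of_eq (by rw [show ((hS'.toSylow hS.2.2 : Subgroup H)).map H.subtype = S from map_subgroupOf_eq_of_le hS.1])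
    · refine IHsub S H (dHat D S) hS.1 hS.2.1 hS.2.2 hH (exists_dHat_eq P hD hS.2.1)
        (hW _ ((zjOf_le b _).trans (dHat_le D S)) (zjOf_ne_bot b (hS.2.1.to_le (dHat_le D S)) he) ?_)
      refine le_trans ?_ (normalizer_le_normalizer_zjOf b _)
      intro g hg
      refine mem_normalizer_iff_map_conj_eq.2 ?_
      show (dHat D S).map (MulAut.conj g).toMonoidHom = dHat D S
      rw [← dHat_cj]
      exact congrArg (dHat D) (mem_normalizer_iff_map_conj_eq.1 hg)
  set U := pCore p G with hU_def
  have hUn : U.Normal := H19.pCore_normal p G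
  have hU1 : U ≠ ⊥ := by
    obtain ⟨U', hU'n, hU'p, hU'⟩ := exists_normal_pSubgroup P hproper hloc hnot
    exact fun e => hU' (le_bot_iff.1 (e ▸ H19.le_pCore hU'n hU'p))
  have hUP : U ≤ (P : Subgroup G) := H19.pCore_le_sylow P
  have hDU : ¬ D ≤ U := by
    intro hle
    have hDn : D.Normal := ⟨fun x hx g => hD.2 x hx g (hUP (hUn.conj_mem x (hle hx) g))⟩
    refine htriv _ rfl (normalizer_eq_top_iff.1 (eq_top_iff.2 ?_))
    rw [← normalizer_eq_top_iff.2 hDn]
    exact normalizer_le_normalizer_zjOf b D
  have hneU : U ≠ (P : Subgroup G) := fun e => hDU (hD.1.trans e.ge)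
  set φ := QuotientGroup.mk' U
  set P' : Sylow p (G ⧸ U) := P.mapSurjective (QuotientGroup.mk'_surjective U)
  have hD'ne : D.map φ ≠ ⊥ := fun e => hDU (by
    intro x hx
    have : φ x ∈ D.map φ := mem_map_of_mem φ hx
    rw [e, mem_bot] at this
    exact (QuotientGroup.eq_one_iff x).1 this)
  have hD' : Cfsg.IsStronglyClosed (D.map φ) (P' : Subgroup (G ⧸ U)) := H50.stronglyClosed_quotient hD U
  have hquot : HasNormalPComplement p (G ⧸ U) :=
    IH (G ⧸ U) (H19.card_quotient_lt U hU1) P' _ hD'
      (hasNormalPComplement_normalizer_quotient P U (H19.pCore_quotient_pCore p) hproper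
        (zjOf_ne_bot b (P'.2.to_le hD'.1) hD'ne) ((zjOf_le b _).trans hD'.1)
        ((le_normalizer_of_stronglyClosed hD').trans (normalizer_le_normalizer_zjOf b _)))
  have hm := minimalNPC_of P hcore U hU_def hneU hproper hquot
  exact htriv _ rfl (zjOf_normal b hp2 P hD (hU_def ▸ hm.cent) (fun V _ hV => hm.isPStableOn hp2 V hV))

/-- The theorem. -/
theorem closed_npc (b : Bool) {p : ℕ} [Fact p.Prime] (hp2 : p ≠ 2) (n : ℕ) :
    ∀ (G : Type u) [Group G] [Finite G], Nat.card G = n → ∀ (P : Sylow p G) (D : Subgroup G),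
      Cfsg.IsStronglyClosed D (P : Subgroup G) →
      HasNormalPComplement p (normalizer (zjOf b p D : Set G)) →
      HasNormalPComplement p G := by
  induction n using Nat.strong_induction_on with
  | _ n ih =>
    intro G _ _ hn P D hD h
    exact closed_npc_step b hp2 P hD h fun H _ _ hlt Q E hE hQ => ih _ (hn ▸ hlt) H rfl Q E hE hQ

end Cfsg.Agent.H75
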