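import Mathlib

/-!
Finite groups in which commuting is transitive outside a central subgroup `Z` and every centralizer has
index at most two in its normalizer: the class equation bounds the large centralizers.
-/

set_option autoImplicit false
set_option linter.all false
open Subgroup

namespace Cfsg.Agent.H75

/-- The hypotheses on the pair `(H, Z)`. -/
structure CTData (H : Type*) [Group H] (Z : Subgroup H) : Prop where
  central : ∀ z ∈ Z, ∀ h : H, z * h = h * z
  trans : ∀ x y w : H, y ∉ Z → x * y = y * x → y * w = w * y → x * w = w * x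
  conj_two : ∀ x : H, x ∉ Z → ∀ a b : H, (a * x * a⁻¹) * x = x * (a * x * a⁻¹) → a * x * a⁻¹ ≠ x →
    (b * x * b⁻¹) * x = x * (b * x * b⁻¹) → b * x * b⁻¹ ≠ x → a * x * a⁻¹ = b * x * b⁻¹

variable {H : Type*} [Group H] [Finite H] {Z : Subgroup H}

/-- The centralizer of an element. -/
def ctTorus (x : H) : Subgroup H := centralizer ({x} : Set H)

theorem mem_ctTorus {x y : H} : y ∈ ctTorus x ↔ y * x = x * y := by
  simp [ctTorus, mem_centralizer_singleton_iff]

theorem self_mem_ctTorus (x : H) : x ∈ ctTorus x := mem_ctTorus.mpr rfl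

namespace CTData

variable (hd : CTData H Z)
include hd

theorem Z_le (x : H) : Z ≤ ctTorus x := fun z hz => mem_ctTorus.mpr (hd.central z hz x)

theorem torus_eq {x y : H} (hx : x ∉ Z) (hy : y ∉ Z) (h : y ∈ ctTorus x) : ctTorus y = ctTorus x := by
  ext w
  rw [mem_ctTorus, mem_ctTorus]
  exact ⟨fun hw => hd.trans w y x hy hw (mem_ctTorus.mp h),
    fun hw => hd.trans w x y hx hw (mem_ctTorus.mp h).symm⟩

theorem torus_conj (a x : H) : (ctTorus x).map (MulAut.conj a).toMonoidHom = ctTorus (a * x * a⁻¹) := by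
  ext w
  rw [mem_map, mem_ctTorus]
  constructor
  · rintro ⟨v, hv, rfl⟩
    have := mem_ctTorus.mp hv
    calc a * v * a⁻¹ * (a * x * a⁻¹) = a * (v * x) * a⁻¹ := by group
      _ = a * (x * v) * a⁻¹ := by rw [this]
      _ = _ := by simp [mul_assoc]
  · intro hw
    refine ⟨a⁻¹ * w * a, mem_ctTorus.mpr ?_, by simp [mul_assoc]⟩
    calc a⁻¹ * w * a * x = a⁻¹ * (w * (a * x * a⁻¹)) * a := by group
      _ = a⁻¹ * ((a * x * a⁻¹) * w) * a := by rw [hw]
      _ = x * (a⁻¹ * w * a) := by group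

theorem conj_mem_Z {a x : H} : a * x * a⁻¹ ∈ Z ↔ x ∈ Z := by
  constructor
  · intro h
    have h2 := hd.central _ h a
    have h3 : a * x * a⁻¹ = x := by
      calc a * x * a⁻¹ = a⁻¹ * (a * (a * x * a⁻¹)) := by group
        _ = a⁻¹ * (a * x * a⁻¹ * a) := by rw [h2]
        _ = x := by group
    rwa [h3] at h
  · intro h
    rw [← hd.central x h a, mul_inv_cancel_right]
    exact h

/-- The normalizer index is one or two. -/
theorem relIndex_le_two {x : H} (hx : x ∉ Z) :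
    (ctTorus x).relIndex (normalizer (ctTorus x : Set H)) = 1 ∨
      (ctTorus x).relIndex (normalizer (ctTorus x : Set H)) = 2 := by
  set T := ctTorus x
  set N := normalizer (T : Set H)
  by_cases hNT : N ≤ T
  · exact Or.inl (relIndex_eq_one.mpr hNT)
  right
  obtain ⟨n, hn, hnT⟩ := SetLike.not_le_iff_exists.mp hNT
  rw [relIndex, index_eq_two_iff]
  refine ⟨⟨n, hn⟩, fun b => ?_⟩
  have hcomm : ∀ a ∈ N, (a * x * a⁻¹) * x = x * (a * x * a⁻¹) := fun a ha =>
    mem_ctTorus.mp ((mem_normalizer_iff.mp ha x).mp (self_mem_ctTorus x))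
  have hne : ∀ a, a ∉ T → a * x * a⁻¹ ≠ x := fun a ha h => ha (mem_ctTorus.mpr (by
    calc a * x = a * x * a⁻¹ * a := by group
      _ = x * a := by rw [h]))
  have hninv : n⁻¹ ∉ T := fun h => hnT (by simpa using T.inv_mem h)
  simp only [mem_subgroupOf, coe_mul, xor_iff_iff_not]
  constructor
  · intro hbn hb
    exact hnT (by simpa using T.mul_mem (T.inv_mem hb) hbn)
  · intro hb
    show (b : H) * n ∈ T
    have h1 := hd.conj_two x hx (b : H) n⁻¹ (hcomm _ b.2) (hne _ hb) (hcomm _ (N.inv_mem hn)) (hne _ hninv)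
    have h2 : (n * (b : H)) * x * (n * (b : H))⁻¹ = x := by
      calc (n * (b : H)) * x * (n * (b : H))⁻¹ = n * ((b : H) * x * (b : H)⁻¹) * n⁻¹ := by group
        _ = n * (n⁻¹ * x * n⁻¹⁻¹) * n⁻¹ := by rw [h1]
        _ = x := by group
    have h3 : n * (b : H) ∈ T := mem_ctTorus.mpr (by
      calc n * (b : H) * x = (n * (b : H)) * x * (n * (b : H))⁻¹ * (n * (b : H)) := by group
        _ = x * (n * (b : H)) := by rw [h2])
    have h4 : n * (n * (b : H)) * n⁻¹ ∈ T := (mem_normalizer_iff.mp hn _).mp h3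
    have h5 : (b : H) * n = n⁻¹ * (n * (b : H)) * n⁻¹⁻¹ := by group
    rw [h5]
    exact (mem_normalizer_iff.mp (N.inv_mem hn) _).mp h3

open Classical in
theorem main [Fintype H] {x : H} (hx : x ∉ Z) (hx4 : 4 * Nat.card Z ≤ Nat.card (ctTorus x)) :
    (∃ s : Finset (Subgroup H), s.card ≤ 6 ∧ ∀ y, y ∉ Z → 4 * Nat.card Z ≤ Nat.card (ctTorus y) →
      ctTorus y ∈ s) ∧
    (6 * Nat.card Z ≤ Nat.card (ctTorus x) → ∀ y, y ∉ Z → 4 * Nat.card Z ≤ Nat.card (ctTorus y) →
      ctTorus y = ctTorus x) := by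
  set c := Nat.card Z with hc
  set NS := Finset.univ.filter (fun y : H => y ∉ Z) with hNS
  set 𝒯 := NS.image ctTorus with h𝒯
  set N := Z.index with hN
  let e : Subgroup H → ℕ := fun T => Z.relIndex T
  have hcpos : 0 < c := Nat.card_pos
  have hecard : ∀ y : H, c * e (ctTorus y) = Nat.card (ctTorus y) := fun y => by
    show Nat.card Z * Z.relIndex (ctTorus y) = _
    have h := (Z.subgroupOf (ctTorus y)).card_mul_index
    rwa [Nat.card_congr (subgroupOfEquivOfLe (hd.Z_le y)).toEquiv] at h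
  have hmem : ∀ {T}, T ∈ 𝒯 → ∃ y, y ∉ Z ∧ ctTorus y = T := by
    intro T hT
    obtain ⟨y, hy, rfl⟩ := Finset.mem_image.mp hT
    exact ⟨y, (Finset.mem_filter.mp hy).2, rfl⟩
  -- the class equation
  have htot : ∑ T ∈ 𝒯, (e T - 1) = N - 1 := by
    refine Nat.eq_of_mul_eq_mul_left hcpos ?_
    rw [Finset.mul_sum]
    have hfib : ∀ T ∈ 𝒯, c * (e T - 1) = (NS.filter (fun y => ctTorus y = T)).card := by
      intro T hT
      obtain ⟨y, hy, rfl⟩ := hmem hT
      have hset : NS.filter (fun w => ctTorus w = ctTorus y) =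
          (Finset.univ.filter (fun w : H => w ∈ ctTorus y)) \ (Finset.univ.filter (fun w : H => w ∈ Z)) := by
        ext w
        simp only [hNS, Finset.mem_filter, Finset.mem_univ, true_and, Finset.mem_sdiff]
        exact ⟨fun h => ⟨h.2 ▸ self_mem_ctTorus w, h.1⟩, fun h => ⟨h.2, hd.torus_eq hy h.2 h.1⟩⟩
      rw [hset, Finset.card_sdiff_of_subset (fun w hw => by
        simp only [Finset.mem_filter, Finset.mem_univ, true_and] at hw ⊢; exact hd.Z_le y hw),
        Nat.mul_sub, hecard, mul_one]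
      congr 1
      · rw [Nat.card_eq_fintype_card, Fintype.card_subtype]
      · rw [hc, Nat.card_eq_fintype_card, Fintype.card_subtype]
    rw [Finset.sum_congr rfl hfib, ← Finset.card_eq_sum_card_image, Nat.mul_sub, mul_one, hN,
      Z.card_mul_index, hNS, Finset.filter_not, Finset.card_sdiff_of_subset (Finset.filter_subset _ _)]
    congr 1
    · rw [Finset.card_univ, Nat.card_eq_fintype_card]
    · rw [hc, Nat.card_eq_fintype_card, Fintype.card_subtype]
  -- orbits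
  let O : Subgroup H → Finset (Subgroup H) := fun T =>
    Finset.univ.image (fun a : H => T.map (MulAut.conj a).toMonoidHom)
  have hOsub : ∀ {T}, T ∈ 𝒯 → O T ⊆ 𝒯 := by
    intro T hT S hS
    obtain ⟨y, hy, rfl⟩ := hmem hT
    obtain ⟨a, -, rfl⟩ := Finset.mem_image.mp hS
    rw [hd.torus_conj]
    exact Finset.mem_image.mpr ⟨_, Finset.mem_filter.mpr ⟨Finset.mem_univ _, fun h => hy (hd.conj_mem_Z.mp h)⟩, rfl⟩
  have hOe : ∀ {T}, T ∈ 𝒯 → ∀ S ∈ O T, e S = e T := by
    intro T hT S hS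
    obtain ⟨y, hy, rfl⟩ := hmem hT
    obtain ⟨a, -, rfl⟩ := Finset.mem_image.mp hS
    refine Nat.eq_of_mul_eq_mul_left hcpos ?_
    rw [hd.torus_conj, hecard, hecard, ← hd.torus_conj]
    exact card_map_of_injective (MulAut.conj a).injective
  have hOcard : ∀ {T}, T ∈ 𝒯 → ∃ k f, (f = 1 ∨ f = 2) ∧ k * e T * f = N ∧ 0 < k ∧ (O T).card = k ∧ 2 ≤ e T := by
    intro T hT
    obtain ⟨y, hy, rfl⟩ := hmem hT
    set T := ctTorus y with hTdef
    refine ⟨(O T).card, T.relIndex (normalizer (T : Set H)), hd.relIndex_le_two hy, ?_, ?_, rfl, ?_⟩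
    · have h1 : (O T).card = (normalizer (T : Set H)).index := by
        rw [Subgroup.index, ← Nat.card_eq_finsetCard]
        refine (Nat.card_congr (Equiv.ofBijective (fun q : H ⧸ normalizer (T : Set H) =>
          (⟨T.map (MulAut.conj q.out).toMonoidHom, Finset.mem_image.mpr ⟨q.out, Finset.mem_univ _, rfl⟩⟩ : ↥(O T)))
          ⟨?_, ?_⟩)).symm
        · intro q r hqr
          have h := congrArg Subtype.val hqr
          simp only at h
          rw [← QuotientGroup.out_eq' q, ← QuotientGroup.out_eq' r, QuotientGroup.eq]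
          refine mem_normalizer_iff.mpr fun w => ?_
          constructor
          · intro hw
            have h1 : r.out * w * r.out⁻¹ ∈ T.map (MulAut.conj r.out).toMonoidHom := ⟨w, hw, rfl⟩
            rw [← h] at h1
            obtain ⟨v, hv, hv'⟩ := h1
            convert SetLike.mem_coe.mp hv using 2
            have hv'' : q.out * v * q.out⁻¹ = r.out * w * r.out⁻¹ := hv'
            calc q.out⁻¹ * r.out * w * (q.out⁻¹ * r.out)⁻¹ = q.out⁻¹ * (r.out * w * r.out⁻¹) * q.out := by group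
              _ = q.out⁻¹ * (q.out * v * q.out⁻¹) * q.out := by rw [hv'']
              _ = v := by group
          · intro hw
            have h1 : q.out * (q.out⁻¹ * r.out * w * (q.out⁻¹ * r.out)⁻¹) * q.out⁻¹ ∈
                T.map (MulAut.conj q.out).toMonoidHom := ⟨_, hw, rfl⟩
            rw [h] at h1
            obtain ⟨v, hv, hv'⟩ := h1
            convert SetLike.mem_coe.mp hv using 2
            have hv'' : r.out * v * r.out⁻¹ = q.out * (q.out⁻¹ * r.out * w * (q.out⁻¹ * r.out)⁻¹) * q.out⁻¹ := hv'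
            calc w = r.out⁻¹ * (q.out * (q.out⁻¹ * r.out * w * (q.out⁻¹ * r.out)⁻¹) * q.out⁻¹) * r.out := by group
              _ = r.out⁻¹ * (r.out * v * r.out⁻¹) * r.out := by rw [hv'']
              _ = v := by group
        · rintro ⟨S, hS⟩
          obtain ⟨a, -, rfl⟩ := Finset.mem_image.mp hS
          refine ⟨QuotientGroup.mk a, Subtype.ext ?_⟩
          obtain ⟨n, hn⟩ := QuotientGroup.mk_out_eq_mul (normalizer (T : Set H)) a
          simp only [hn]
          ext w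
          simp only [mem_map, MulEquiv.coe_toMonoidHom, MulAut.conj_apply]
          constructor
          · rintro ⟨v, hv, rfl⟩
            exact ⟨_, (mem_normalizer_iff.mp n.2 v).mp hv, by group⟩
          · rintro ⟨v, hv, rfl⟩
            exact ⟨_, (mem_normalizer_iff.mp (inv_mem n.2) v).mp hv, by group⟩
      rw [h1, hN, ← relIndex_mul_index (hd.Z_le y), ← relIndex_mul_index (le_normalizer : T ≤ _)]
      ring
    · exact Finset.card_pos.mpr ⟨_, Finset.mem_image.mpr ⟨1, Finset.mem_univ _, rfl⟩⟩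
    · have h1 : e T ≠ 0 := fun h => by
        have := hecard y; rw [← hTdef, h, mul_zero] at this; exact Nat.card_pos.ne' this.symm
      have h2 : e T ≠ 1 := fun h => hy (relIndex_eq_one.mp h (self_mem_ctTorus y))
      omega
  -- invariant families
  let Inv : Finset (Subgroup H) → Prop := fun s => s ⊆ 𝒯 ∧ ∀ T ∈ s, O T ⊆ s
  have hself : ∀ T, T ∈ O T := fun T => Finset.mem_image.mpr ⟨1, Finset.mem_univ _, by
    ext w; simp⟩
  have hrem : ∀ {s T}, Inv s → T ∈ s → Inv (s \ O T) ∧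
      ∑ S ∈ s, (e S - 1) = (O T).card * (e T - 1) + ∑ S ∈ s \ O T, (e S - 1) := by
    intro s T hs hT
    refine ⟨⟨Finset.sdiff_subset.trans hs.1, fun S hS W hW => ?_⟩, ?_⟩
    · rw [Finset.mem_sdiff] at hS ⊢
      refine ⟨hs.2 S hS.1 hW, fun hW' => hS.2 ?_⟩
      obtain ⟨a, -, rfl⟩ := Finset.mem_image.mp hW
      obtain ⟨b, -, hb⟩ := Finset.mem_image.mp hW'
      refine Finset.mem_image.mpr ⟨a⁻¹ * b, Finset.mem_univ _, ?_⟩
      have := congrArg (fun K : Subgroup H => K.map (MulAut.conj a⁻¹).toMonoidHom) hb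
      simp only [map_map] at this
      convert this using 1
      · congr 1; ext w; simp [mul_assoc]
      · symm
        convert Subgroup.map_id S using 2
        ext w; simp [mul_assoc]
    · rw [← Finset.sum_sdiff (hs.2 T hT), add_comm, Finset.sum_congr rfl (fun S hS => by rw [hOe (hs.1 hT) S hS]),
        Finset.sum_const, smul_eq_mul]
  have hInv : Inv 𝒯 := ⟨subset_rfl, fun T hT => hOsub hT⟩
  have hZT : ∀ {y}, y ∉ Z → ctTorus y ∈ 𝒯 := fun {y} hy =>
    Finset.mem_image.mpr ⟨y, Finset.mem_filter.mpr ⟨Finset.mem_univ _, hy⟩, rfl⟩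
  set T₁ := ctTorus x with hT₁
  have hT₁m := hZT hx
  obtain ⟨k₁, f₁, hf₁, hk₁, hk₁0, hk₁c, he₁⟩ := hOcard hT₁m
  have he4 : 4 ≤ e T₁ := Nat.le_of_mul_le_mul_left (by rw [hecard]; linarith) hcpos
  obtain ⟨hI₁, hs₁⟩ := hrem hInv hT₁m
  rw [htot] at hs₁
  set s₁ := 𝒯 \ O T₁
  obtain ⟨e₁, he₁'⟩ : ∃ a, e T₁ = a + 1 := ⟨e T₁ - 1, by omega⟩
  rw [hk₁c, he₁', Nat.add_sub_cancel] at hs₁
  rw [he₁'] at hk₁ he4
  -- small orbits have small `e`
  have hsmall : (∀ T ∈ s₁, e T < 4) ∧ (k₁ ≤ 6 ∧ (5 ≤ e₁ → k₁ = 1)) := by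
    by_cases hs : s₁ = ∅
    · rw [hs, Finset.sum_empty, add_zero] at hs₁
      refine ⟨by simp [hs], ?_⟩
      rcases hf₁ with rfl | rfl
      · have : k₁ = 1 := by
          have : N = k₁ * e₁ + k₁ := by rw [← hk₁]; ring
          omega
        omega
      · have : N = 2 * (k₁ * e₁) + 2 * k₁ := by rw [← hk₁]; ring
        omega
    obtain ⟨T₂, hT₂⟩ := Finset.nonempty_iff_ne_empty.mpr hs
    obtain ⟨k₂, f₂, hf₂, hk₂, hk₂0, hk₂c, he₂⟩ := hOcard (hI₁.1 hT₂)
    obtain ⟨hI₂, hs₂⟩ := hrem hI₁ hT₂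
    obtain ⟨e₂, he₂'⟩ : ∃ a, e T₂ = a + 1 := ⟨e T₂ - 1, by omega⟩
    rw [hk₂c, he₂', Nat.add_sub_cancel] at hs₂
    rw [he₂'] at hk₂ he₂
    rw [hs₂] at hs₁
    set s₂ := s₁ \ O T₂
    have hm₁ : k₁ * 3 ≤ k₁ * e₁ := Nat.mul_le_mul_left _ (by omega)
    have hm₂ : k₂ * 1 ≤ k₂ * e₂ := Nat.mul_le_mul_left _ (by omega)
    have hfst : f₁ = 2 := by
      rcases hf₁ with rfl | rfl
      · exfalso
        have : N = k₁ * e₁ + k₁ := by rw [← hk₁]; ring
        rcases hf₂ with rfl | rfl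
        · have : N = k₂ * e₂ + k₂ := by rw [← hk₂]; ring
          omega
        · have : N = 2 * (k₂ * e₂) + 2 * k₂ := by rw [← hk₂]; ring
          omega
      · rfl
    subst hfst
    have hN₁ : N = 2 * (k₁ * e₁) + 2 * k₁ := by rw [← hk₁]; ring
    have hcases : ∀ T ∈ s₂, ∃ k₃ e₃, e T = e₃ + 1 ∧ 1 ≤ e₃ ∧ 0 < k₃ ∧ (O T).card = k₃ ∧
        (N = k₃ * e₃ + k₃ ∨ N = 2 * (k₃ * e₃) + 2 * k₃) := by
      intro T hT
      obtain ⟨k, f, hf, hk, hk0, hkc, he⟩ := hOcard (hI₂.1 hT)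
      refine ⟨k, e T - 1, by omega, by omega, hk0, hkc, ?_⟩
      obtain ⟨a, ha⟩ : ∃ a, e T = a + 1 := ⟨e T - 1, by omega⟩
      rw [ha] at hk ⊢
      rw [Nat.add_sub_cancel]
      rcases hf with rfl | rfl
      · left; rw [← hk]; ring
      · right; rw [← hk]; ring
    have hmem₁ : ∀ T ∈ s₁, T ∈ O T₂ ∨ T ∈ s₂ := fun T hT => by
      by_cases h : T ∈ O T₂
      · exact Or.inl h
      · exact Or.inr (Finset.mem_sdiff.mpr ⟨hT, h⟩)
    by_cases hs2 : s₂ = ∅
    · rw [hs2, Finset.sum_empty, add_zero] at hs₁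
      rcases hf₂ with rfl | rfl
      · have hN₂ : N = k₂ * e₂ + k₂ := by rw [← hk₂]; ring
        have : e₂ < 2 := by
          by_contra h
          have : k₂ * 2 ≤ k₂ * e₂ := Nat.mul_le_mul_left _ (by omega)
          omega
        have he : e₂ = 1 := by omega
        subst he
        refine ⟨fun T hT => ?_, by omega, by omega⟩
        rcases hmem₁ T hT with h | h
        · rw [hOe (hI₁.1 hT₂) T h, he₂']; omega
        · simp [hs2] at h
      · have hN₂ : N = 2 * (k₂ * e₂) + 2 * k₂ := by rw [← hk₂]; ring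
        omega
    obtain ⟨T₃, hT₃⟩ := Finset.nonempty_iff_ne_empty.mpr hs2
    obtain ⟨k₃, e₃, he₃', he₃, hk₃0, hk₃c, hN₃⟩ := hcases T₃ hT₃
    obtain ⟨hI₃, hs₃⟩ := hrem hI₂ hT₃
    rw [hk₃c, he₃', Nat.add_sub_cancel] at hs₃
    rw [hs₃] at hs₁
    set s₃ := s₂ \ O T₃
    have hm₃ : k₃ * 1 ≤ k₃ * e₃ := Nat.mul_le_mul_left _ he₃
    have hs3 : s₃ = ∅ := by
      by_contra h
      obtain ⟨T₄, hT₄⟩ := Finset.nonempty_iff_ne_empty.mpr h
      obtain ⟨k₄, e₄, he₄', he₄, hk₄0, hk₄c, hN₄⟩ := hcases T₄ (Finset.sdiff_subset hT₄)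
      obtain ⟨-, hs₄⟩ := hrem hI₃ hT₄
      rw [hk₄c, he₄', Nat.add_sub_cancel] at hs₄
      rw [hs₄] at hs₁
      have hm₄ : k₄ * 1 ≤ k₄ * e₄ := Nat.mul_le_mul_left _ he₄
      have hN₂ : N = k₂ * e₂ + k₂ ∨ N = 2 * (k₂ * e₂) + 2 * k₂ := by
        rcases hf₂ with rfl | rfl
        · left; rw [← hk₂]; ring
        · right; rw [← hk₂]; ring
      rcases hN₂ with hN₂ | hN₂ <;> rcases hN₃ with hN₃ | hN₃ <;> rcases hN₄ with hN₄ | hN₄ <;> omega
    rw [hs3, Finset.sum_empty, add_zero] at hs₁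
    have hN₂ : N = 2 * (k₂ * e₂) + 2 * k₂ := by
      rcases hf₂ with rfl | rfl
      · exfalso
        have : N = k₂ * e₂ + k₂ := by rw [← hk₂]; ring
        rcases hN₃ with hN₃ | hN₃ <;> omega
      · rw [← hk₂]; ring
    rcases hN₃ with hN₃ | hN₃
    · omega
    have hb₂ : e₂ < 3 := by
      by_contra h
      have : k₂ * 3 ≤ k₂ * e₂ := Nat.mul_le_mul_left _ (by omega)
      omega
    have hb₃ : e₃ < 3 := by
      by_contra h
      have : k₃ * 3 ≤ k₃ * e₃ := Nat.mul_le_mul_left _ (by omega)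
      omega
    refine ⟨fun T hT => ?_, ?_⟩
    · rcases hmem₁ T hT with h | h
      · rw [hOe (hI₁.1 hT₂) T h, he₂']; omega
      · by_cases h3 : T ∈ O T₃
        · rw [hOe (hI₂.1 hT₃) T h3, he₃']; omega
        · have : T ∈ s₃ := Finset.mem_sdiff.mpr ⟨h, h3⟩
          simp [hs3] at this
    · rcases (by omega : e₂ = 1 ∨ e₂ = 2) with rfl | rfl <;> rcases (by omega : e₃ = 1 ∨ e₃ = 2) with rfl | rfl <;>
        rcases (by omega : e₁ = 3 ∨ e₁ = 4 ∨ 5 ≤ e₁) with rfl | rfl | h5 <;>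
        first
          | omega
          | (have : k₁ * 5 ≤ k₁ * e₁ := Nat.mul_le_mul_left _ h5; omega)
  obtain ⟨hlow, hk6, hk5⟩ := hsmall
  have hin : ∀ y, y ∉ Z → 4 * c ≤ Nat.card (ctTorus y) → ctTorus y ∈ O T₁ := by
    intro y hy hy4
    by_contra h
    have h1 := hlow _ (Finset.mem_sdiff.mpr ⟨hZT hy, h⟩)
    have := hecard y
    have h2 : c * e (ctTorus y) ≤ c * 3 := Nat.mul_le_mul_left _ (by omega)
    omega
  refine ⟨⟨O T₁, hk₁c ▸ hk6, hin⟩, fun h6 y hy hy4 => ?_⟩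
  have he6 : 6 ≤ e T₁ := Nat.le_of_mul_le_mul_left (by rw [hecard]; linarith) hcpos
  rw [he₁'] at he6
  obtain ⟨S, hS⟩ := Finset.card_eq_one.mp (hk₁c.trans (hk5 (by omega)))
  have h1 := hin y hy hy4
  have h2 := hself T₁
  rw [hS, Finset.mem_singleton] at h1 h2
  rw [h1, h2]

end CTData

end Cfsg.Agent.H75
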