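import Cfsg.Prelude.Def_DStar
import Cfsg.Prelude.Def_PLocal
import Cfsg.Agent.H24.PGroupBasic
import Cfsg.Agent.H35.Replacement
import Cfsg.Agent.H75.CLAbelian

/-!
The subgroup `D*(S)` of a finite `p`-group: it is abelian, belongs to its family and lies in every
maximal normal abelian subgroup and in the centre of the Thompson subgroup.
-/

set_option autoImplicit false
set_option linter.all false
open Subgroup Pointwise
open scoped commutatorElement

namespace Cfsg.Agent.H75

variable {S : Type*} [Group S]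

/-- If `A` moves the elements of the abelian `W` only within `U ≤ W`, and `U` is centralized by `A`,
then every subgroup of `W A` has class at most two. -/
theorem class_two_of_quadratic {W A U T : Subgroup S} (hW : IsMulCommutative W) (hA : IsMulCommutative A)
    (hUW : U ≤ W) (hUA : U ≤ centralizer (A : Set S))
    (h : ∀ a ∈ A, ∀ w ∈ W, a * w * a⁻¹ * w⁻¹ ∈ U) (hT : T ≤ W ⊔ A) : ⁅⁅T, T⁆, T⁆ = ⊥ := by
  have hWc : ∀ x ∈ W, ∀ y ∈ W, x * y = y * x := fun x hx y hy =>
    congrArg Subtype.val (hW.is_comm.comm (⟨x, hx⟩ : W) ⟨y, hy⟩)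
  have hAc : ∀ x ∈ A, ∀ y ∈ A, x * y = y * x := fun x hx y hy =>
    congrArg Subtype.val (hA.is_comm.comm (⟨x, hx⟩ : A) ⟨y, hy⟩)
  have hstep : ∀ a ∈ A, ∀ w ∈ W, a * w * a⁻¹ ∈ W := fun a ha w hw => by
    simpa using mul_mem (hUW (h a ha w hw)) hw
  have hAN : A ≤ normalizer (W : Set S) := fun a ha => mem_normalizer_iff.mpr fun w =>
    ⟨hstep a ha w, fun hw => by simpa [mul_assoc] using hstep a⁻¹ (inv_mem ha) _ hw⟩
  have hder : ⁅T, T⁆ ≤ U := by
    refine le_trans (commutator_mono hT hT) (commutator_le.mpr ?_)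
    intro x hx y hy
    rw [← SetLike.mem_coe, coe_mul_of_right_le_normalizer_left W A hAN] at hx hy
    obtain ⟨v, hv, a, ha, rfl⟩ := hx
    obtain ⟨w, hw, b, hb, rfl⟩ := hy
    have hw' : a * w * a⁻¹ ∈ W := hstep a ha w hw
    have hv' : b * v * b⁻¹ ∈ W := hstep b hb v hv
    have e : ⁅v * a, w * b⁆ = (a * w * a⁻¹ * w⁻¹) * (b * v * b⁻¹ * v⁻¹)⁻¹ := by
      calc ⁅v * a, w * b⁆ = v * (a * w) * (b * a⁻¹) * v⁻¹ * b⁻¹ * w⁻¹ := by
            rw [commutatorElement_def]; group
        _ = v * (a * w * a⁻¹) * (b * v * b⁻¹)⁻¹ * w⁻¹ := by rw [← (hAc a⁻¹ (inv_mem ha) b hb)]; group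
        _ = (a * w * a⁻¹) * (v * ((b * v * b⁻¹)⁻¹ * w⁻¹)) := by rw [hWc v hv _ hw']; group
        _ = (a * w * a⁻¹) * (w⁻¹ * (v * (b * v * b⁻¹)⁻¹)) := by
            rw [← mul_assoc v, hWc _ (mul_mem hv (inv_mem hv')) _ (inv_mem hw)]
        _ = _ := by group
    show ⁅v * a, w * b⁆ ∈ U
    rw [e]
    exact mul_mem (h a ha w hw) (inv_mem (h b hb v hv))
  rw [commutator_eq_bot_iff_le_centralizer]
  refine hder.trans ((le_inf le_rfl ?_ : U ≤ U ⊓ centralizer ((W ⊔ A : Subgroup S) : Set S)).trans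
    (inf_le_right.trans (centralizer_le hT)))
  exact le_centralizer_iff.mp (sup_le (le_centralizer_iff.mp (hUW.trans (le_centralizer_iff_isMulCommutative.mpr hW)))
    (le_centralizer_iff.mp hUA))

/-- The defining property of the family, applied to a subgroup of elements. -/
theorem centralizes_of_mem_dStarFamily {A : Subgroup S} (hA : A ∈ Cfsg.dStarFamily S) {x : S}
    (h : ⁅⁅A ⊔ zpowers x, A ⊔ zpowers x⁆, A ⊔ zpowers x⁆ = ⊥) : x ∈ centralizer (A : Set S) :=
  mem_centralizer_iff.mpr (hA.2 x h)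

variable [Finite S] {p : ℕ} [Fact p.Prime]

/-- A member of the family centralizes every normal abelian subgroup. -/
theorem dStarFamily_le_centralizer (hS : IsPGroup p S) {A : Subgroup S} (hA : A ∈ Cfsg.dStarFamily S)
    (V : Subgroup S) [hVn : V.Normal] (hV : IsMulCommutative V) : A ≤ centralizer (V : Set S) := by
  rw [le_centralizer_iff]
  by_contra hne
  set X := V ⊔ A with hX
  set U := (V ⊓ centralizer (A : Set S)).subgroupOf X with hU
  haveI : U.Normal := by
    refine ⟨fun u hu x => ?_⟩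
    have hc : (u : S) ∈ centralizer ((V ⊔ A : Subgroup S) : Set S) :=
      le_centralizer_iff.mp (sup_le (le_centralizer_iff.mp (inf_le_left.trans (le_centralizer_iff_isMulCommutative.mpr hV)))
        (le_centralizer_iff.mp inf_le_right) : V ⊔ A ≤ centralizer ((V ⊓ centralizer (A : Set S) : Subgroup S) : Set S)) hu
    have : x * u = u * x := Subtype.ext (mem_centralizer_iff.mp hc x x.2)
    rwa [this, mul_inv_cancel_right]
  set N := (V.subgroupOf X).map (QuotientGroup.mk' U) with hN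
  haveI : N.Normal := (hVn.comap X.subtype).map _ (QuotientGroup.mk'_surjective U)
  have hN1 : N ≠ ⊥ := by
    intro h
    apply hne
    intro v hv
    have := (Subgroup.map_eq_bot_iff _).mp h (show (⟨v, mem_sup_left hv⟩ : X) ∈ V.subgroupOf X from hv)
    rw [QuotientGroup.ker_mk'] at this
    exact this.2
  have hne' := Cfsg.Agent.H24.inf_center_ne_bot ((hS.to_subgroup X).to_quotient U) hN1
  obtain ⟨⟨q, hq⟩, hq1⟩ := (Subgroup.ne_bot_iff_exists_ne_one).mp hne'
  obtain ⟨⟨v, hv, hvq⟩, hqc⟩ := hq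
  set W := (V ⊓ centralizer (A : Set S)) ⊔ zpowers (v : S) with hW
  have hWV : W ≤ V := sup_le inf_le_left (zpowers_le.mpr hv)
  have hWc : IsMulCommutative W := le_centralizer_iff_isMulCommutative.mp
    (hWV.trans ((le_centralizer_iff_isMulCommutative.mpr hV).trans (centralizer_le hWV)))
  have hbase : ∀ a ∈ A, a * v * a⁻¹ * (v : S)⁻¹ ∈ V ⊓ centralizer (A : Set S) := by
    intro a ha
    have h1 : (QuotientGroup.mk' U) ((⟨a, mem_sup_right ha⟩ : X) * v * (⟨a, mem_sup_right ha⟩ : X)⁻¹ * v⁻¹) = 1 := by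
      simp only [map_mul, map_inv, hvq]
      rw [mem_center_iff.mp hqc, mul_inv_cancel_right, mul_inv_cancel]
    rw [← MonoidHom.mem_ker, QuotientGroup.ker_mk'] at h1
    exact h1
  have hU' : ∀ a ∈ A, ∀ w ∈ W, a * w * a⁻¹ * w⁻¹ ∈ V ⊓ centralizer (A : Set S) := by
    intro a ha w hw
    let K : Subgroup S :=
      { carrier := {w | w ∈ V ∧ a * w * a⁻¹ * w⁻¹ ∈ V ⊓ centralizer (A : Set S)}
        one_mem' := ⟨one_mem _, by simp⟩
        mul_mem' := fun {x y} hx hy => ⟨mul_mem hx.1 hy.1, by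
          have hc : x * (a * y * a⁻¹ * y⁻¹) = (a * y * a⁻¹ * y⁻¹) * x :=
            congrArg Subtype.val (hV.is_comm.comm (⟨x, hx.1⟩ : V) ⟨_, hy.2.1⟩)
          have e : a * (x * y) * a⁻¹ * (x * y)⁻¹ = (a * x * a⁻¹ * x⁻¹) * (a * y * a⁻¹ * y⁻¹) := by
            calc a * (x * y) * a⁻¹ * (x * y)⁻¹ = (a * x * a⁻¹ * x⁻¹) * (x * (a * y * a⁻¹ * y⁻¹) * x⁻¹) := by group
              _ = _ := by rw [hc, mul_inv_cancel_right]
          rw [e]; exact mul_mem hx.2 hy.2⟩
        inv_mem' := fun {x} hx => ⟨inv_mem hx.1, by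
          have hc : x⁻¹ * (a * x * a⁻¹ * x⁻¹)⁻¹ = (a * x * a⁻¹ * x⁻¹)⁻¹ * x⁻¹ :=
            congrArg Subtype.val (hV.is_comm.comm (⟨x⁻¹, inv_mem hx.1⟩ : V) ⟨_, inv_mem hx.2.1⟩)
          have e : a * x⁻¹ * a⁻¹ * x⁻¹⁻¹ = (a * x * a⁻¹ * x⁻¹)⁻¹ := by
            calc a * x⁻¹ * a⁻¹ * x⁻¹⁻¹ = (x⁻¹ * (a * x * a⁻¹ * x⁻¹)⁻¹) * x := by group
              _ = _ := by rw [hc, inv_mul_cancel_right]
          rw [e]; exact inv_mem hx.2⟩ }
    have : W ≤ K := sup_le (fun u hu => ⟨hu.1, by
      rw [mem_centralizer_iff.mp hu.2 a ha, mul_inv_cancel_right, mul_inv_cancel]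
      exact one_mem _⟩) (zpowers_le.mpr ⟨hv, hbase a ha⟩)
    exact (this hw).2
  have h2 := class_two_of_quadratic hWc hA.1 le_sup_left inf_le_right hU'
    (T := A ⊔ zpowers (v : S)) (sup_le le_sup_right ((le_sup_right : zpowers (v : S) ≤ W).trans le_sup_left))
  have hvA : (v : S) ∈ centralizer (A : Set S) := centralizes_of_mem_dStarFamily hA h2
  apply hq1
  apply Subtype.ext
  show q = 1
  rw [← hvq, ← MonoidHom.mem_ker, QuotientGroup.ker_mk']
  exact ⟨hv, hvA⟩

/-- `D*(S)` lies in every maximal normal abelian subgroup. -/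
theorem dStar_le_of_maximal (hS : IsPGroup p S) {V : Subgroup S} [V.Normal] (hV : IsMulCommutative V)
    (hmax : ∀ B : Subgroup S, B.Normal → IsMulCommutative B → V ≤ B → B = V) : Cfsg.dStar S ≤ V :=
  sSup_le fun A hA => (dStarFamily_le_centralizer hS hA V hV).trans
    (Cfsg.Agent.H24.centralizer_eq_of_maximal_normal_abelian hS hV hmax).le

/-- `D*(S)` is abelian. -/
theorem dStar_isMulCommutative (hS : IsPGroup p S) : IsMulCommutative ↥(Cfsg.dStar S) := by
  obtain ⟨V, hn, hV, hmax⟩ := Cfsg.Agent.H24.exists_maximal_normal_abelian S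
  haveI := hn
  have hle := dStar_le_of_maximal hS hV hmax
  exact le_centralizer_iff_isMulCommutative.mp
    (hle.trans ((le_centralizer_iff_isMulCommutative.mpr hV).trans (centralizer_le hle)))

/-- `D*(S)` is a member of its family. -/
theorem dStar_mem (hS : IsPGroup p S) : Cfsg.dStar S ∈ Cfsg.dStarFamily S := by
  refine ⟨dStar_isMulCommutative hS, fun x hx a ha => ?_⟩
  have key : Cfsg.dStar S ≤ centralizer ({x} : Set S) := sSup_le fun A hA => by
    have hT : A ⊔ zpowers x ≤ Cfsg.dStar S ⊔ zpowers x := sup_le_sup_right (le_sSup hA) _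
    have := centralizes_of_mem_dStarFamily hA (le_bot_iff.mp (hx ▸ commutator_mono (commutator_mono hT hT) hT))
    exact fun b hb => mem_centralizer_singleton_iff.mpr (mem_centralizer_iff.mp this b hb)
  exact mem_centralizer_singleton_iff.mp (key ha)

/-- The centre is a member of the family. -/
theorem center_mem_dStarFamily : Subgroup.center S ∈ Cfsg.dStarFamily S :=
  ⟨inferInstance, fun x _ a ha => (mem_center_iff.mp ha x).symm⟩

/-- `D*(S)` is characteristic. -/
theorem dStar_characteristic : (Cfsg.dStar S).Characteristic := by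
  refine characteristic_iff_map_le.mpr fun φ => ?_
  rw [Subgroup.map_le_iff_le_comap]
  refine sSup_le fun A hA => ?_
  rw [← Subgroup.map_le_iff_le_comap]
  refine le_sSup ⟨?_, fun x hx a ha => ?_⟩
  · haveI := hA.1
    infer_instance
  · obtain ⟨a, haA, rfl⟩ := ha
    obtain ⟨y, rfl⟩ := φ.surjective x
    have hT : A.map φ.toMonoidHom ⊔ zpowers (φ y) = (A ⊔ zpowers y).map φ.toMonoidHom := by
      rw [Subgroup.map_sup, MonoidHom.map_zpowers]; rfl
    rw [hT, ← map_commutator, ← map_commutator, Subgroup.map_eq_bot_iff_of_injective _ φ.injective] at hx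
    simpa [map_mul] using congrArg φ (hA.2 y hx a haA)

/-- `D*(S)` centralizes every abelian subgroup of largest order. -/
theorem dStar_le_maxAbelian (hS : IsPGroup p S) {A : Subgroup S} (hA : A ∈ Cfsg.maxAbelianSubgroups S) :
    Cfsg.dStar S ≤ A := by
  by_contra hcon
  haveI : (Cfsg.dStar S).Characteristic := dStar_characteristic
  set V := Cfsg.dStar S with hV
  have hVc : IsMulCommutative V := dStar_isMulCommutative hS
  obtain ⟨B, hAB, hB⟩ := Finite.exists_le_maximal (α := Subgroup S)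
    (p := fun X => ∃ A' ∈ Cfsg.maxAbelianSubgroups S, ¬ V ≤ A' ∧ X = A' ⊓ V) ⟨A, hA, hcon, rfl⟩
  obtain ⟨A', hA', hcon', rfl⟩ := hB.prop
  by_cases hN : V ≤ normalizer (A' : Set S)
  · apply hcon'
    rw [← centralizer_eq_of_maxAbelian hA']
    intro v hv
    refine mem_centralizer_iff.mpr fun a ha => ?_
    have h := class_two_of_quadratic hVc hA'.1 (U := V ⊓ A') inf_le_left
      (inf_le_right.trans (le_centralizer_iff_isMulCommutative.mpr hA'.1)) (fun b hb w hw => ⟨V.mul_mem (Normal.conj_mem inferInstance w hw b) (V.inv_mem hw), by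
        rw [mul_assoc, mul_assoc, ← mul_assoc w]
        exact A'.mul_mem hb ((mem_normalizer_iff.mp (hN hw) _).mp (A'.inv_mem hb))⟩)
      (T := V ⊔ zpowers a) (sup_le_sup_left (zpowers_le.mpr ha) _)
    exact ((dStar_mem hS).2 a h v hv).symm
  · have hbot : ⁅V, V⁆ ≤ A' := le_of_eq_of_le (commutator_eq_bot_iff_le_centralizer.mpr
      (le_centralizer_iff_isMulCommutative.mpr hVc)) bot_le
    obtain ⟨b, hb, hbN, hbA⟩ := Cfsg.Agent.H35.exists_mem_normalizer_normalizer hS V A' hN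
    obtain ⟨h1, h2, h3, h4, h5, h6, h7, -⟩ :=
      Cfsg.Agent.H35.repl_spec hS V (fun _ => hVc) A' hA'.1 hbot b hb hbN hbA
    set R := Cfsg.Agent.H35.repl A' b
    have hR : R ∈ Cfsg.maxAbelianSubgroups S := ⟨h2, fun C hC => (hA'.2 C hC).trans h1.ge⟩
    by_cases hVR : V ≤ R
    · exact hN (hVR.trans h7)
    · exact h4.not_ge (hB.le_of_ge ⟨R, hR, hVR, rfl⟩ h4.le)

end Cfsg.Agent.H75
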