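import Cfsg.Prelude.Def_Transfer
import Cfsg.Agent.H75.CLInvariant
import Cfsg.Agent.H75.CommTransitive
import Cfsg.Agent.H24.Extraspecial

/-!
Fusion on an extraspecial Sylow subgroup of order `p³` and exponent `p`: the tori of `N(P)` on `P/Z(P)`
coming from subgroups of order `p²` whose automizer contains `SL₂(p)`.
-/

set_option autoImplicit false
set_option linter.all false
open Subgroup
open scoped commutatorElement Pointwise

namespace Cfsg.Agent.H75

section Matrix

variable {F : Type*} [Field F]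

/-- `v₀ w₁ - v₁ w₀`. -/
def det2 (v w : Fin 2 → F) : F := v 0 * w 1 - v 1 * w 0

theorem det2_eq_zero {v w : Fin 2 → F} (hv : v ≠ 0) (h : det2 v w = 0) : ∃ k : F, w = k • v := by
  unfold det2 at h
  by_cases h0 : v 0 = 0
  · have h1 : v 1 ≠ 0 := fun h1 => hv (by ext i; fin_cases i <;> assumption)
    refine ⟨w 1 / v 1, ?_⟩
    ext i; fin_cases i
    · simp only [h0, zero_mul, zero_sub, neg_eq_zero, mul_eq_zero, h1, false_or] at h
      simp [h0, h]
    · simp [div_mul_cancel₀ _ h1]
  · refine ⟨w 0 / v 0, ?_⟩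
    ext i; fin_cases i
    · simp [div_mul_cancel₀ _ h0]
    · show w 1 = w 0 / v 0 * v 1
      field_simp
      linear_combination h

theorem mat2_commutant {g y : Matrix (Fin 2) (Fin 2) F} (hg : ∀ s : F, g ≠ s • 1) (h : y * g = g * y) :
    ∃ α β : F, y = α • g + β • 1 := by
  have e00 := congrFun (congrFun h 0) 0
  have e01 := congrFun (congrFun h 0) 1
  have e10 := congrFun (congrFun h 1) 0
  simp [Matrix.mul_apply, Fin.sum_univ_two] at e00 e01 e10
  by_cases hb : g 0 1 = 0
  · by_cases hc : g 1 0 = 0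
    · have hne : g 0 0 - g 1 1 ≠ 0 := fun h0 => hg (g 0 0) (by
        ext i j; fin_cases i <;> fin_cases j <;> simp [hb, hc]
        exact (sub_eq_zero.mp h0).symm)
      refine ⟨(y 0 0 - y 1 1) / (g 0 0 - g 1 1), y 0 0 - (y 0 0 - y 1 1) / (g 0 0 - g 1 1) * g 0 0, ?_⟩
      have h01 : y 0 1 = 0 := (mul_eq_zero.mp (show y 0 1 * (g 0 0 - g 1 1) = 0 by
        linear_combination (-1 : F) * e01 + (y 0 0 - y 1 1) * hb)).resolve_right hne
      have h10 : y 1 0 = 0 := (mul_eq_zero.mp (show y 1 0 * (g 0 0 - g 1 1) = 0 by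
        linear_combination e10 + (y 0 0 - y 1 1) * hc)).resolve_right hne
      ext i j; fin_cases i <;> fin_cases j <;> simp [hb, hc, h01, h10]
      field_simp; ring
    · refine ⟨y 1 0 / g 1 0, y 0 0 - y 1 0 / g 1 0 * g 0 0, ?_⟩
      ext i j; fin_cases i <;> fin_cases j <;> simp <;> field_simp
      · linear_combination e00
      · linear_combination e10
  · refine ⟨y 0 1 / g 0 1, y 0 0 - y 0 1 / g 0 1 * g 0 0, ?_⟩
    ext i j; fin_cases i <;> fin_cases j <;> simp <;> field_simp
    · linear_combination (-1 : F) * e00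
    · linear_combination (-1 : F) * e01

theorem mat2_other_root {g y : Matrix (Fin 2) (Fin 2) F} (hg : ∀ s : F, g ≠ s • 1) (h2 : (2 : F) ≠ 0)
    (hdisc : g.trace ^ 2 - 4 * g.det ≠ 0) (h : y * g = g * y) (htr : y.trace = g.trace)
    (hdet : y.det = g.det) (hne : y ≠ g) : y = g.trace • 1 - g := by
  obtain ⟨α, β, rfl⟩ := mat2_commutant hg h
  simp only [Matrix.trace_fin_two, Matrix.det_fin_two, Matrix.add_apply, Matrix.smul_apply,
    Matrix.one_apply_eq, Matrix.one_apply_ne (show (0 : Fin 2) ≠ 1 by decide),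
    Matrix.one_apply_ne (show (1 : Fin 2) ≠ 0 by decide), smul_eq_mul, mul_one, mul_zero, add_zero] at htr hdet hdisc
  have key : (1 - α) * (1 + α) * ((g 0 0 + g 1 1) ^ 2 - 4 * (g 0 0 * g 1 1 - g 0 1 * g 1 0)) = 0 := by
    linear_combination 4 * hdet - (α * (g 0 0 + g 1 1) + 2 * β + (g 0 0 + g 1 1)) * htr
  rcases mul_eq_zero.mp ((mul_eq_zero.mp key).resolve_right hdisc) with h1 | h1
  · exfalso
    have hα : α = 1 := (sub_eq_zero.mp h1).symm
    have hβ : β = 0 := by
      have : 2 * β = 0 := by rw [hα] at htr; linear_combination htr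
      exact (mul_eq_zero.mp this).resolve_left h2
    exact hne (by rw [hα, hβ, one_smul, zero_smul, add_zero])
  · have hα : α = -1 := by linear_combination h1
    have hβ : β = g 0 0 + g 1 1 := mul_left_cancel₀ h2 (by rw [hα] at htr; linear_combination htr)
    rw [hα, hβ, Matrix.trace_fin_two, neg_one_smul, sub_eq_add_neg, add_comm]

theorem mat2_three_eigen {g : Matrix (Fin 2) (Fin 2) F} (hg : ∀ s : F, g ≠ s • 1)
    {v₁ v₂ v₃ : Fin 2 → F} {s₁ s₂ s₃ : F} (h12 : det2 v₁ v₂ ≠ 0) (h13 : det2 v₁ v₃ ≠ 0)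
    (h23 : det2 v₃ v₂ ≠ 0) (e₁ : Matrix.mulVec g v₁ = s₁ • v₁) (e₂ : Matrix.mulVec g v₂ = s₂ • v₂)
    (e₃ : Matrix.mulVec g v₃ = s₃ • v₃) : False := by
  have hid : ∀ v : Fin 2 → F, det2 v₁ v₂ • v = det2 v v₂ • v₁ + det2 v₁ v • v₂ := by
    intro v; ext i; fin_cases i <;> simp [det2] <;> ring
  have hlin : ∀ v : Fin 2 → F, det2 v₁ v₂ • Matrix.mulVec g v = (det2 v v₂ * s₁) • v₁ + (det2 v₁ v * s₂) • v₂ := by
    intro v
    rw [← Matrix.mulVec_smul, hid, Matrix.mulVec_add, Matrix.mulVec_smul, Matrix.mulVec_smul, e₁, e₂, smul_smul, smul_smul]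
  have h3 := hlin v₃
  rw [e₃, smul_comm, hid v₃] at h3
  have a0 := congrFun h3 0
  have a1 := congrFun h3 1
  simp at a0 a1
  have hA : det2 v₃ v₂ * (s₃ - s₁) * det2 v₁ v₂ = 0 := by
    unfold det2 at *; linear_combination v₂ 1 * a0 - v₂ 0 * a1
  have hB : det2 v₁ v₃ * (s₃ - s₂) * det2 v₁ v₂ = 0 := by
    unfold det2 at *; linear_combination v₁ 0 * a1 - v₁ 1 * a0
  have hs1 : s₃ = s₁ := sub_eq_zero.mp ((mul_eq_zero.mp ((mul_eq_zero.mp hA).resolve_right h12)).resolve_left h23)
  have hs2 : s₃ = s₂ := sub_eq_zero.mp ((mul_eq_zero.mp ((mul_eq_zero.mp hB).resolve_right h12)).resolve_left h13)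
  subst hs1 hs2
  refine hg s₃ (Matrix.ext_of_mulVec_single fun i => ?_)
  have := hlin (Pi.single i 1)
  rw [mul_comm _ s₃, mul_comm _ s₃, ← smul_smul, ← smul_smul, ← smul_add, ← hid, smul_comm] at this
  rw [smul_right_injective _ h12 this, Matrix.smul_mulVec, Matrix.one_mulVec]

theorem mat2_pow_nilpotent (s : F) {N : Matrix (Fin 2) (Fin 2) F} (hN : N * N = 0) (n : ℕ) :
    (s • 1 + N) ^ n = s ^ n • 1 + ((n : F) * s ^ (n - 1)) • N := by
  induction n with
  | zero => simp
  | succ n ih =>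
    rw [pow_succ, ih]
    cases n with
    | zero => simp
    | succ m =>
      simp only [mul_add, add_mul, Matrix.smul_mul, Matrix.mul_smul, one_mul, mul_one, smul_smul, hN, smul_zero, add_zero]
      rw [add_assoc, ← add_smul]
      simp only [Nat.succ_sub_succ, Nat.sub_zero]
      push_cast
      congr 2 <;> ring

end Matrix

variable {G : Type*} [Group G] [Finite G] {p : ℕ} [hp : Fact p.Prime]

/-- `x ^ t` for `t : ZMod p`. -/
def zpw (x : G) (t : ZMod p) : G := x ^ t.val

theorem zpw_natCast {x : G} (hx : x ^ p = 1) (n : ℕ) : zpw x (n : ZMod p) = x ^ n := by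
  rw [zpw, ZMod.val_natCast, ← pow_eq_pow_mod n hx]

theorem zpw_add {x : G} (hx : x ^ p = 1) (s t : ZMod p) : zpw x (s + t) = zpw x s * zpw x t := by
  rw [zpw, zpw, zpw, ← pow_add, ZMod.val_add, ← pow_eq_pow_mod _ hx]

theorem zpw_pow {x : G} (hx : x ^ p = 1) (s : ZMod p) (n : ℕ) : zpw x s ^ n = zpw x ((n : ZMod p) * s) := by
  rw [← ZMod.natCast_zmod_val s, ← Nat.cast_mul, zpw_natCast hx, zpw_natCast hx, ← pow_mul, mul_comm]

theorem zpw_zero (x : G) : zpw x (0 : ZMod p) = 1 := by simp [zpw]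

theorem zpw_one (x : G) : zpw x (1 : ZMod p) = x := by
  rw [zpw, ZMod.val_one, pow_one]

theorem exists_coordEquiv {X : Type*} [AddCommGroup X] [Finite X] {p : ℕ} [Fact p.Prime] [Module (ZMod p) X]
    (hcard : Nat.card X = p ^ 2) : Nonempty (X ≃+ (Fin 2 → ZMod p)) := by
  have hd : Module.finrank (ZMod p) X = 2 := by
    refine Nat.pow_right_injective (Fact.out : p.Prime).two_le ?_
    have h : Nat.card X = Nat.card (ZMod p) ^ Module.finrank (ZMod p) X :=
      Module.natCard_eq_pow_finrank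
    rw [Nat.card_zmod] at h
    exact h.symm.trans hcard
  exact ⟨(Module.finBasisOfFinrankEq (ZMod p) X hd).equivFun.toAddEquiv⟩

/-- Coordinates on `P/Z(P)`. -/
theorem esp_coord {P : Subgroup G} (hE : Cfsg.IsExtraspecial p P) (hcard : Nat.card P = p ^ 3)
    (hexp : Monoid.exponent P = p) :
    ∃ c : P → (Fin 2 → ZMod p), (∀ x y, c (x * y) = c x + c y) ∧ Function.Surjective c ∧
      ∀ x, c x = 0 ↔ x ∈ Subgroup.center P := by
  have hx : ∀ x : Abelianization P, x ^ p = 1 := fun x => by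
    obtain ⟨y, rfl⟩ : ∃ y, Abelianization.of y = x := Quot.exists_rep x
    rw [← map_pow, ← hexp, Monoid.pow_exponent_eq_one, map_one]
  have hV : Nat.card (Abelianization P) = p ^ 2 := by
    have h := Subgroup.card_eq_card_quotient_mul_card_subgroup (commutator P)
    rw [hcard, hE.1.2.2, hE.2, pow_succ] at h
    show Nat.card (P ⧸ commutator P) = _
    rw [hE.1.2.2]
    exact (Nat.eq_of_mul_eq_mul_right hp.out.pos h).symm
  haveI : Finite (Additive (Abelianization P)) := inferInstanceAs (Finite (Abelianization P))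
  obtain ⟨f⟩ := @exists_coordEquiv (Additive (Abelianization P)) _ _ p hp
    (AddCommGroup.zmodModule fun x => Additive.toMul.injective (by simpa using hx x.toMul)) hV
  refine ⟨fun x => f (Additive.ofMul (Abelianization.of x)), fun x y => ?_, fun v => ?_, fun x => ?_⟩
  · simp only [map_mul, ofMul_mul, map_add]
  · obtain ⟨w, hw⟩ := f.surjective v
    obtain ⟨y, hy⟩ : ∃ y, Abelianization.of y = w.toMul := Quot.exists_rep _
    exact ⟨y, by simp only [hy, ofMul_toMul, hw]⟩
  · rw [EmbeddingLike.map_eq_zero_iff, ofMul_eq_zero, ← MonoidHom.mem_ker, Abelianization.ker_of, hE.1.2.2]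

section Coord

variable {P : Subgroup G} {c : P → (Fin 2 → ZMod p)}

theorem coord_pow (hc : ∀ x y, c (x * y) = c x + c y) (x : P) (n : ℕ) : c (x ^ n) = (n : ZMod p) • c x := by
  induction n with
  | zero =>
    have := hc 1 1
    simp only [mul_one, left_eq_add] at this
    simp [this]
  | succ n ih => rw [pow_succ, hc, ih, Nat.cast_succ, add_smul, one_smul]

/-- The action of `N(P)` on `P/Z(P)` by matrices, with image of order prime to `p`. -/
theorem esp_rep (hc : ∀ x y, c (x * y) = c x + c y) (hsurj : Function.Surjective c)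
    (hker : ∀ x, c x = 0 ↔ x ∈ Subgroup.center P) (hcomm : commutator P ≤ Subgroup.center P)
    (hidx : ¬ p ∣ P.index) :
    ∃ ρ : ↥(normalizer (P : Set G)) →* GL (Fin 2) (ZMod p),
      (∀ (g : ↥(normalizer (P : Set G))) (x : P), Matrix.mulVec (ρ g : Matrix (Fin 2) (Fin 2) (ZMod p)) (c x) =
        c ⟨(g : G) * x * (g : G)⁻¹, (mem_normalizer_iff.mp g.2 x).mp x.2⟩) ∧
      (Nat.card ρ.range).Coprime p := by
  classical
  choose x₁ hx₁ using hsurj (Pi.single 0 1)
  choose x₂ hx₂ using hsurj (Pi.single 1 1)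
  have hdec : ∀ x : P, ∃ w ∈ Subgroup.center P, x = x₁ ^ (c x 0).val * x₂ ^ (c x 1).val * w := by
    intro x
    refine ⟨(x₁ ^ (c x 0).val * x₂ ^ (c x 1).val)⁻¹ * x, (hker _).mp ?_, by group⟩
    have h := hc (x₁ ^ (c x 0).val * x₂ ^ (c x 1).val) ((x₁ ^ (c x 0).val * x₂ ^ (c x 1).val)⁻¹ * x)
    rw [mul_inv_cancel_left, hc, coord_pow hc, coord_pow hc, ZMod.natCast_zmod_val, ZMod.natCast_zmod_val, hx₁, hx₂] at h
    have h' : (c x 0) • (Pi.single 0 1 : Fin 2 → ZMod p) + (c x 1) • Pi.single 1 1 = c x := by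
      ext i; fin_cases i <;> simp
    rw [h'] at h
    simpa using h.symm
  let cj : ↥(normalizer (P : Set G)) → P → P := fun g x => ⟨(g : G) * x * (g : G)⁻¹, (mem_normalizer_iff.mp g.2 x).mp x.2⟩
  have hcjmul : ∀ g x y, cj g (x * y) = cj g x * cj g y := fun g x y => Subtype.ext (by simp [cj, mul_assoc])
  have hcjpow : ∀ g x (n : ℕ), cj g (x ^ n) = cj g x ^ n := fun g x n => Subtype.ext (by simp [cj, conj_pow])
  have hcjcen : ∀ g, ∀ w ∈ Subgroup.center P, c (cj g w) = 0 := by
    intro g w hw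
    refine (hker _).mpr (Subgroup.mem_center_iff.mpr fun y => ?_)
    have h := congrArg (cj g) (Subgroup.mem_center_iff.mp hw (cj g⁻¹ y))
    rw [hcjmul, hcjmul, show cj g (cj g⁻¹ y) = y from Subtype.ext (by simp [cj, mul_assoc])] at h
    exact h
  let R : ↥(normalizer (P : Set G)) → Matrix (Fin 2) (Fin 2) (ZMod p) := fun g i j =>
    if j = 0 then c (cj g x₁) i else c (cj g x₂) i
  have hR : ∀ g x, Matrix.mulVec (R g) (c x) = c (cj g x) := by
    intro g x
    obtain ⟨w, hw, hx⟩ := hdec x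
    conv_rhs => rw [hx]
    rw [hcjmul, hcjmul, hc, hc, hcjcen g w hw, hcjpow, hcjpow, coord_pow hc, coord_pow hc,
      ZMod.natCast_zmod_val, ZMod.natCast_zmod_val, add_zero]
    ext i
    simp [R, Matrix.mulVec, dotProduct, Fin.sum_univ_two, mul_comm]
  have hext : ∀ {M M' : Matrix (Fin 2) (Fin 2) (ZMod p)}, (∀ x : P, Matrix.mulVec M (c x) = Matrix.mulVec M' (c x)) → M = M' := by
    intro M M' h
    refine Matrix.ext_of_mulVec_single fun i => ?_
    obtain ⟨y, hy⟩ := hsurj (Pi.single i 1)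
    rw [← hy]; exact h y
  let R' : ↥(normalizer (P : Set G)) →* Matrix (Fin 2) (Fin 2) (ZMod p) :=
    { toFun := R
      map_one' := hext fun x => by
        rw [hR, Matrix.one_mulVec]; congr 1; exact Subtype.ext (by simp [cj])
      map_mul' := fun g h => hext fun x => by
        rw [hR, ← Matrix.mulVec_mulVec, hR, hR]; congr 1; exact Subtype.ext (by simp [cj, mul_assoc]) }
  refine ⟨R'.toHomUnits, fun g x => hR g x, ?_⟩
  have hle : P.subgroupOf (normalizer (P : Set G)) ≤ R'.toHomUnits.ker := by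
    intro g hg
    refine Units.ext (hext fun x => ?_)
    show Matrix.mulVec (R g) (c x) = Matrix.mulVec 1 (c x)
    rw [hR, Matrix.one_mulVec]
    have h1 : cj g x = ⁅(⟨(g : G), hg⟩ : P), x⁆ * x := Subtype.ext (by simp [cj, commutatorElement_def, mul_assoc])
    rw [h1, hc, (hker _).mpr (hcomm (commutator_mem_commutator (mem_top _) (mem_top _))), zero_add]
  refine Nat.Coprime.symm ((Nat.Prime.coprime_iff_not_dvd hp.out).mpr fun h => hidx (h.trans ?_))
  rw [← Subgroup.index_ker]
  exact (Subgroup.index_dvd_of_le hle).trans (relIndex_dvd_index_of_le le_normalizer)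

end Coord

/-- Scalar matrices in a group of invertible matrices. -/
def scalarsIn (H : Subgroup (GL (Fin 2) (ZMod p))) : Subgroup H where
  carrier := {h | ∃ s : ZMod p, ((h : GL (Fin 2) (ZMod p)) : Matrix (Fin 2) (Fin 2) (ZMod p)) = s • 1}
  one_mem' := ⟨1, by simp⟩
  mul_mem' := by
    rintro a b ⟨s, hs⟩ ⟨t, ht⟩
    exact ⟨s * t, by simp [hs, ht, smul_smul, mul_comm]⟩
  inv_mem' := by
    rintro a ⟨s, hs⟩
    refine ⟨s⁻¹, ?_⟩
    have h1 : (((a : GL (Fin 2) (ZMod p))⁻¹ : GL (Fin 2) (ZMod p)) : Matrix (Fin 2) (Fin 2) (ZMod p)) * (s • 1) = 1 := by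
      rw [← hs, Units.inv_mul]
    rw [Matrix.mul_smul, mul_one] at h1
    have hs0 : s ≠ 0 := fun h => by
      rw [h, zero_smul] at h1
      simpa using congrFun (congrFun h1 0) 0
    show (((a : GL (Fin 2) (ZMod p))⁻¹ : GL (Fin 2) (ZMod p)) : Matrix (Fin 2) (Fin 2) (ZMod p)) = _
    conv_rhs => rw [← h1]
    rw [smul_smul, inv_mul_cancel₀ hs0, one_smul]

/-- The matrix of an element of a matrix group. -/
abbrev toMat {H : Subgroup (GL (Fin 2) (ZMod p))} (h : H) : Matrix (Fin 2) (Fin 2) (ZMod p) :=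
  ((h : GL (Fin 2) (ZMod p)) : Matrix (Fin 2) (Fin 2) (ZMod p))

theorem toMat_inj {H : Subgroup (GL (Fin 2) (ZMod p))} {a b : H} (h : toMat a = toMat b) : a = b :=
  Subtype.ext (Units.ext h)

theorem toMat_mul {H : Subgroup (GL (Fin 2) (ZMod p))} (a b : H) : toMat (a * b) = toMat a * toMat b := by
  simp [toMat]

theorem not_scalar {H : Subgroup (GL (Fin 2) (ZMod p))} {g : H} (hg : g ∉ scalarsIn H) (s : ZMod p) :
    toMat g ≠ s • 1 := fun h => hg ⟨s, h⟩

theorem ctData_gl {H : Subgroup (GL (Fin 2) (ZMod p))} (h2 : p ≠ 2) (hH : (Nat.card H).Coprime p) :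
    CTData ↥H (scalarsIn H) := by
  have hh2 : (2 : ZMod p) ≠ 0 := fun h => h2 ((Nat.prime_dvd_prime_iff_eq hp.out Nat.prime_two).mp
    ((ZMod.natCast_eq_zero_iff 2 p).mp (by exact_mod_cast h)) )
  refine ⟨?_, ?_, ?_⟩
  · rintro z ⟨s, hs⟩ h
    refine toMat_inj ?_
    rw [toMat_mul, toMat_mul, show toMat z = s • 1 from hs]
    simp
  · intro x y w hy hxy hyw
    obtain ⟨α, β, hx⟩ := mat2_commutant (not_scalar hy) (show toMat x * toMat y = toMat y * toMat x by
      rw [← toMat_mul, ← toMat_mul, hxy])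
    refine toMat_inj ?_
    rw [toMat_mul, toMat_mul, hx, add_mul, mul_add, Matrix.smul_mul, Matrix.mul_smul, Matrix.smul_mul,
      Matrix.mul_smul, one_mul, mul_one, ← toMat_mul, ← toMat_mul, hyw]
  · intro x hx a b ha ha' hb hb'
    set g := toMat x
    have hdisc : g.trace ^ 2 - 4 * g.det ≠ 0 := by
      intro h0
      refine hx ?_
      set s := g.trace / 2 with hs
      have hts : g.trace = 2 * s := by rw [hs]; field_simp
      rw [Matrix.trace_fin_two] at hts
      rw [Matrix.trace_fin_two, Matrix.det_fin_two] at h0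
      have hN : (g - s • 1) * (g - s • 1) = 0 := by
        have hq : g 0 0 * g 1 1 - g 0 1 * g 1 0 = s ^ 2 := mul_left_cancel₀
          (show (4 : ZMod p) ≠ 0 by
            rw [show (4 : ZMod p) = 2 * 2 by norm_num]; exact mul_ne_zero hh2 hh2)
          (by linear_combination (-1 : ZMod p) * h0 + (g 0 0 + g 1 1 + 2 * s) * hts)
        ext i j; fin_cases i <;> fin_cases j <;> simp [Matrix.mul_apply, Fin.sum_univ_two]
        · linear_combination (g 0 0) * hts - hq
        · linear_combination (g 0 1) * hts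
        · linear_combination (g 1 0) * hts
        · linear_combination (g 1 1) * hts - hq
      have hpow : x ^ p ∈ scalarsIn H := by
        refine ⟨s ^ p, ?_⟩
        show (((x ^ p : ↥H) : GL (Fin 2) (ZMod p)) : Matrix (Fin 2) (Fin 2) (ZMod p)) = _
        rw [SubgroupClass.coe_pow, Units.val_pow_eq_pow_val]
        show g ^ p = _
        rw [show g = s • 1 + (g - s • 1) by abel, mat2_pow_nilpotent s hN]
        simp
      obtain ⟨m, hm⟩ := exists_pow_eq_self_of_coprime
        (Nat.Coprime.coprime_dvd_left (orderOf_dvd_natCard x) hH).symm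
      rw [← hm]
      exact Subgroup.pow_mem _ hpow _
    have key : ∀ u : H, u * x * u⁻¹ * x = x * (u * x * u⁻¹) → u * x * u⁻¹ ≠ x →
        toMat (u * x * u⁻¹) = g.trace • 1 - g := by
      intro u hu hu'
      refine mat2_other_root (not_scalar hx) hh2 hdisc (by rw [← toMat_mul, ← toMat_mul, hu]) ?_ ?_
        (fun h => hu' (toMat_inj h))
      · show Matrix.trace (toMat (u * x * u⁻¹)) = g.trace
        rw [toMat_mul, toMat_mul, Matrix.trace_mul_comm, ← Matrix.mul_assoc, ← toMat_mul, ← toMat_mul,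
          inv_mul_cancel, one_mul]
      · show Matrix.det (toMat (u * x * u⁻¹)) = g.det
        rw [toMat_mul, toMat_mul, Matrix.det_mul, Matrix.det_mul, mul_right_comm, ← Matrix.det_mul, ← toMat_mul,
          mul_inv_cancel]
        simp [toMat, g]
    exact toMat_inj ((key a ha ha').trans (key b hb hb').symm)

/-- The data of a torus element for the coordinate vector `v`. -/
def HasTorus (H : Subgroup (GL (Fin 2) (ZMod p))) (v : Fin 2 → ZMod p) : Prop :=
  ∃ g : H, g ∉ scalarsIn H ∧ (∃ s : ZMod p, Matrix.mulVec (toMat g) v = s • v) ∧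
    ∃ d : ℕ, 0 < d ∧ p - 1 ∣ 3 * d ∧ d * Nat.card (scalarsIn H) ∣ Nat.card (ctTorus g)

/-- Three lines with large tori cannot occur. -/
theorem not_three_torus {H : Subgroup (GL (Fin 2) (ZMod p))} (h2 : p ≠ 2) (hH : (Nat.card H).Coprime p)
    (hp5 : 17 ≤ p ∨ p = 11) (v : Fin 3 → Fin 2 → ZMod p) (hv : ∀ i j, i ≠ j → det2 (v i) (v j) ≠ 0)
    (ht : ∀ i, HasTorus H (v i)) : False := by
  haveI : Fintype H := Fintype.ofFinite H
  choose g hg hs' d hd0 hd q₁ hq₁ using ht
  choose s hs using hs'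
  have hdT : ∀ i, d i * Nat.card (scalarsIn H) ∣ Nat.card (ctTorus (g i)) := fun i => ⟨q₁ i, hq₁ i⟩
  have hd6 : ∀ i, 6 * Nat.card (scalarsIn H) ≤ Nat.card (ctTorus (g i)) := by
    intro i
    refine le_trans (Nat.mul_le_mul_right _ ?_) (Nat.le_of_dvd Nat.card_pos (hdT i))
    obtain ⟨q, hq⟩ := hd i
    rcases hp5 with h | h
    · have : q ≠ 0 := fun h0 => by rw [h0, mul_zero] at hq; have := hd0 i; omega
      have : p - 1 ≤ 3 * d i := hq ▸ Nat.le_mul_of_pos_right _ (Nat.pos_of_ne_zero this)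
      omega
    · subst h
      have := hd0 i
      omega
  have hsame : ∀ i, ctTorus (g i) = ctTorus (g 0) := fun i => by
    exact ((ctData_gl h2 hH).main (hg 0) ((Nat.mul_le_mul_right _ (by norm_num)).trans (hd6 0))).2 (hd6 0) _ (hg i)
      ((Nat.mul_le_mul_right _ (by norm_num)).trans (hd6 i))
  have heig : ∀ i, ∃ t : ZMod p, Matrix.mulVec (toMat (g 0)) (v i) = t • v i := by
    intro i
    have hc : g 0 ∈ ctTorus (g i) := by rw [hsame i]; exact self_mem_ctTorus _
    obtain ⟨α, β, h⟩ := mat2_commutant (not_scalar (hg i))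
      (show toMat (g 0) * toMat (g i) = toMat (g i) * toMat (g 0) by
        rw [← toMat_mul, ← toMat_mul, mem_ctTorus.mp hc])
    exact ⟨α * s i + β, by rw [h, Matrix.add_mulVec, Matrix.smul_mulVec, Matrix.smul_mulVec, hs i,
      Matrix.one_mulVec, smul_smul, add_smul]⟩
  choose t ht using heig
  exact mat2_three_eigen (not_scalar (hg 0)) (hv 0 1 (by decide)) (hv 0 2 (by decide)) (hv 2 1 (by decide))
    (ht 0) (ht 1) (ht 2)

/-- Thirteen lines with tori cannot occur for `p = 13`. -/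
theorem not_all_torus {H : Subgroup (GL (Fin 2) (ZMod p))} (hH : (Nat.card H).Coprime p) (hp13 : p = 13)
    (v : Fin 13 → Fin 2 → ZMod p) (hv : ∀ i j, i ≠ j → det2 (v i) (v j) ≠ 0) (ht : ∀ i, HasTorus H (v i)) :
    False := by
  classical
  haveI : Fintype H := Fintype.ofFinite H
  choose g hg hs' d hd0 hd q₁ hq₁ using ht
  choose s hs using hs'
  have hdT : ∀ i, d i * Nat.card (scalarsIn H) ∣ Nat.card (ctTorus (g i)) := fun i => ⟨q₁ i, hq₁ i⟩
  have hd4 : ∀ i, 4 * Nat.card (scalarsIn H) ≤ Nat.card (ctTorus (g i)) := by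
    intro i
    refine le_trans (Nat.mul_le_mul_right _ ?_) (Nat.le_of_dvd Nat.card_pos (hdT i))
    obtain ⟨q, hq⟩ := hd i
    subst hp13
    have := hd0 i
    omega
  obtain ⟨S, hS, hSin⟩ := ((ctData_gl (by omega) hH).main (hg 0) (hd4 0)).1
  obtain ⟨T, hT, hlt⟩ := Finset.exists_lt_card_fiber_of_mul_lt_card_of_maps_to (s := Finset.univ)
    (f := fun i => ctTorus (g i)) (n := 2) (fun i _ => hSin _ (hg i) (hd4 i))
    (show S.card * 2 < (Finset.univ : Finset (Fin 13)).card by simp; omega)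
  obtain ⟨i, j, k, hi, hj, hk, hij, hik, hjk⟩ := Finset.two_lt_card_iff.mp hlt
  simp only [Finset.mem_filter, Finset.mem_univ, true_and] at hi hj hk
  have heig : ∀ l, ctTorus (g l) = T → ∃ t : ZMod p, Matrix.mulVec (toMat (g i)) (v l) = t • v l := by
    intro l hl
    have hc : g i ∈ ctTorus (g l) := by rw [hl, ← hi]; exact self_mem_ctTorus _
    obtain ⟨α, β, h⟩ := mat2_commutant (not_scalar (hg l))
      (show toMat (g i) * toMat (g l) = toMat (g l) * toMat (g i) by
        rw [← toMat_mul, ← toMat_mul, mem_ctTorus.mp hc])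
    exact ⟨α * s l + β, by rw [h, Matrix.add_mulVec, Matrix.smul_mulVec, Matrix.smul_mulVec, hs l,
      Matrix.one_mulVec, smul_smul, add_smul]⟩
  obtain ⟨t₁, ht₁⟩ := heig i hi
  obtain ⟨t₂, ht₂⟩ := heig j hj
  obtain ⟨t₃, ht₃⟩ := heig k hk
  exact mat2_three_eigen (not_scalar (hg i)) (hv i j hij) (hv i k hik) (hv k j hjk.symm) ht₁ ht₂ ht₃

/-- A subgroup `⟨z, a⟩` whose automizer contains `SL₂(p)` gives a torus element fixing the line of `a`. -/
theorem esp_hasTorus {P : Subgroup G} {c : P → (Fin 2 → ZMod p)} (hP2 : IsPGroup p P) (hidx : ¬ p ∣ P.index)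
    (hE : Cfsg.IsExtraspecial p P) (hcard : Nat.card P = p ^ 3) (hexp : ∀ x ∈ P, x ^ p = 1) (hp7 : 7 ≤ p)
    (hc : ∀ x y, c (x * y) = c x + c y) (hker : ∀ x, c x = 0 ↔ x ∈ Subgroup.center P)
    {ρ : ↥(normalizer (P : Set G)) →* GL (Fin 2) (ZMod p)}
    (hρ : ∀ (g : ↥(normalizer (P : Set G))) (x : P), Matrix.mulVec (ρ g : Matrix (Fin 2) (Fin 2) (ZMod p)) (c x) =
        c ⟨(g : G) * x * (g : G)⁻¹, (mem_normalizer_iff.mp g.2 x).mp x.2⟩)
    {z a : P} (hz : z ∈ Subgroup.center P) (hz1 : z ≠ 1) (ha : a ∉ Subgroup.center P)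
    (hw : ∃ w : G, w * (a : G) * w⁻¹ = a ∧ w * (z : G) * w⁻¹ = (z : G) * a) :
    HasTorus ρ.range (c a) := by
  classical
  obtain ⟨w, hwa, hwz⟩ := hw
  have hzp : (z : G) ^ p = 1 := hexp _ z.2
  have hap : (a : G) ^ p = 1 := hexp _ a.2
  have hza : (z : G) * a = a * z := (congrArg Subtype.val (Subgroup.mem_center_iff.mp hz a)).symm
  have hzpow : zpowers z = Subgroup.center P :=
    H24.zpowers_eq_of_card_prime hE.2 hz hz1
  -- `b`
  obtain ⟨b, hb⟩ := H24.espec_exists_comm_eq hE ha (inv_mem hz)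
  have hba : (b : G) * a * (b : G)⁻¹ = a * z := by
    have h := congrArg Subtype.val hb
    simp [commutatorElement_def] at h
    calc (b : G) * a * (b : G)⁻¹ = ((a : G) * b * (a : G)⁻¹ * (b : G)⁻¹)⁻¹ * a := by group
      _ = _ := by rw [h, inv_inv, hza]
  have hbz : (b : G) * z * (b : G)⁻¹ = z := by
    have := congrArg Subtype.val (Subgroup.mem_center_iff.mp hz b)
    calc (b : G) * z * (b : G)⁻¹ = (z : G) * b * (b : G)⁻¹ := by rw [show (b : G) * z = z * b from this]
      _ = z := by group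
  -- coordinates on `A`
  let φ : ZMod p → ZMod p → G := fun i j => zpw (z : G) i * zpw (a : G) j
  have hzpw_comm : ∀ s t : ZMod p, zpw (a : G) s * zpw (z : G) t = zpw (z : G) t * zpw (a : G) s :=
    fun s t => ((Commute.pow_pow (show Commute (a : G) z from hza.symm) _ _).eq)
  have hφmul : ∀ i j k l, φ i j * φ k l = φ (i + k) (j + l) := by
    intro i j k l
    simp only [φ, zpw_add hzp, zpw_add hap]
    calc zpw (z : G) i * zpw (a : G) j * (zpw (z : G) k * zpw (a : G) l)
        = zpw (z : G) i * (zpw (a : G) j * zpw (z : G) k) * zpw (a : G) l := by group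
      _ = _ := by rw [hzpw_comm]; group
  have hφpow : ∀ i j (n : ℕ), φ i j ^ n = φ (n * i) (n * j) := by
    intro i j n
    induction n with
    | zero => simp [φ, zpw_zero]
    | succ n ih => rw [pow_succ, ih, hφmul]; push_cast; ring_nf
  let Act : G → (ZMod p → ZMod p → ZMod p × ZMod p) → Prop := fun g f =>
    ∀ i j, g * φ i j * g⁻¹ = φ (f i j).1 (f i j).2
  have hActmul : ∀ {g h f k}, Act g f → Act h k → Act (g * h) (fun i j => f (k i j).1 (k i j).2) := by
    intro g h f k hg hh i j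
    rw [show g * h * φ i j * (g * h)⁻¹ = g * (h * φ i j * h⁻¹) * g⁻¹ by group, hh, hg]
  have hActb : Act (b : G) (fun i j => (i + j, j)) := by
    intro i j
    show (b : G) * (zpw (z : G) i * zpw (a : G) j) * (b : G)⁻¹ = _
    simp only [φ]
    rw [← conj_mul, zpw, zpw, ← conj_pow, ← conj_pow, hbz, hba,
      (show Commute (a : G) z from hza.symm).mul_pow, zpw_add hzp]
    show (z : G) ^ i.val * (zpw (a : G) j * zpw (z : G) j) = _
    rw [hzpw_comm, ← mul_assoc]; rfl
  have hActw : Act w (fun i j => (i, j + i)) := by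
    intro i j
    show w * (zpw (z : G) i * zpw (a : G) j) * w⁻¹ = _
    simp only [φ]
    rw [← conj_mul, zpw, zpw, ← conj_pow, ← conj_pow, hwz, hwa,
      (show Commute (z : G) a from hza).mul_pow, zpw_add hap]
    show zpw (z : G) i * zpw (a : G) i * zpw (a : G) j = _
    rw [mul_assoc, ← zpw_add hap, add_comm i j, zpw_add hap]; rfl
  have hActbn : ∀ n : ℕ, Act ((b : G) ^ n) (fun i j => (i + n * j, j)) := by
    intro n
    induction n with
    | zero => intro i j; simp
    | succ n ih =>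
      intro i j
      rw [pow_succ', hActmul hActb ih i j]
      push_cast
      congr 1; ring
  have hActwn : ∀ n : ℕ, Act (w ^ n) (fun i j => (i, j + n * i)) := by
    intro n
    induction n with
    | zero => intro i j; simp
    | succ n ih =>
      intro i j
      rw [pow_succ', hActmul hActw ih i j]
      push_cast
      congr 1; ring
  -- the diagonal element
  obtain ⟨l, hl⟩ := IsCyclic.exists_generator (α := (ZMod p)ˣ)
  have hlord : orderOf (l : ZMod p) = p - 1 := by
    rw [orderOf_units, orderOf_eq_card_of_forall_mem_zpowers hl, Nat.card_units, Nat.card_zmod]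
  set lam : ZMod p := (l : ZMod p) with hlam
  set mu : ZMod p := ((l⁻¹ : (ZMod p)ˣ) : ZMod p) with hmu
  have hlm : lam * mu = 1 := Units.mul_inv l
  set gd : G := ((b : G) ^ lam.val * w ^ (-mu).val * (b : G) ^ lam.val) *
    ((b : G) ^ (-1 : ZMod p).val * w * (b : G) ^ (-1 : ZMod p).val) with hgd
  have hActd : Act gd (fun i j => (lam * i, mu * j)) := by
    intro i j
    rw [hgd, hActmul (hActmul (hActmul (hActbn _) (hActwn _)) (hActbn _))
      (hActmul (hActmul (hActbn _) hActw) (hActbn _)) i j]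
    simp only [ZMod.natCast_zmod_val]
    congr 1
    · linear_combination (j - lam * i) * hlm
    · linear_combination (-i) * hlm
  have hφ10 : φ 1 0 = (z : G) := by simp [φ, zpw_one, zpw_zero]
  have hφ01 : φ 0 1 = (a : G) := by simp [φ, zpw_one, zpw_zero]
  have hφmem : ∀ i j, φ i j ∈ P := fun i j => P.mul_mem (P.pow_mem z.2 _) (P.pow_mem a.2 _)
  set A : Subgroup G := closure ({(z : G), (a : G)} : Set G) with hA
  have hφA : ∀ i j, φ i j ∈ A := fun i j => A.mul_mem (A.pow_mem (subset_closure (by simp)) _)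
    (A.pow_mem (subset_closure (by simp)) _)
  have hnormA : ∀ g : G, g * (z : G) * g⁻¹ ∈ A → g * (a : G) * g⁻¹ ∈ A → g ∈ normalizer (A : Set G) := by
    intro g h1 h2
    refine clinv_mem_normalizer fun x hx => ?_
    have : A ≤ A.comap (MulAut.conj g).toMonoidHom := (closure_le _).mpr (by
      rintro y (rfl | rfl) <;> assumption)
    exact this hx
  have hcenA : ∀ g : G, g * (z : G) = z * g → g * (a : G) = a * g → g ∈ centralizer (A : Set G) := by
    intro g h1 h2
    have : A ≤ centralizer ({g} : Set G) := (closure_le _).mpr (by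
      rintro y (rfl | rfl) <;> simp only [SetLike.mem_coe, mem_centralizer_singleton_iff]
      · exact h1.symm
      · exact h2.symm)
    exact mem_centralizer_iff.mpr fun y hy => mem_centralizer_singleton_iff.mp (this hy)
  -- how elements of `P` act
  have hyact : ∀ y ∈ P, ∃ t : ZMod p, Act y (fun i j => (i + t * j, j)) := by
    intro y hy
    have h1 : ⁅(⟨y, hy⟩ : P), a⁆ ∈ Subgroup.center P := H24.espec_comm_mem hE _ _
    rw [← hzpow, ← mem_powers_iff_mem_zpowers] at h1
    obtain ⟨t, ht⟩ := h1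
    have ht' : y * a * y⁻¹ = (z : G) ^ t * a := by
      have h := congrArg Subtype.val ht
      simp [commutatorElement_def] at h
      rw [h]; group
    have hyz : y * z * y⁻¹ = z := by
      have := congrArg Subtype.val (Subgroup.mem_center_iff.mp hz ⟨y, hy⟩)
      calc y * z * y⁻¹ = (z : G) * y * y⁻¹ := by rw [show y * (z : G) = z * y from this]
        _ = z := by group
    refine ⟨(t : ZMod p), fun i j => ?_⟩
    have : φ i j = (z : G) ^ i.val * (a : G) ^ j.val := rfl
    rw [this, ← conj_mul, ← conj_pow, ← conj_pow, hyz, ht',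
      (Commute.pow_left (show Commute (z : G) a from hza) t).mul_pow]
    show _ = zpw (z : G) (i + (t : ZMod p) * j) * zpw (a : G) j
    rw [zpw_add hzp, ← pow_mul, mul_assoc]
    congr 1
    show _ = zpw (z : G) ((t : ZMod p) * j) * _
    rw [← ZMod.natCast_zmod_val j, ← Nat.cast_mul, zpw_natCast hzp, zpw_natCast hap, ZMod.natCast_zmod_val]
  have hPA : P ≤ normalizer (A : Set G) := by
    intro y hy
    obtain ⟨t, ht⟩ := hyact y hy
    refine hnormA y ?_ ?_
    · rw [← hφ10, ht]; exact hφA _ _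
    · rw [← hφ01, ht]; exact hφA _ _
  -- move `gd` into `N(P)`
  set K := P ⊔ centralizer (A : Set G) with hK
  have hPC : P ≤ normalizer ((centralizer (A : Set G) : Subgroup G) : Set G) := fun y hy =>
    clinv_normalizer_centralizer (hPA hy)
  have hdK : P.map (MulAut.conj gd).toMonoidHom ≤ K := by
    rintro _ ⟨y, hy, rfl⟩
    obtain ⟨t, ht⟩ := hyact y hy
    show gd * y * gd⁻¹ ∈ K
    have hdinv : Act gd⁻¹ (fun i j => (mu * i, lam * j)) := by
      intro i j
      have h := hActd (mu * i) (lam * j)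
      simp only at h
      rw [show lam * (mu * i) = i by rw [← mul_assoc, hlm, one_mul],
        show mu * (lam * j) = j by rw [← mul_assoc, mul_comm mu, hlm, one_mul]] at h
      rw [← h]; group
    have hact := hActmul (hActmul hActd ht) hdinv
    set n := (lam * lam * t).val
    have heq : ∀ i j, (gd * y * gd⁻¹) * φ i j * (gd * y * gd⁻¹)⁻¹ = (b : G) ^ n * φ i j * ((b : G) ^ n)⁻¹ := by
      intro i j
      rw [hact i j, hActbn n i j]
      simp only [n, ZMod.natCast_zmod_val]
      congr 1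
      · rw [show lam * (mu * i + t * (lam * j)) = i + lam * lam * t * j by linear_combination i * hlm]
      · rw [show mu * (lam * j) = j by linear_combination j * hlm]
    have hmemC : ((b : G) ^ n)⁻¹ * (gd * y * gd⁻¹) ∈ centralizer (A : Set G) := by
      have key : ∀ x, (∃ i j, φ i j = x) → ((b : G) ^ n)⁻¹ * (gd * y * gd⁻¹) * x = x * (((b : G) ^ n)⁻¹ * (gd * y * gd⁻¹)) := by
        rintro _ ⟨i, j, rfl⟩
        calc ((b : G) ^ n)⁻¹ * (gd * y * gd⁻¹) * φ i j
            = ((b : G) ^ n)⁻¹ * ((gd * y * gd⁻¹) * φ i j * (gd * y * gd⁻¹)⁻¹) * (gd * y * gd⁻¹) := by group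
          _ = ((b : G) ^ n)⁻¹ * ((b : G) ^ n * φ i j * ((b : G) ^ n)⁻¹) * (gd * y * gd⁻¹) := by rw [heq]
          _ = _ := by group
      exact hcenA _ (key _ ⟨1, 0, hφ10⟩) (key _ ⟨0, 1, hφ01⟩)
    have := K.mul_mem (mem_sup_left (P.pow_mem b.2 n)) (mem_sup_right hmemC)
    rwa [mul_inv_cancel_left] at this
  have hsylK : ∀ Q : Subgroup G, Q ≤ K → Nat.card Q = Nat.card P → IsPGroup p Q →
      ∃ S : Sylow p K, (S : Subgroup K) = Q.subgroupOf K := by
    intro Q hQK hQc hQ
    refine ⟨(hQ.comap_of_injective K.subtype K.subtype_injective).toSylow (P := Q.subgroupOf K) ?_, IsPGroup.toSylow_coe _ _⟩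
    have h : Q.relIndex K ∣ P.index := by
      have h1 := Q.card_mul_index
      rw [← relIndex_mul_index hQK, hQc, ← P.card_mul_index] at h1
      exact ⟨K.index, (Nat.eq_of_mul_eq_mul_left Nat.card_pos h1).symm⟩
    exact fun hd' => hidx (hd'.trans h)
  obtain ⟨S₁, hS₁⟩ := hsylK _ hdK (card_map_of_injective (MulAut.conj gd).injective) (hP2.map _)
  obtain ⟨S₂, hS₂⟩ := hsylK P le_sup_left rfl hP2
  obtain ⟨k, hk⟩ := MulAction.exists_smul_eq K S₁ S₂
  have hkP : ∀ x ∈ P, (k : G) * gd * x * ((k : G) * gd)⁻¹ ∈ P := by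
    intro x hx
    have hxK : gd * x * gd⁻¹ ∈ K := hdK ⟨x, hx, rfl⟩
    have h1 : k * ⟨gd * x * gd⁻¹, hxK⟩ * k⁻¹ ∈ (S₂ : Subgroup K) := by
      rw [← hk, Sylow.coe_subgroup_smul, Subgroup.mem_pointwise_smul_iff_inv_smul_mem, hS₁]
      refine mem_subgroupOf.mpr ⟨x, hx, ?_⟩
      simp [MulAut.smul_def, mul_assoc]
    rw [hS₂, mem_subgroupOf] at h1
    simpa [mul_assoc] using h1
  have hkg : (k : G) * gd ∈ normalizer (P : Set G) := clinv_mem_normalizer hkP
  obtain ⟨y, hy, c₀, hc₀, hyc⟩ : (k : G) ∈ ((P : Set G) * ((centralizer (A : Set G) : Subgroup G) : Set G)) := by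
    rw [← coe_mul_of_left_le_normalizer_right _ _ hPC]; exact k.2
  simp only at hyc
  set h := c₀ * gd with hh
  have hhN : h ∈ normalizer (P : Set G) := by
    have := mul_mem (inv_mem (le_normalizer hy)) hkg
    rw [← hyc, show y⁻¹ * (y * c₀ * gd) = c₀ * gd by group] at this
    exact this
  have hActh : Act h (fun i j => (lam * i, mu * j)) := by
    intro i j
    have h1 := mem_centralizer_iff.mp hc₀ _ (hφA (lam * i) (mu * j))
    calc h * φ i j * h⁻¹ = c₀ * (gd * φ i j * gd⁻¹) * c₀⁻¹ := by rw [hh]; group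
      _ = c₀ * φ (lam * i) (mu * j) * c₀⁻¹ := by rw [hActd]
      _ = _ := by rw [← h1]; group
  -- the image
  set hN : ↥(normalizer (P : Set G)) := ⟨h, hhN⟩
  set g : ρ.range := ⟨ρ hN, hN, rfl⟩ with hgdef
  have hca : Matrix.mulVec (toMat g) (c a) = mu • c a := by
    show Matrix.mulVec (ρ hN : Matrix (Fin 2) (Fin 2) (ZMod p)) (c a) = _
    rw [hρ, ← ZMod.natCast_zmod_val mu, ← coord_pow hc]
    congr 1
    apply Subtype.ext
    show h * (a : G) * h⁻¹ = ((a ^ mu.val : P) : G)
    rw [← hφ01, hActh]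
    simp [φ, zpw_zero, zpw]
  have hbc : ∃ t : ZMod p, Matrix.mulVec (toMat g) (c b) = (lam * lam) • c b + t • c a := by
    show ∃ t : ZMod p, Matrix.mulVec (ρ hN : Matrix (Fin 2) (Fin 2) (ZMod p)) (c b) = _
    rw [hρ]
    set hb' : P := ⟨h * (b : G) * h⁻¹, (mem_normalizer_iff.mp hhN b).mp b.2⟩
    set n := (lam * lam).val with hn
    set x : P := (b ^ n)⁻¹ * hb' with hx
    have hxc : (x : G) * a = a * x := by
      have hdinv : h⁻¹ * (a : G) * h = φ 0 lam := by
        have h1 := hActh 0 lam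
        simp only [mul_zero, show mu * lam = 1 by rw [mul_comm]; exact hlm, hφ01] at h1
        rw [← h1]; group
      have h2 : (h * (b : G) * h⁻¹) * a * (h * (b : G) * h⁻¹)⁻¹ = φ (lam * lam) 1 := by
        calc (h * (b : G) * h⁻¹) * a * (h * (b : G) * h⁻¹)⁻¹
            = h * ((b : G) * (h⁻¹ * a * h) * (b : G)⁻¹) * h⁻¹ := by group
          _ = φ (lam * lam) 1 := by
              rw [hdinv, hActb, hActh]
              simp only [zero_add, show mu * lam = 1 by rw [mul_comm]; exact hlm]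
      have h3 : (b : G) ^ n * a * ((b : G) ^ n)⁻¹ = φ (lam * lam) 1 := by
        rw [← hφ01, hActbn]; simp [hn]
      calc (x : G) * a = ((b : G) ^ n)⁻¹ * ((h * (b : G) * h⁻¹) * a * (h * (b : G) * h⁻¹)⁻¹) * (h * (b : G) * h⁻¹) := by
            simp [x, hb']; group
        _ = ((b : G) ^ n)⁻¹ * ((b : G) ^ n * a * ((b : G) ^ n)⁻¹) * (h * (b : G) * h⁻¹) := by rw [h2, h3]
        _ = a * x := by simp [x, hb']; group
    -- the centralizer of `a` in `P` is `A`
    have hxA : ∃ i j, φ i j = (x : G) := by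
      let f : ZMod p × ZMod p → ↥(centralizer ({a} : Set P)) := fun ij =>
        ⟨⟨φ ij.1 ij.2, hφmem _ _⟩, mem_centralizer_singleton_iff.mpr (Subtype.ext (by
          show φ ij.1 ij.2 * (a : G) = (a : G) * φ ij.1 ij.2
          rw [← hφ01, hφmul, hφmul, add_comm ij.1, add_comm ij.2]))⟩
      have hf : Function.Injective f := by
        rintro ⟨i, j⟩ ⟨i', j'⟩ e
        have e' : φ i j = φ i' j' := congrArg Subtype.val (congrArg Subtype.val e)
        have e'' : φ (i - i') (j - j') = 1 := by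
          have := hφmul (i - i') (j - j') i' j'
          rw [sub_add_cancel, sub_add_cancel, e', mul_eq_right] at this
          exact this
        by_cases hj : j - j' = 0
        · by_cases hi : i - i' = 0
          · exact Prod.ext (sub_eq_zero.mp hi) (sub_eq_zero.mp hj)
          · exfalso
            refine hz1 (Subtype.ext ?_)
            have h1 := congrArg (fun u => u ^ (i - i')⁻¹.val) e''
            simp only [hφpow, ZMod.natCast_zmod_val, hj, mul_zero, inv_mul_cancel₀ hi, one_pow, hφ10] at h1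
            exact h1
        · exfalso
          refine ha ?_
          have h1 := congrArg (fun u => u ^ (j - j')⁻¹.val) e''
          simp only [hφpow, ZMod.natCast_zmod_val, inv_mul_cancel₀ hj, one_pow] at h1
          have h2 : zpw (z : G) ((j - j')⁻¹ * (i - i')) * (a : G) = 1 := by simpa [φ, zpw_one] using h1
          have h3 : a = (z ^ ((j - j')⁻¹ * (i - i')).val)⁻¹ := Subtype.ext (by
            simpa [zpw] using eq_inv_of_mul_eq_one_right h2)
          rw [h3]; exact inv_mem (pow_mem hz _)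
      have hne : centralizer ({a} : Set P) ≠ ⊤ := fun ht => ha (Subgroup.mem_center_iff.mpr fun u =>
        mem_centralizer_singleton_iff.mp (ht ▸ mem_top u))
      have hbij : Function.Bijective f := by
        refine hf.bijective_of_nat_card_le ?_
        rw [Nat.card_prod, Nat.card_zmod, ← pow_two]
        obtain ⟨k, hk, hk'⟩ := (Nat.dvd_prime_pow hp.out).mp (hcard ▸ card_subgroup_dvd_card (centralizer ({a} : Set P)))
        rcases (by omega : k ≤ 2 ∨ k = 3) with h' | rfl
        · rw [hk']; exact Nat.pow_le_pow_right hp.out.pos h'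
        · exact absurd (eq_top_of_card_eq _ (hk'.trans hcard.symm)) hne
      obtain ⟨⟨i, j⟩, hij⟩ := hbij.2 ⟨x, mem_centralizer_singleton_iff.mpr (Subtype.ext hxc)⟩
      exact ⟨i, j, congrArg Subtype.val (congrArg Subtype.val hij)⟩
    obtain ⟨i, j, hij⟩ := hxA
    have hxeq : x = z ^ i.val * a ^ j.val := Subtype.ext (by rw [← hij]; simp [φ, zpw])
    refine ⟨j, ?_⟩
    have hcz : c (z ^ i.val) = 0 := by rw [coord_pow hc, (hker z).mpr hz, smul_zero]
    calc c hb' = c (b ^ n * x) := by rw [hx, mul_inv_cancel_left]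
      _ = _ := by
        rw [hc, hxeq, hc, hcz, coord_pow hc, coord_pow hc, hn, ZMod.natCast_zmod_val, ZMod.natCast_zmod_val, zero_add]
  obtain ⟨t, hbt⟩ := hbc
  have hca0 : c a ≠ 0 := fun h' => ha ((hker a).mp h')
  have hindep : ∀ k : ZMod p, c b ≠ k • c a := by
    intro k hk
    have h1 : b * (a ^ k.val)⁻¹ ∈ Subgroup.center P := (hker _).mp (by
      have := hc (b * (a ^ k.val)⁻¹) (a ^ k.val)
      rw [inv_mul_cancel_right, coord_pow hc, ZMod.natCast_zmod_val, hk] at this
      simpa using this.symm)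
    have h2 := Subgroup.mem_center_iff.mp h1 a
    have h3 : b * a = a * b := by
      calc b * a = b * (a ^ k.val)⁻¹ * a * a ^ k.val := by group
        _ = a * (b * (a ^ k.val)⁻¹) * a ^ k.val := by rw [← h2]
        _ = a * b := by group
    have h4 : (a : G) * z = a := by
      rw [← hba, show (b : G) * a = a * b from congrArg Subtype.val h3]; group
    exact hz1 (Subtype.ext (mul_eq_left.mp h4))
  have hpow : ∀ n : ℕ, Matrix.mulVec (toMat (g ^ n)) (c a) = mu ^ n • c a ∧
      ∃ u : ZMod p, Matrix.mulVec (toMat (g ^ n)) (c b) = (lam * lam) ^ n • c b + u • c a := by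
    intro n
    induction n with
    | zero => exact ⟨by simp [toMat], 0, by simp [toMat]⟩
    | succ n ih =>
      obtain ⟨ih1, u, ih2⟩ := ih
      constructor
      · rw [pow_succ', toMat_mul, ← Matrix.mulVec_mulVec, ih1, Matrix.mulVec_smul, hca, smul_smul, pow_succ]
      · refine ⟨(lam * lam) ^ n * t + u * mu, ?_⟩
        rw [pow_succ', toMat_mul, ← Matrix.mulVec_mulVec, ih2, Matrix.mulVec_add, Matrix.mulVec_smul, Matrix.mulVec_smul,
          hca, hbt, smul_add, smul_smul, smul_smul, smul_smul, add_smul, pow_succ, add_assoc]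
  have hscal : ∀ n : ℕ, g ^ n ∈ scalarsIn ρ.range → p - 1 ∣ 3 * n := by
    rintro n ⟨s, hs⟩
    obtain ⟨h1, u, h2⟩ := hpow n
    rw [show toMat (g ^ n) = s • 1 from hs, Matrix.smul_mulVec, Matrix.one_mulVec] at h1 h2
    have hs1 : s = mu ^ n := smul_left_injective (ZMod p) hca0 h1
    have hs2 : s = (lam * lam) ^ n := by
      by_contra hne
      refine hindep ((s - (lam * lam) ^ n)⁻¹ * u) ?_
      rw [← smul_smul, eq_inv_smul_iff₀ (sub_ne_zero.mpr hne), sub_smul, h2]
      abel
    rw [← hlord]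
    refine orderOf_dvd_of_pow_eq_one ?_
    calc lam ^ (3 * n) = lam ^ n * (lam * lam) ^ n := by rw [mul_pow, ← pow_add, ← pow_add]; congr 1; ring
      _ = (lam * mu) ^ n := by rw [← hs2, hs1, mul_pow]
      _ = 1 := by rw [hlm, one_pow]
  refine ⟨g, fun h1 => ?_, ⟨mu, hca⟩, ?_⟩
  · have := Nat.le_of_dvd (show 0 < 3 * 1 by norm_num) (hscal 1 (by rw [pow_one]; exact h1))
    omega
  · set T := ctTorus g
    have hnorm : ((scalarsIn ρ.range).subgroupOf T).Normal := ⟨fun z' hz' u => by
      rw [mem_subgroupOf] at hz' ⊢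
      obtain ⟨s, hs⟩ := hz'
      refine ⟨s, ?_⟩
      show toMat ((u : ρ.range) * (z' : ρ.range) * (u : ρ.range)⁻¹) = _
      rw [toMat_mul, toMat_mul, show toMat (z' : ρ.range) = s • 1 from hs, Matrix.mul_smul, mul_one, Matrix.smul_mul,
        ← toMat_mul, mul_inv_cancel]
      simp [toMat]⟩
    let q := QuotientGroup.mk' ((scalarsIn ρ.range).subgroupOf T) ⟨g, self_mem_ctTorus g⟩
    refine ⟨orderOf q, (isOfFinOrder_of_finite q).orderOf_pos, hscal _ ?_, ?_⟩
    · have := pow_orderOf_eq_one q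
      rw [← map_pow] at this
      exact mem_subgroupOf.mp ((QuotientGroup.eq_one_iff _).mp this)
    · have h1 := ((scalarsIn ρ.range).subgroupOf T).card_eq_card_quotient_mul_card_subgroup
      have hZT : scalarsIn ρ.range ≤ T := by
        rintro z' ⟨s, hs⟩
        refine mem_ctTorus.mpr (toMat_inj ?_)
        rw [toMat_mul, toMat_mul, show toMat z' = s • 1 from hs]
        simp
      rw [Nat.card_congr (subgroupOfEquivOfLe hZT).toEquiv] at h1
      rw [h1]
      exact Nat.mul_dvd_mul_right (orderOf_dvd_natCard q) _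

end Cfsg.Agent.H75

namespace Cfsg.Agent.H75

variable {G : Type*} [Group G] [Finite G] {p : ℕ} [hp : Fact p.Prime]

/-- A subgroup of order `p²` of `P` contains the centre and a noncentral element generating it. -/
theorem esp_sq_subgroup {P : Type*} [Group P] [Finite P] (hE : Cfsg.IsExtraspecial p P)
    (hcard : Nat.card P = p ^ 3) {A : Subgroup P} (hA : Nat.card A = p ^ 2) :
    Subgroup.center P ≤ A ∧ ∀ z ∈ Subgroup.center P, z ≠ 1 → ∀ a ∈ A, a ∉ Subgroup.center P →
      closure ({z, a} : Set P) = A := by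
  have hab : IsMulCommutative A := IsPGroup.isMulCommutative_of_card_eq_prime_sq hA
  have hZA : Subgroup.center P ≤ A := by
    by_contra hne
    have hbot : Subgroup.center P ⊓ A = ⊥ := by
      obtain ⟨k, -, hk'⟩ := (Nat.dvd_prime_pow hp.out).mp (show Nat.card ↥(Subgroup.center P ⊓ A) ∣ p ^ 1 by
        rw [pow_one, ← hE.2]; exact card_dvd_of_le inf_le_left)
      rcases Nat.eq_zero_or_pos k with rfl | hk0
      · exact Subgroup.card_eq_one.mp (by simpa using hk')
      · exfalso
        refine hne (inf_eq_left.mp (eq_of_le_of_card_ge inf_le_left ?_))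
        rw [hE.2, hk']
        exact Nat.le_self_pow hk0.ne' p
    have h1 := card_mul_card_le (Subgroup.center P) A
    rw [hbot, card_bot, one_mul, hE.2, hA, ← pow_succ', ← hcard] at h1
    have htop : Subgroup.center P ⊔ A = ⊤ := eq_top_of_le_card _ h1
    refine H24.espec_center_ne_top hE (eq_top_iff.mpr ?_)
    rw [← htop]
    refine sup_le le_rfl fun a ha => Subgroup.mem_center_iff.mpr fun g => ?_
    have hle : Subgroup.center P ⊔ A ≤ centralizer ({a} : Set P) := sup_le
      (fun z hz => mem_centralizer_singleton_iff.mpr (Subgroup.mem_center_iff.mp hz a).symm)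
      (fun b hb => mem_centralizer_singleton_iff.mpr (congrArg Subtype.val (hab.is_comm.comm (⟨b, hb⟩ : A) ⟨a, ha⟩)))
    exact mem_centralizer_singleton_iff.mp (hle (htop ▸ mem_top g))
  refine ⟨hZA, fun z hz hz1 a ha hac => ?_⟩
  refine eq_of_le_of_card_ge ((closure_le _).mpr (by rintro x (rfl | rfl); exacts [hZA hz, ha])) ?_
  obtain ⟨k, -, hk'⟩ := (Nat.dvd_prime_pow hp.out).mp (show Nat.card ↥(closure ({z, a} : Set P)) ∣ p ^ 3 by
    rw [← hcard]; exact card_subgroup_dvd_card _)
  rw [hA, hk']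
  refine Nat.pow_le_pow_right hp.out.pos (by_contra fun hk => ?_)
  push Not at hk
  have hZc : Subgroup.center P ≤ closure ({z, a} : Set P) := by
    rw [← H24.zpowers_eq_of_card_prime hE.2 hz hz1, zpowers_le]; exact subset_closure (by simp)
  refine hac ((eq_of_le_of_card_ge hZc ?_).ge (subset_closure (by simp)))
  rw [hE.2, hk']
  calc p ^ k ≤ p ^ 1 := Nat.pow_le_pow_right hp.out.pos (by omega)
    _ = p := pow_one p

/-- Elements with dependent coordinates lie in the same subgroup of order `p²`. -/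
theorem det2_ne_zero_of_notMem {P : Subgroup G} {c : P → (Fin 2 → ZMod p)}
    (hc : ∀ x y, c (x * y) = c x + c y) (hker : ∀ x, c x = 0 ↔ x ∈ Subgroup.center P)
    {A : Subgroup P} (hA : Subgroup.center P ≤ A) {a b : P} (ha : a ∈ A) (hac : a ∉ Subgroup.center P)
    (hb : b ∉ A) : det2 (c a) (c b) ≠ 0 := by
  intro h
  obtain ⟨k, hk⟩ := det2_eq_zero (fun h' => hac ((hker a).mp h')) h
  refine hb ?_
  have h1 : (a ^ k.val)⁻¹ * b ∈ Subgroup.center P := (hker _).mp (by
    have := hc (a ^ k.val) ((a ^ k.val)⁻¹ * b)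
    rw [mul_inv_cancel_left, coord_pow hc, ZMod.natCast_zmod_val, hk] at this
    simpa using this.symm)
  have := A.mul_mem (A.pow_mem ha k.val) (hA h1)
  rwa [mul_inv_cancel_left] at this

/-- If all non-identity elements of `P` are conjugate, every subgroup `⟨z, a⟩` has the transvection
fixing `a`. -/
theorem esp_transvection_of_conj {P : Sylow p G} (hE : Cfsg.IsExtraspecial p P)
    {z a : P} (hz : z ∈ Subgroup.center P) (hz1 : z ≠ 1) (ha : a ∉ Subgroup.center P)
    (hconj : ∃ g : G, g * (z : G) * g⁻¹ = (a : G)) :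
    ∃ w : G, w * (a : G) * w⁻¹ = a ∧ w * (z : G) * w⁻¹ = (z : G) * a := by
  obtain ⟨g₀, hg₀⟩ := hconj
  have hza : (z : G) * a = a * z := (congrArg Subtype.val (Subgroup.mem_center_iff.mp hz a)).symm
  set C := centralizer ({(a : G)} : Set G) with hC
  set P' := (P : Subgroup G).map (MulAut.conj g₀).toMonoidHom with hP'
  have hP'C : P' ≤ C := by
    rintro _ ⟨y, hy, rfl⟩
    refine mem_centralizer_singleton_iff.mpr ?_
    have h : y * (z : G) = z * y := congrArg Subtype.val (Subgroup.mem_center_iff.mp hz ⟨y, hy⟩)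
    show g₀ * y * g₀⁻¹ * a = a * (g₀ * y * g₀⁻¹)
    rw [← hg₀]
    calc g₀ * y * g₀⁻¹ * (g₀ * z * g₀⁻¹) = g₀ * (y * z) * g₀⁻¹ := by group
      _ = g₀ * (z * y) * g₀⁻¹ := by rw [h]
      _ = _ := by group
  have hzC : zpowers (z : G) ≤ C := zpowers_le.mpr (mem_centralizer_singleton_iff.mpr hza)
  obtain ⟨R, hR⟩ := ((P.2.to_le (zpowers_le.mpr z.2)).comap_of_injective C.subtype C.subtype_injective
    : IsPGroup p ((zpowers (z : G)).subgroupOf C)).exists_le_sylow
  obtain ⟨R', hR'⟩ := ((P.2.map (MulAut.conj g₀).toMonoidHom).comap_of_injective C.subtype C.subtype_injective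
    : IsPGroup p (P'.subgroupOf C)).exists_le_sylow
  have hR'eq : (R' : Subgroup C) = P'.subgroupOf C := by
    refine (eq_of_le_of_card_ge hR' ?_).symm
    obtain ⟨S, hS⟩ := (R'.2.map C.subtype).exists_le_sylow
    refine le_trans ?_ (Nat.card_congr (subgroupOfEquivOfLe hP'C).toEquiv).symm.le
    rw [← Subgroup.card_map_of_injective C.subtype_injective (K := (R' : Subgroup C))]
    refine (Nat.le_of_dvd Nat.card_pos (card_dvd_of_le hS)).trans ?_
    rw [S.card_eq_multiplicity, ← P.card_eq_multiplicity, hP', card_map_of_injective (MulAut.conj g₀).injective]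
  obtain ⟨k, hk⟩ := MulAction.exists_smul_eq C R' R
  have hmem : k⁻¹ * ⟨(z : G), mem_centralizer_singleton_iff.mpr hza⟩ * k ∈ (R' : Subgroup C) := by
    have h1 : (⟨(z : G), mem_centralizer_singleton_iff.mpr hza⟩ : C) ∈ ((k • R' : Sylow p C) : Subgroup C) :=
      hk ▸ hR (mem_zpowers (z : G))
    rw [Sylow.coe_subgroup_smul, Subgroup.mem_pointwise_smul_iff_inv_smul_mem] at h1
    simpa [MulAut.smul_def, mul_assoc] using h1
  rw [hR'eq, mem_subgroupOf] at hmem
  obtain ⟨y₀, hy₀, hy₀'⟩ := hmem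
  set g := (k : G) * g₀ with hg
  have hgz : g * (z : G) * g⁻¹ = a := by
    have h : (k : G) * a = a * k := mem_centralizer_singleton_iff.mp k.2
    calc g * (z : G) * g⁻¹ = (k : G) * (g₀ * z * g₀⁻¹) * (k : G)⁻¹ := by rw [hg]; group
      _ = a := by rw [hg₀, h]; group
  have hgy : g * y₀ * g⁻¹ = z := by
    have h : g₀ * y₀ * g₀⁻¹ = (k : G)⁻¹ * z * k := hy₀'
    calc g * y₀ * g⁻¹ = (k : G) * (g₀ * y₀ * g₀⁻¹) * (k : G)⁻¹ := by rw [hg]; group
      _ = z := by rw [h]; group
  have hy₀c : (⟨y₀, hy₀⟩ : P) ∉ Subgroup.center P := by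
    intro h
    rw [← H24.zpowers_eq_of_card_prime hE.2 hz hz1] at h
    obtain ⟨m, hm⟩ := h
    have hzm : (z : G) = (a : G) ^ m := by
      have hm' : (z : G) ^ m = y₀ := congrArg Subtype.val hm
      rw [← hgy, ← hm', ← conj_zpow, hgz]
    refine ha ?_
    have hza' : z ∈ zpowers a := ⟨m, Subtype.ext (by simp [hzm])⟩
    have hap : orderOf a ∣ p := by
      have h1 : orderOf (a : G) = orderOf (z : G) := by rw [← hgz, ← MulAut.conj_apply, MulEquiv.orderOf_eq]
      rw [Subgroup.orderOf_coe, Subgroup.orderOf_coe] at h1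
      rw [h1, ← Nat.card_zpowers, H24.zpowers_eq_of_card_prime hE.2 hz hz1, hE.2]
    have h2 : zpowers z = zpowers a := eq_of_le_of_card_ge (zpowers_le.mpr hza') (by
      rw [H24.zpowers_eq_of_card_prime hE.2 hz hz1, Nat.card_zpowers]
      exact (Nat.le_of_dvd hp.out.pos hap).trans hE.2.ge)
    rw [← H24.zpowers_eq_of_card_prime hE.2 hz hz1, h2]
    exact mem_zpowers a
  obtain ⟨u, hu⟩ := H24.espec_exists_comm_eq hE hy₀c (inv_mem hz)
  have huy : (u : G) * y₀ * (u : G)⁻¹ = (z : G) * y₀ := by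
    have h := congrArg Subtype.val hu
    simp [commutatorElement_def] at h
    calc (u : G) * y₀ * (u : G)⁻¹ = (y₀ * u * y₀⁻¹ * (u : G)⁻¹)⁻¹ * y₀ := by group
      _ = _ := by rw [h, inv_inv]
  have huz : (u : G) * z * (u : G)⁻¹ = z := by
    have := congrArg Subtype.val (Subgroup.mem_center_iff.mp hz u)
    calc (u : G) * z * (u : G)⁻¹ = (z : G) * u * (u : G)⁻¹ := by rw [show (u : G) * z = z * u from this]
      _ = z := by group
  refine ⟨g * u * g⁻¹, ?_, ?_⟩
  · calc g * u * g⁻¹ * a * (g * u * g⁻¹)⁻¹ = g * ((u : G) * (g⁻¹ * a * g) * (u : G)⁻¹) * g⁻¹ := by group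
      _ = g * ((u : G) * z * (u : G)⁻¹) * g⁻¹ := by rw [← hgz]; group
      _ = a := by rw [huz, hgz]
  · calc g * u * g⁻¹ * z * (g * u * g⁻¹)⁻¹ = g * ((u : G) * (g⁻¹ * z * g) * (u : G)⁻¹) * g⁻¹ := by group
      _ = g * ((u : G) * y₀ * (u : G)⁻¹) * g⁻¹ := by rw [← hgy]; group
      _ = (g * z * g⁻¹) * (g * y₀ * g⁻¹) := by rw [huy]; group
      _ = _ := by rw [hgz, hgy, hza]

end Cfsg.Agent.H75
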