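import Mathlib
import Cfsg.Agent.H24.PGroupBasic

/-!
Elements whose order is prime to `p - 1` act trivially on sections of order `p`; maximal subgroups
of `p`-groups above the Frattini subgroup.
-/

set_option autoImplicit false
set_option linter.all false
open Subgroup

namespace Cfsg.Agent.H75

variable {G : Type*} [Group G] [Finite G]

/-- An element normalizing a cyclic subgroup, of order prime to the number of automorphisms, centralizes it. -/
theorem mem_centralizer_of_cyclic {X : Subgroup G} [IsCyclic X] {n : G}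
    (hn : n ∈ normalizer (X : Set G)) (hco : (orderOf n).Coprime (Nat.totient (Nat.card X))) :
    n ∈ centralizer (X : Set G) := by
  have h1 : X.normalizerMonoidHom ⟨n, hn⟩ = 1 := by
    rw [← orderOf_eq_one_iff]
    refine Nat.eq_one_of_dvd_coprimes hco ?_ ?_
    · exact (orderOf_map_dvd _ _).trans (by rw [Subgroup.orderOf_mk])
    · have := orderOf_dvd_natCard (X.normalizerMonoidHom ⟨n, hn⟩)
      rwa [IsCyclic.card_mulAut] at this
  have h2 : (⟨n, hn⟩ : ↥(normalizer (X : Set G))) ∈ X.normalizerMonoidHom.ker := h1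
  rw [normalizerMonoidHom_ker] at h2
  exact h2

/-- An element of order prime to `p - 1` acts trivially on an invariant section of order `p`. -/
theorem conj_mul_inv_mem_of_prime_section {p : ℕ} [Fact p.Prime] {M X : Subgroup G} (hMX : M ≤ X)
    (hnorm : (M.subgroupOf X).Normal) (hidx : M.relIndex X = p) {n : G}
    (hco : (orderOf n).Coprime (p - 1)) (hnX : ∀ x ∈ X, n * x * n⁻¹ ∈ X)
    (hnM : ∀ x ∈ M, n * x * n⁻¹ ∈ M) {x : G} (hx : x ∈ X) : n * x * n⁻¹ * x⁻¹ ∈ M := by
  haveI := hnorm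
  set M' := M.subgroupOf X with hM'
  let f : X →* X :=
    { toFun := fun y => ⟨n * y * n⁻¹, hnX y y.2⟩
      map_one' := Subtype.ext (by simp)
      map_mul' := fun a b => Subtype.ext (by simp [mul_assoc]) }
  have hker : M' ≤ M'.comap f := fun y hy => hnM _ hy
  let F := QuotientGroup.map M' M' f hker
  have hcard : Nat.card (X ⧸ M') = p := hidx
  haveI : IsCyclic (X ⧸ M') := isCyclic_of_prime_card hcard
  obtain ⟨m, hm⟩ := MonoidHom.map_cyclic F
  have hiter : ∀ (k : ℕ) (y : X), ∃ hy : n ^ k * (y : G) * (n ^ k)⁻¹ ∈ X,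
      (QuotientGroup.mk' M' ⟨_, hy⟩ : X ⧸ M') = (QuotientGroup.mk' M' y) ^ (m ^ k) := by
    intro k y
    induction k with
    | zero => exact ⟨by simp, by simp⟩
    | succ k ih =>
      obtain ⟨hy, he⟩ := ih
      have e : n ^ (k + 1) * (y : G) * (n ^ (k + 1))⁻¹ = n * (n ^ k * (y : G) * (n ^ k)⁻¹) * n⁻¹ := by
        rw [pow_succ']; group
      refine ⟨by rw [e]; exact hnX _ hy, ?_⟩
      have h3 : (QuotientGroup.mk' M' ⟨n ^ (k + 1) * (y : G) * (n ^ (k + 1))⁻¹, by rw [e]; exact hnX _ hy⟩ : X ⧸ M')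
          = F (QuotientGroup.mk' M' ⟨_, hy⟩) := by
        show QuotientGroup.mk' M' _ = QuotientGroup.mk' M' (f ⟨_, hy⟩)
        congr 1
        exact Subtype.ext e
      rw [h3, hm, he, ← zpow_mul, pow_succ]
  obtain ⟨hy, he⟩ := hiter (orderOf n) ⟨x, hx⟩
  set q : X ⧸ M' := QuotientGroup.mk' M' ⟨x, hx⟩ with hq
  have he' : q ^ (m ^ orderOf n) = q := by
    rw [← he, hq]
    congr 1
    exact Subtype.ext (by simp [pow_orderOf_eq_one])
  have hfix : F q = q := by
    by_cases hq1 : q = 1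
    · rw [hq1, map_one]
    have ho : orderOf q = p := ((Nat.dvd_prime (Fact.out : p.Prime)).mp (hcard ▸ orderOf_dvd_natCard q)).resolve_left
      (fun h => hq1 (orderOf_eq_one_iff.mp h))
    have h4 : (m ^ orderOf n : ℤ) ≡ 1 [ZMOD p] := by
      rw [← ho]
      exact zpow_eq_zpow_iff_modEq.mp (by rw [zpow_one]; exact he')
    have h5 : (m : ZMod p) ^ orderOf n = 1 := by
      have := (ZMod.intCast_eq_intCast_iff _ _ p).mpr h4
      push_cast at this
      exact this
    have hm0 : (m : ZMod p) ≠ 0 := fun h => by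
      rw [h, zero_pow (orderOf_pos n).ne'] at h5
      exact zero_ne_one h5
    have h6 : (m : ZMod p) = 1 := by
      have := (pow_gcd_eq_one (m := orderOf n) (n := p - 1)).mpr ⟨h5, ZMod.pow_card_sub_one_eq_one hm0⟩
      rwa [Nat.Coprime.gcd_eq_one hco, pow_one] at this
    have h7 : m ≡ 1 [ZMOD p] := (ZMod.intCast_eq_intCast_iff _ _ p).mp (by push_cast; exact h6)
    rw [hm]
    nth_rewrite 2 [← zpow_one q]
    rw [zpow_eq_zpow_iff_modEq, ho]
    exact h7
  have h8 : (QuotientGroup.mk' M' (f ⟨x, hx⟩ * (⟨x, hx⟩ : X)⁻¹)) = 1 := by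
    rw [map_mul, map_inv]
    show F q * q⁻¹ = 1
    rw [hfix, mul_inv_cancel]
  rw [← MonoidHom.mem_ker, QuotientGroup.ker_mk'] at h8
  exact h8

/-- Every element prime to `q` for all small `q`: order prime to `p - 1`. -/
theorem coprime_sub_one_of_smallest {p : ℕ} [Fact p.Prime]
    (hmin : ∀ q : ℕ, q.Prime → q ∣ Nat.card G → p ≤ q) (n : G) : (orderOf n).Coprime (p - 1) := by
  refine Nat.coprime_of_dvd fun q hq h1 h2 => ?_
  have h3 := hmin q hq (h1.trans (orderOf_dvd_natCard n))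
  have h4 : 0 < p - 1 := by have := (Fact.out : p.Prime).two_le; omega
  have := Nat.le_of_dvd h4 h2
  omega

/-- In a `p`-group a subgroup above the Frattini subgroup is the intersection of the maximal subgroups above it. -/
theorem exists_coatom_not_mem {p : ℕ} [Fact p.Prime] {P : Type*} [Group P] [Finite P] (hP : IsPGroup p P)
    {L : Subgroup P} (hL : frattini P ≤ L) {y : P} (hy : y ∉ L) :
    ∃ M : Subgroup P, IsCoatom M ∧ L ≤ M ∧ y ∉ M := by
  obtain ⟨M, hLM, hM⟩ := Finite.exists_le_maximal (α := Subgroup P)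
    (p := fun M => L ≤ M ∧ y ∉ M) (a := L) ⟨le_rfl, hy⟩
  refine ⟨M, ⟨fun h => hM.prop.2 (h ▸ mem_top y), fun K hK => ?_⟩, hM.prop.1, hM.prop.2⟩
  have hyK : y ∈ K := by
    by_contra h
    exact hK.not_ge (hM.le_of_ge ⟨hM.prop.1.trans hK.le, h⟩ hK.le)
  haveI : M.Normal := Normal.of_commutator_le P
    ((Cfsg.Agent.H24.commutator_le_frattini hP).trans (hL.trans hM.prop.1))
  rw [eq_top_iff]
  intro z _
  by_contra hz
  have hzM : z ∉ M := fun h => hz (hK.le h)
  have hlt : M < M ⊔ zpowers z := lt_of_le_of_ne le_sup_left fun h =>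
    hzM (h ▸ mem_sup_right (mem_zpowers z))
  have hy' : y ∈ M ⊔ zpowers z := by
    by_contra h
    exact hlt.not_ge (hM.le_of_ge ⟨hM.prop.1.trans le_sup_left, h⟩ le_sup_left)
  rw [← SetLike.mem_coe, normal_mul] at hy'
  obtain ⟨u, hu, w, hw, rfl⟩ := hy'
  obtain ⟨i, rfl⟩ := mem_zpowers_iff.mp hw
  have hzi : z ^ i ∈ K := by
    have := mul_mem (inv_mem (hK.le hu)) hyK
    simpa using this
  have hzp : z ^ p ∈ K := hK.le (hM.prop.1 (hL (Cfsg.Agent.H24.pow_mem_frattini hP z)))
  have hnd : ¬ (p : ℤ) ∣ i := by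
    rintro ⟨j, rfl⟩
    refine hM.prop.2 (mul_mem hu ?_)
    rw [zpow_mul, zpow_natCast]
    exact zpow_mem (hM.prop.1 (hL (Cfsg.Agent.H24.pow_mem_frattini hP z))) j
  obtain ⟨a, b, hab⟩ : IsCoprime (p : ℤ) i := (Nat.prime_iff_prime_int.mp (Fact.out : p.Prime)).coprime_iff_not_dvd.mpr hnd
  apply hz
  have : z = (z ^ p) ^ a * (z ^ i) ^ b := by
    rw [← zpow_natCast z p, ← zpow_mul, ← zpow_mul, ← zpow_add, mul_comm (p : ℤ), mul_comm i, hab, zpow_one]
  rw [this]
  exact mul_mem (zpow_mem hzp a) (zpow_mem hzi b)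

end Cfsg.Agent.H75
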