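import Mathlib
import Cfsg.Agent.H75.SmallestPrime
import Cfsg.Agent.H84.PGroupFix
import Cfsg.Agent.H20.PxQ
import Cfsg.Agent.H22.PResidual
import Cfsg.Agent.H22.FocalTransfer
import Cfsg.Agent.H22.TateComplement
import Cfsg.Agent.H23.SylowIn
import Cfsg.Agent.H23.Alperin

/-!
`p`-nilpotence when all subgroups of a fixed order in a Sylow `p`-subgroup (smallest `p`) are strongly
closed in their normalizers.
-/

set_option autoImplicit false
set_option linter.all false
open Subgroup
open scoped Pointwise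

namespace Cfsg.Agent.H75

variable {G : Type*} [Group G] [Finite G] {p : ℕ} [Fact p.Prime]

theorem mem_normalizer_of_map_eq {H : Subgroup G} {g : G}
    (h : H.map (MulAut.conj g).toMonoidHom = H) : g ∈ normalizer (H : Set G) :=
  mem_normalizer_iff_map_conj_eq.mpr h

/-- A subgroup of a `p`-group that is strongly closed in its normalizer is normal in the `p`-group. -/
theorem le_normalizer_of_closed {E P : Subgroup G} (hP : IsPGroup p P) (hEP : E ≤ P)
    (hE : ∀ g : G, E.map (MulAut.conj g).toMonoidHom ⊓ normalizer (E : Set G) ≤ E) :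
    P ≤ normalizer (E : Set G) := by
  haveI : Group.IsNilpotent P := hP.isNilpotent
  set D := (normalizer (E : Set G)).subgroupOf P with hD
  rw [← subgroupOf_eq_top, ← hD]
  by_contra hne
  refine (Group.normalizerCondition_of_isNilpotent D (lt_top_iff_ne_top.mpr hne)).not_ge fun x hx => ?_
  have h1 : ∀ y ∈ E, (x : G) * y * (x : G)⁻¹ ∈ E := fun y hy =>
    hE x ⟨⟨y, hy, rfl⟩, ((mem_normalizer_iff.mp hx) ⟨y, hEP hy⟩).mp (le_normalizer hy)⟩
  exact mem_normalizer_of_map_eq (eq_of_le_of_card_ge (by rintro _ ⟨y, hy, rfl⟩; exact h1 y hy)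
    (card_map_of_injective (f := (MulAut.conj (x : G)).toMonoidHom) (MulAut.conj (x : G)).injective).ge)

/-- Above a `p`-subgroup there are subgroups of every larger `p`-power order in a `p`-group. -/
theorem exists_between_card {A B : Subgroup G} (hB : IsPGroup p B) (hAB : A ≤ B) {k : ℕ}
    (h1 : Nat.card A ≤ p ^ k) (h2 : p ^ k ≤ Nat.card B) :
    ∃ E : Subgroup G, A ≤ E ∧ E ≤ B ∧ Nat.card E = p ^ k := by
  obtain ⟨j, hj⟩ := IsPGroup.iff_card.mp (hB.to_le hAB)
  obtain ⟨m, hm⟩ := IsPGroup.iff_card.mp hB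
  have hcard : Nat.card (A.subgroupOf B) = p ^ j := by rw [Nat.card_congr (subgroupOfEquivOfLe hAB).toEquiv, hj]
  have hjk : j ≤ k := (Nat.pow_le_pow_iff_right (Fact.out : p.Prime).one_lt).mp (hj ▸ h1)
  have hkm : k ≤ m := (Nat.pow_le_pow_iff_right (Fact.out : p.Prime).one_lt).mp (hm ▸ h2)
  obtain ⟨K, hK1, hK2⟩ := Sylow.exists_subgroup_card_pow_prime_le p (G := B) (hm ▸ pow_dvd_pow p hkm)
    (A.subgroupOf B) hcard hjk
  refine ⟨K.map B.subtype, fun x hx => ⟨⟨x, hAB hx⟩, hK2 hx, rfl⟩, map_subtype_le _, ?_⟩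
  rw [card_map_of_injective B.subtype_injective, hK1]

/-- The hypothesis: all subgroups of order `p ^ d` of `P` (and of order 4 when `p ^ d = 2`) are strongly closed in their normalizers. -/
def AllClosed (p d : ℕ) (P : Subgroup G) : Prop :=
  ∀ E : Subgroup G, E ≤ P → (Nat.card E = p ^ d ∨ (p ^ d = 2 ∧ Nat.card E = 4)) →
    ∀ g : G, E.map (MulAut.conj g).toMonoidHom ⊓ normalizer (E : Set G) ≤ E

/-- An element of order prime to `p` normalizing a subgroup of `P` of order above `p ^ d` centralizes it. -/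
theorem mem_centralizer_of_allClosed (hmin : ∀ q : ℕ, q.Prime → q ∣ Nat.card G → p ≤ q)
    {P Q : Subgroup G} (hP : IsPGroup p P) (hQP : Q ≤ P) {d : ℕ} (hd : 1 ≤ d) (hPd : AllClosed p d P)
    (hQd : p ^ d < Nat.card Q) {r : G} (hr : r ∈ normalizer (Q : Set G)) (hco : (orderOf r).Coprime p) :
    r ∈ centralizer (Q : Set G) := by
  have hco1 : (orderOf r).Coprime (p - 1) := coprime_sub_one_of_smallest hmin r
  have hQ := hP.to_le hQP
  have hinv : ∀ E : Subgroup G, E ≤ Q → (Nat.card E = p ^ d ∨ (p ^ d = 2 ∧ Nat.card E = 4)) →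
      ∀ y ∈ E, r * y * r⁻¹ ∈ E := by
    intro E hE hc y hy
    have hyQ : r * y * r⁻¹ ∈ Q := (mem_normalizer_iff.mp hr y).mp (hE hy)
    exact hPd E (hE.trans hQP) hc r ⟨⟨y, hy, rfl⟩,
      le_normalizer_of_closed hP (hE.trans hQP) (hPd E (hE.trans hQP) hc) (hQP hyQ)⟩
  have hcyc : ∀ E : Subgroup G, IsCyclic E → E ≤ Q →
      (Nat.card E = p ^ d ∨ (p ^ d = 2 ∧ Nat.card E = 4)) → r ∈ centralizer (E : Set G) := by
    intro E hcy hE hc
    have hrN : r ∈ normalizer (E : Set G) :=
      mem_normalizer_of_map_eq (eq_of_le_of_card_ge (by rintro _ ⟨y, hy, rfl⟩; exact hinv E hE hc y hy)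
        (card_map_of_injective (f := (MulAut.conj r).toMonoidHom) (MulAut.conj r).injective).ge)
    refine mem_centralizer_of_cyclic hrN ?_
    obtain ⟨j, hj⟩ := IsPGroup.iff_card.mp (hQ.to_le hE)
    rw [hj]
    rcases Nat.eq_zero_or_pos j with rfl | hj0
    · simp
    · rw [Nat.totient_prime_pow Fact.out hj0]
      exact Nat.Coprime.mul_right (hco.pow_right _) hco1
  refine Cfsg.Agent.H84.mem_centralizer_of_fixes hQ hr hco fun v hv hv' => ?_
  suffices h : ∃ E : Subgroup G, v ∈ E ∧ r ∈ centralizer (E : Set G) by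
    obtain ⟨E, hvE, hrE⟩ := h
    exact (mem_centralizer_iff.mp hrE v hvE).symm
  have hord : orderOf v ∣ p ^ d ∨ (p ^ d = 2 ∧ orderOf v = 4) := by
    rcases hv' with h | ⟨h2, h4⟩
    · exact Or.inl ((orderOf_dvd_of_pow_eq_one h).trans (dvd_pow_self p (by omega)))
    · subst h2
      obtain ⟨i, hi, hi'⟩ := (Nat.dvd_prime_pow Nat.prime_two).mp (orderOf_dvd_of_pow_eq_one (show v ^ 2 ^ 2 = 1 from h4))
      rcases Nat.lt_or_ge d i with h | h
      · right
        have : i = 2 := by omega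
        have : d = 1 := by omega
        subst i; subst d
        exact ⟨rfl, hi'⟩
      · exact Or.inl (hi' ▸ pow_dvd_pow 2 h)
  rcases hord with hord | ⟨h2, h4⟩
  · have hle : zpowers v ≤ Q := zpowers_le.mpr hv
    obtain ⟨E, hvE, hEQ, hEc⟩ := exists_between_card hQ hle
      (k := d) (by rw [Nat.card_zpowers]; exact Nat.le_of_dvd (pow_pos (Fact.out : p.Prime).pos d) hord) hQd.le
    refine ⟨E, hvE (mem_zpowers v), ?_⟩
    have hk2 : p ^ (d + 1) ≤ Nat.card Q := by
      obtain ⟨m, hm⟩ := IsPGroup.iff_card.mp hQ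
      rw [hm] at hQd ⊢
      exact Nat.pow_le_pow_right (Fact.out : p.Prime).pos ((Nat.pow_lt_pow_iff_right (Fact.out : p.Prime).one_lt).mp hQd)
    obtain ⟨X, hEX, hXQ, hXc⟩ := exists_between_card hQ hEQ
      (k := d + 1) (hEc ▸ Nat.pow_le_pow_right (Fact.out : p.Prime).pos d.le_succ) hk2
    by_cases hXcy : IsCyclic X
    · haveI := hXcy
      exact hcyc E (isCyclic_of_injective (Subgroup.inclusion hEX) (Subgroup.inclusion_injective hEX)) hEQ (Or.inl hEc)
    have hXp : IsPGroup p X := hQ.to_le hXQ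
    -- the maximal subgroups of `X` are invariant
    have hco_card : ∀ M : Subgroup X, IsCoatom M → Nat.card (M.map X.subtype) = p ^ d := by
      intro M hM
      obtain ⟨-, hi, -⟩ := Cfsg.Agent.H24.coatom_spec hXp hM
      have h := M.card_mul_index
      rw [hi, hXc, pow_succ] at h
      rw [card_map_of_injective X.subtype_injective]
      exact Nat.eq_of_mul_eq_mul_right (Fact.out : p.Prime).pos h
    have hMinv : ∀ M : Subgroup X, IsCoatom M → ∀ y ∈ M.map X.subtype, r * y * r⁻¹ ∈ M.map X.subtype :=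
      fun M hM => hinv _ ((map_subtype_le M).trans hXQ) (Or.inl (hco_card M hM))
    have hXinv : ∀ y ∈ X, r * y * r⁻¹ ∈ X := by
      intro y hy
      have hgen : (⨆ M : {M : Subgroup X // IsCoatom M}, (M : Subgroup X)) = ⊤ := by
        by_contra hne
        apply hXcy
        set S := ⨆ M : {M : Subgroup X // IsCoatom M}, (M : Subgroup X)
        obtain ⟨z, -, hz⟩ := SetLike.exists_of_lt (lt_top_iff_ne_top.mpr hne)
        refine isCyclic_iff_exists_zpowers_eq_top.mpr ⟨z, ?_⟩
        by_contra hz'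
        obtain ⟨M, hM, hzM⟩ := (eq_top_or_exists_le_coatom (zpowers z)).resolve_left hz'
        exact hz (le_iSup (fun M : {M : Subgroup X // IsCoatom M} => (M : Subgroup X)) ⟨M, hM⟩ (hzM (mem_zpowers z)))
      let K : Subgroup X :=
        { carrier := {y | r * (y : G) * r⁻¹ ∈ X}
          one_mem' := by simp
          mul_mem' := fun {a b} (ha : r * (a : G) * r⁻¹ ∈ X) (hb : r * (b : G) * r⁻¹ ∈ X) => by
            show r * ((a * b : X) : G) * r⁻¹ ∈ X
            simpa [mul_assoc] using mul_mem ha hb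
          inv_mem' := fun {a} (ha : r * (a : G) * r⁻¹ ∈ X) => by
            show r * ((a⁻¹ : X) : G) * r⁻¹ ∈ X
            simpa [mul_assoc] using inv_mem ha }
      have hle : (⨆ M : {M : Subgroup X // IsCoatom M}, (M : Subgroup X)) ≤ K := iSup_le fun M z hz =>
        (show r * (z : G) * r⁻¹ ∈ X from map_subtype_le M.1 (hMinv M.1 M.2 z ⟨z, hz, rfl⟩))
      exact hle (hgen ▸ mem_top (⟨y, hy⟩ : X))
    have hfr : ∀ y ∈ X, r * y * r⁻¹ * y⁻¹ ∈ (frattini X).map X.subtype := by
      intro y hy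
      refine ⟨⟨_, mul_mem (hXinv y hy) (inv_mem hy)⟩, ?_, rfl⟩
      refine mem_iInf.mpr fun M => mem_iInf.mpr fun hM => ?_
      obtain ⟨hn, hi, -⟩ := Cfsg.Agent.H24.coatom_spec hXp hM
      have hsub : (M.map X.subtype).subgroupOf X = M := comap_map_eq_self_of_injective X.subtype_injective M
      have := conj_mul_inv_mem_of_prime_section (p := p) (M := M.map X.subtype) (map_subtype_le M)
        (by rw [hsub]; exact hn) (by rw [relIndex, hsub, hi]) hco1 hXinv (hMinv M hM) hy
      obtain ⟨z, hz, hze⟩ := this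
      exact (show z = (⟨_, mul_mem (hXinv y hy) (inv_mem hy)⟩ : X) from Subtype.ext hze) ▸ hz
    have hrX : r ∈ normalizer (X : Set G) :=
      mem_normalizer_of_map_eq (eq_of_le_of_card_ge (by rintro _ ⟨y, hy, rfl⟩; exact hXinv y hy)
        (card_map_of_injective (f := (MulAut.conj r).toMonoidHom) (MulAut.conj r).injective).ge)
    have hzr : ∀ a ∈ zpowers r, ∀ k ∈ X, a * k * a⁻¹ * k⁻¹ ∈ (frattini X).map X.subtype := by
      let H : Subgroup G :=
        { carrier := {a | a ∈ normalizer (X : Set G) ∧ ∀ k ∈ X, a * k * a⁻¹ * k⁻¹ ∈ (frattini X).map X.subtype}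
          one_mem' := ⟨one_mem _, fun k _ => by simp⟩
          mul_mem' := fun {a b} ha hb => ⟨mul_mem ha.1 hb.1, fun k hk => by
            have hk' := (mem_normalizer_iff.mp hb.1 k).mp hk
            have e : a * b * k * (a * b)⁻¹ * k⁻¹ = (a * (b * k * b⁻¹) * a⁻¹ * (b * k * b⁻¹)⁻¹) * (b * k * b⁻¹ * k⁻¹) := by group
            rw [e]; exact mul_mem (ha.2 _ hk') (hb.2 k hk)⟩
          inv_mem' := fun {a} ha => ⟨inv_mem ha.1, fun k hk => by
            have hk' : a⁻¹ * k * a ∈ X := by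
              have := (mem_normalizer_iff.mp (inv_mem ha.1) k).mp hk
              simpa using this
            have := inv_mem (ha.2 _ hk')
            convert this using 1
            group⟩ }
      intro a ha
      exact ((zpowers_le.mpr (show r ∈ H from ⟨hrX, hfr⟩)) ha).2
    have hcX := Cfsg.Agent.H20.le_centralizer_of_trivial_on_frattini (A := zpowers r) (K := X)
      (zpowers_le.mpr hrX) (by
        obtain ⟨j, hj⟩ := IsPGroup.iff_card.mp (hXp.to_subgroup (frattini X))
        rw [Nat.card_zpowers, hj]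
        exact hco.pow_right j) hzr
    exact centralizer_le hEX (hcX (mem_zpowers r))
  · exact ⟨zpowers v, mem_zpowers v, hcyc _ inferInstance (zpowers_le.mpr hv)
      (Or.inr ⟨h2, by rw [Nat.card_zpowers, h4]⟩)⟩

open Cfsg.Agent.H23 in
/-- The criterion. -/
theorem hasNormalPComplement_of_allClosed (hmin : ∀ q : ℕ, q.Prime → q ∣ Nat.card G → p ≤ q)
    (P : Sylow p G) {d : ℕ} (hd : 1 ≤ d) (hdP : p ^ d < Nat.card (P : Subgroup G))
    (hPd : AllClosed p d (P : Subgroup G)) : Cfsg.HasNormalPComplement p G := by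
  set Φ := (frattini (P : Subgroup G)).map (P : Subgroup G).subtype with hΦ
  have hΦP : Φ ≤ (P : Subgroup G) := map_subtype_le _
  have hPp : IsPGroup p (P : Subgroup G) := P.2
  have hcomm : ∀ a ∈ (P : Subgroup G), ∀ t ∈ (P : Subgroup G), a⁻¹ * (t⁻¹ * a * t) ∈ Φ := by
    intro a ha t ht
    refine ⟨(⟨a, ha⟩ : (P : Subgroup G))⁻¹ * ((⟨t, ht⟩ : (P : Subgroup G))⁻¹ * ⟨a, ha⟩ * ⟨t, ht⟩), ?_, rfl⟩
    refine Cfsg.Agent.H24.commutator_le_frattini hPp ?_
    have := commutator_mem_commutator (mem_top (⟨a, ha⟩ : (P : Subgroup G))⁻¹) (mem_top (⟨t, ht⟩ : (P : Subgroup G))⁻¹)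
    simpa [commutatorElement_def, _root_.commutator_def, mul_assoc] using this
  have key : ∀ (A : Subgroup G) (g : G), A ≤ (P : Subgroup G) → rconj g A ≤ (P : Subgroup G) →
      ∀ x ∈ A, x⁻¹ * (g⁻¹ * x * g) ∈ Φ := by
    intro A g hA hg
    refine alperin_induction P (fun A g => ∀ x ∈ A, x⁻¹ * (g⁻¹ * x * g) ∈ Φ)
      (fun A B g hBA h x hx => h x (hBA hx)) (fun A g k h1 h2 x hx => ?_) ?_ hA hg
    · have := mul_mem (h1 x hx) (h2 (g⁻¹ * x * g) (mem_rconj.mpr (by simpa [mul_assoc] using hx)))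
      simpa [mul_assoc] using this
    intro Q₀ n hn hT₁ _
    set Q := (P : Subgroup G) ⊓ (Q₀ : Subgroup G) with hQdef
    have hQP : Q ≤ (P : Subgroup G) := inf_le_left
    have hnx : ∀ x ∈ Q, n⁻¹ * x * n ∈ Q := fun x hx => by
      have := (mem_normalizer_iff.mp (inv_mem hn) x).mp hx
      simpa using this
    intro x hx
    rcases lt_or_ge (p ^ d) (Nat.card Q) with hbig | hsmall
    · set N := normalizer (Q : Set G) with hN
      set T := ((P : Subgroup G) ⊓ N).subgroupOf N with hT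
      have hTi : ¬ p ∣ T.index := hT₁
      have hsup := Cfsg.Agent.H22.pResidual_sup_eq_top_of_not_dvd_index T hTi
      have hres : Cfsg.pResidual p N ≤ (centralizer (Q : Set G)).subgroupOf N := by
        rw [Cfsg.pResidual, closure_le]
        intro r hr
        exact mem_centralizer_of_allClosed hmin hPp hQP hd hPd hbig r.2 (by rw [Subgroup.coe_subtype, Subgroup.orderOf_coe]; exact hr)
      haveI : (Cfsg.pResidual p N).Normal := Cfsg.Agent.H22.pResidual_normal
      obtain ⟨c, hc, t, ht, hct⟩ : (⟨n, hn⟩ : N) ∈ ((Cfsg.pResidual p N : Set N) * (T : Set N)) := by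
        rw [← normal_mul, hsup]; exact mem_top _
      have e : n = (c : G) * t := by
        have := congrArg Subtype.val hct
        exact this.symm
      have hcx : x * (c : G) = c * x := mem_centralizer_iff.mp (hres hc) x hx
      have : n⁻¹ * x * n = (t : G)⁻¹ * x * t := by
        rw [e, mul_inv_rev]
        calc (t : G)⁻¹ * (c : G)⁻¹ * x * ((c : G) * t) = (t : G)⁻¹ * (c : G)⁻¹ * (x * c) * t := by group
          _ = _ := by rw [hcx]; group
      rw [this]
      exact hcomm x (hQP hx) t ht.1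
    · -- images modulo the Frattini subgroup lie in every maximal subgroup through `x`
      have hclaim : ∀ y ∈ Q, ∀ L : Subgroup G, Φ ≤ L → L ≤ (P : Subgroup G) → y ∈ L → ∀ z : G,
          z * y * z⁻¹ ∈ (P : Subgroup G) → z * y * z⁻¹ ∈ L := by
        intro y hy L hΦL hLP hyL z hz
        by_contra hnot
        have hL : frattini (P : Subgroup G) ≤ L.subgroupOf (P : Subgroup G) := fun w hw => hΦL ⟨w, hw, rfl⟩
        obtain ⟨M, hM, hLM, hzM⟩ := exists_coatom_not_mem hPp hL
          (y := (⟨_, hz⟩ : (P : Subgroup G))) hnot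
        have hyM : zpowers y ≤ M.map (P : Subgroup G).subtype := zpowers_le.mpr ⟨⟨y, hLP hyL⟩, hLM hyL, rfl⟩
        have hcardM : p ^ d ≤ Nat.card (M.map (P : Subgroup G).subtype) := by
          obtain ⟨-, hi, -⟩ := Cfsg.Agent.H24.coatom_spec hPp hM
          have h := M.card_mul_index
          rw [hi] at h
          rw [card_map_of_injective (P : Subgroup G).subtype_injective]
          obtain ⟨m, hm⟩ := IsPGroup.iff_card.mp hPp
          obtain ⟨j, hj⟩ := IsPGroup.iff_card.mp (hPp.to_subgroup M)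
          rw [hm, hj, ← pow_succ] at h
          have := Nat.pow_right_injective (Fact.out : p.Prime).two_le h
          rw [hm] at hdP
          have h2 := (Nat.pow_lt_pow_iff_right (Fact.out : p.Prime).one_lt).mp hdP
          rw [hj]
          exact Nat.pow_le_pow_right (Fact.out : p.Prime).pos (by omega)
        obtain ⟨E, hyE, hEM, hEc⟩ := exists_between_card (hPp.to_le (map_subtype_le M)) hyM (k := d)
          ((card_le_of_le (zpowers_le.mpr hy)).trans hsmall) hcardM
        have hEP : E ≤ (P : Subgroup G) := hEM.trans (map_subtype_le M)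
        have hN := le_normalizer_of_closed hPp hEP (hPd E hEP (Or.inl hEc))
        obtain ⟨w, hw, hwe⟩ := hEM (hPd E hEP (Or.inl hEc) z ⟨⟨y, hyE (mem_zpowers y), rfl⟩, hN hz⟩)
        exact hzM ((show w = (⟨_, hz⟩ : (P : Subgroup G)) from Subtype.ext hwe) ▸ hw)
      set L := zpowers x ⊔ Φ with hL
      have hLP : L ≤ (P : Subgroup G) := sup_le (zpowers_le.mpr (hQP hx)) hΦP
      have hconjΦ : ∀ y ∈ Q ⊓ Φ, n⁻¹ * y * n ∈ Q ⊓ Φ := fun y hy => ⟨hnx y hy.1, by
        have := hclaim y hy.1 Φ le_rfl hΦP hy.2 n⁻¹ (by simpa using hQP (hnx y hy.1))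
        simpa using this⟩
      by_cases hxΦ : x ∈ Φ
      · exact mul_mem (inv_mem hxΦ) (hconjΦ x ⟨hx, hxΦ⟩).2
      have hΦn : ∀ y ∈ (P : Subgroup G), ∀ f ∈ Φ, y * f * y⁻¹ ∈ Φ := by
        rintro y hy _ ⟨f, hf, rfl⟩
        exact ⟨⟨y, hy⟩ * f * (⟨y, hy⟩ : (P : Subgroup G))⁻¹, (normal_of_characteristic _).conj_mem f hf _, rfl⟩
      have hxp : x ^ p ∈ Φ := ⟨(⟨x, hQP hx⟩ : (P : Subgroup G)) ^ p, Cfsg.Agent.H24.pow_mem_frattini hPp _, rfl⟩
      have hdec : ∀ w ∈ L, ∃ i : ℕ, ∃ f ∈ Φ, w = x ^ i * f := by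
        intro w hw
        have hxN : zpowers x ≤ normalizer (Φ : Set G) := (zpowers_le.mpr (hQP hx)).trans fun y hy =>
          mem_normalizer_of_map_eq (eq_of_le_of_card_ge (by rintro _ ⟨f, hf, rfl⟩; exact hΦn y hy f hf)
            (card_map_of_injective (f := (MulAut.conj y).toMonoidHom) (MulAut.conj y).injective).ge)
        rw [hL, ← SetLike.mem_coe, coe_mul_of_left_le_normalizer_right _ _ hxN] at hw
        obtain ⟨a, ha, f, hf, rfl⟩ := hw
        obtain ⟨i, rfl⟩ := Submonoid.mem_powers_iff _ _ |>.mp (mem_powers_iff_mem_zpowers.mpr ha)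
        exact ⟨i, f, hf, rfl⟩
      have hsec : n⁻¹ * x * n⁻¹⁻¹ * x⁻¹ ∈ Q ⊓ Φ := by
        refine conj_mul_inv_mem_of_prime_section (p := p) (M := Q ⊓ Φ) (X := Q ⊓ L)
          (inf_le_inf_left _ le_sup_right) ?_ ?_ (coprime_sub_one_of_smallest hmin n⁻¹) ?_ ?_
          ⟨hx, mem_sup_left (mem_zpowers x)⟩
        · refine ⟨fun f hf y => ?_⟩
          exact ⟨Q.mul_mem (Q.mul_mem y.2.1 hf.1) (Q.inv_mem y.2.1), hΦn _ (hQP y.2.1) _ hf.2⟩
        · have hcases : ∀ w ∈ Q ⊓ L, ∃ i < p, (x ^ i)⁻¹ * w ∈ Q ⊓ Φ := by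
            intro w hw
            obtain ⟨i, f, hf, rfl⟩ := hdec w hw.2
            refine ⟨i % p, Nat.mod_lt _ (Fact.out : p.Prime).pos, Q.mul_mem (Q.inv_mem (pow_mem hx _)) hw.1, ?_⟩
            rw [← mul_assoc]
            refine mul_mem ?_ hf
            nth_rewrite 2 [← Nat.mod_add_div i p]
            rw [pow_add, inv_mul_cancel_left, pow_mul]
            exact pow_mem hxp _
          have hinj : Nat.card (↥(Q ⊓ L) ⧸ (Q ⊓ Φ).subgroupOf (Q ⊓ L)) ≤ p := by
            have hs : Function.Surjective (fun i : Fin p =>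
                (QuotientGroup.mk (⟨x ^ (i : ℕ), pow_mem hx _, pow_mem (mem_sup_left (mem_zpowers x)) _⟩ : ↥(Q ⊓ L)) :
                  ↥(Q ⊓ L) ⧸ (Q ⊓ Φ).subgroupOf (Q ⊓ L))) := by
              intro q
              induction q using QuotientGroup.induction_on with
              | H w =>
                obtain ⟨i, hi, hiw⟩ := hcases w w.2
                exact ⟨⟨i, hi⟩, QuotientGroup.eq.mpr hiw⟩
            simpa using Nat.card_le_card_of_surjective _ hs
          change (Q ⊓ Φ).relIndex (Q ⊓ L) ≤ p at hinj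
          have hne : (Q ⊓ Φ).relIndex (Q ⊓ L) ≠ 1 := fun h =>
            hxΦ ((relIndex_eq_one.mp h) ⟨hx, mem_sup_left (mem_zpowers x)⟩).2
          obtain ⟨k, hk⟩ := IsPGroup.iff_card.mp (hPp.to_le ((inf_le_left : Q ⊓ L ≤ Q).trans hQP))
          obtain ⟨j, -, hj⟩ := (Nat.dvd_prime_pow (Fact.out : p.Prime)).mp (hk ▸ relIndex_dvd_card (Q ⊓ Φ) (Q ⊓ L))
          rw [hj] at hinj hne ⊢
          rcases j with _ | _ | j
          · exact absurd rfl hne
          · rw [pow_one]
          · exfalso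
            have h9 : p ^ 1 < p ^ (j + 1 + 1) := Nat.pow_lt_pow_right (Fact.out : p.Prime).one_lt (by omega)
            rw [pow_one] at h9
            omega
        · intro w hw
          rw [inv_inv]
          refine ⟨hnx w hw.1, ?_⟩
          have := hclaim w hw.1 L le_sup_right hLP hw.2 n⁻¹ (by simpa using hQP (hnx w hw.1))
          simpa using this
        · intro w hw
          rw [inv_inv]
          exact hconjΦ w hw
      rw [inv_inv] at hsec
      have h9 := hΦn x⁻¹ (inv_mem (hQP hx)) _ hsec.2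
      simpa [mul_assoc] using h9
  -- transfer
  have hfoc : (P : Subgroup G).focalSubgroup ≤ Φ := by
    rw [focalSubgroup_def, closure_le]
    rintro _ ⟨hmem, a, ha, u, rfl⟩
    have h1 : rconj u⁻¹ (zpowers a⁻¹) ≤ (P : Subgroup G) := by
      intro w hw
      rw [mem_rconj, inv_inv] at hw
      obtain ⟨i, hi⟩ := mem_zpowers_iff.mp hw
      have hua : u * a⁻¹ * u⁻¹ ∈ (P : Subgroup G) := by
        have := mul_mem (inv_mem ha) hmem
        simpa [commutatorElement_def, mul_assoc] using this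
      have : w = (u * a⁻¹ * u⁻¹) ^ i := by rw [conj_zpow, hi]; group
      rw [this]
      exact zpow_mem hua i
    have := key _ u⁻¹ (zpowers_le.mpr (inv_mem ha)) h1 a⁻¹ (mem_zpowers _)
    simpa [commutatorElement_def, mul_assoc] using this
  haveI : (Cfsg.pResidual p G).Normal := Cfsg.Agent.H22.pResidual_normal
  have hle : Cfsg.pResidual p G ⊓ (P : Subgroup G) ≤ Φ := by
    have h := Cfsg.Agent.H22.sylow_inf_pResidual_le_commutator (p := p) P
    have h2 : Cfsg.pResidual p G ⊓ (P : Subgroup G) ≤ commutator G ⊓ (P : Subgroup G) :=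
      le_inf (by rw [inf_comm]; exact h) inf_le_right
    rw [commutator_inf_eq_focalSubgroup] at h2
    exact h2.trans hfoc
  have hK := Cfsg.Agent.H22.hasNormalPComplement_of_inf_le_frattini P (Cfsg.pResidual p G) hle
  rw [Cfsg.Agent.H22.hasNormalPComplement_iff] at hK ⊢
  rwa [Cfsg.Agent.H22.pResidual_pResidual_eq_top, card_top] at hK

end Cfsg.Agent.H75
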