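import Mathlib
import Cfsg.Agent.H75.HSubgroup
import Cfsg.Agent.H32.Supersolvable

/-!
Supersolvably embedded normal `p`-subgroups.
-/

set_option autoImplicit false
set_option linter.all false
open Subgroup
open scoped Pointwise commutatorElement

namespace Cfsg.Agent.H75

universe u

/-- The subgroup generated by commutators and `(p - 1)`st powers. -/
def powCommSubgroup (p : ℕ) (G : Type*) [Group G] : Subgroup G :=
  _root_.commutator G ⊔ closure (Set.range fun g : G => g ^ (p - 1))

section
variable {G : Type*} [Group G] {p : ℕ}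

instance powCommSubgroup_normal : (powCommSubgroup p G).Normal :=
  Normal.of_commutator_le G le_sup_left

theorem commutatorElement_mem_powComm (x y : G) : ⁅x, y⁆ ∈ powCommSubgroup p G :=
  mem_sup_left (commutator_mem_commutator (mem_top x) (mem_top y))

theorem pow_mem_powComm (g : G) : g ^ (p - 1) ∈ powCommSubgroup p G :=
  mem_sup_right (subset_closure ⟨g, rfl⟩)

theorem map_powCommSubgroup {H : Type*} [Group H] (f : G →* H) (hf : Function.Surjective f) :
    (powCommSubgroup p G).map f = powCommSubgroup p H := by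
  have h1 : (_root_.commutator G).map f = _root_.commutator H := by
    rw [_root_.commutator_def, map_commutator, map_top_of_surjective f hf, _root_.commutator_def]
  rw [powCommSubgroup, Subgroup.map_sup, h1, MonoidHom.map_closure, ← Set.range_comp]
  congr 2
  ext y
  constructor
  · rintro ⟨g, rfl⟩; exact ⟨f g, by simp⟩
  · rintro ⟨h, rfl⟩; obtain ⟨g, rfl⟩ := hf h; exact ⟨g, by simp⟩

/-- Into an abelian group of order dividing `p ^ k * (p - 1)` the image of `powCommSubgroup` is a `p`-group. -/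
theorem map_eq_one_of_powComm {A : Type*} [CommGroup A] [Finite A] (ψ : G →* A) {k : ℕ}
    (hA : Nat.card A ∣ p ^ k * (p - 1)) {r : G} (hr : r ∈ powCommSubgroup p G) (hco : (orderOf r).Coprime p) :
    ψ r = 1 := by
  set f : G →* A := (powMonoidHom (p ^ k)).comp ψ with hf
  have hle : powCommSubgroup p G ≤ f.ker := by
    refine sup_le (Abelianization.commutator_subset_ker f) ((closure_le _).mpr ?_)
    rintro _ ⟨g, rfl⟩
    obtain ⟨c, hc⟩ := hA
    rw [SetLike.mem_coe, MonoidHom.mem_ker, hf, MonoidHom.comp_apply, powMonoidHom_apply, map_pow,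
      ← pow_mul, mul_comm, hc, pow_mul, pow_card_eq_one', one_pow]
  have h1 : ψ r ^ p ^ k = 1 := hle hr
  rw [← orderOf_eq_one_iff]
  exact Nat.eq_one_of_dvd_coprimes (hco.pow_right k) (orderOf_map_dvd ψ r) (orderOf_dvd_of_pow_eq_one h1)

/-- A `p`-regular element of `powCommSubgroup` centralizes every normal cyclic `p`-subgroup. -/
theorem mem_centralizer_cyclic_of_powComm [Fact p.Prime] [Finite G] {E : Subgroup G} [E.Normal] [IsCyclic E]
    (hE : IsPGroup p E) {r : G} (hr : r ∈ powCommSubgroup p G) (hco : (orderOf r).Coprime p) :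
    r ∈ centralizer (E : Set G) := by
  obtain ⟨j, hj⟩ := IsPGroup.iff_card.mp hE
  have hcard : Nat.card (ZMod (Nat.card E))ˣ ∣ p ^ j * (p - 1) := by
    haveI : NeZero (Nat.card E) := ⟨Nat.card_pos.ne'⟩
    rw [Nat.card_eq_fintype_card, ZMod.card_units_eq_totient, hj]
    rcases Nat.eq_zero_or_pos j with rfl | h
    · simp
    · rw [Nat.totient_prime_pow Fact.out h]
      exact mul_dvd_mul_right (pow_dvd_pow p (by omega)) _
  haveI : Finite (ZMod (Nat.card E))ˣ := by
    haveI : NeZero (Nat.card E) := ⟨Nat.card_pos.ne'⟩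
    infer_instance
  have h := map_eq_one_of_powComm ((IsCyclic.mulAutMulEquiv E).toMonoidHom.comp (MulAut.conjNormal (H := E))) hcard hr hco
  have h2 : (MulAut.conjNormal r : MulAut E) = 1 := (IsCyclic.mulAutMulEquiv E).map_eq_one_iff.mp h
  refine mem_centralizer_iff.mpr fun e he => ?_
  have h3 := congrArg Subtype.val (DFunLike.congr_fun h2 ⟨e, he⟩)
  rw [MulAut.conjNormal_apply, MulAut.one_apply] at h3
  exact (mul_inv_eq_iff_eq_mul.mp h3).symm

/-- A `p`-regular element of `powCommSubgroup` acts trivially on a normal section of order `p`. -/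
theorem conj_mem_of_powComm_prime_section [Fact p.Prime] [Finite G] {M X : Subgroup G} [M.Normal] [X.Normal]
    (hidx : M.relIndex X = p) {r : G} (hr : r ∈ powCommSubgroup p G) (hco : (orderOf r).Coprime p)
    {x : G} (hx : x ∈ X) : r * x * r⁻¹ * x⁻¹ ∈ M := by
  set π := QuotientGroup.mk' M
  haveI : (X.map π).Normal := ‹X.Normal›.map π (QuotientGroup.mk'_surjective M)
  have hc : Nat.card (X.map π) = p := by
    rw [← relIndex_ker, QuotientGroup.ker_mk', hidx]
  haveI : IsCyclic (X.map π) := isCyclic_of_prime_card hc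
  have := mem_centralizer_cyclic_of_powComm (E := X.map π)
    (IsPGroup.of_card (n := 1) (by rw [hc, pow_one]))
    (r := π r) (map_powCommSubgroup π (QuotientGroup.mk'_surjective M) ▸ mem_map_of_mem π hr)
    (hco.coprime_dvd_left (orderOf_map_dvd π r))
  have h2 := mem_centralizer_iff.mp this (π x) (mem_map_of_mem π hx)
  rw [← QuotientGroup.eq_one_iff]
  show π (r * x * r⁻¹ * x⁻¹) = 1
  rw [map_mul, map_mul, map_mul, map_inv, map_inv, ← h2]
  group

/-- Two distinct maximal subgroups of a finite noncyclic group. -/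
theorem exists_two_coatoms {K : Type*} [Group K] [Finite K] (hK : ¬ IsCyclic K) :
    ∃ M₁ M₂ : Subgroup K, IsCoatom M₁ ∧ IsCoatom M₂ ∧ M₁ ≠ M₂ := by
  haveI : Nontrivial K := by
    by_contra h
    rw [not_nontrivial_iff_subsingleton] at h
    exact hK inferInstance
  obtain ⟨M₁, hM₁, -⟩ := (eq_top_or_exists_le_coatom (⊥ : Subgroup K)).resolve_left bot_ne_top
  obtain ⟨z, -, hz⟩ := SetLike.exists_of_lt (lt_top_iff_ne_top.mpr hM₁.1)
  obtain ⟨M₂, hM₂, hzM⟩ := (eq_top_or_exists_le_coatom (zpowers z)).resolve_left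
    (fun h => hK (isCyclic_iff_exists_zpowers_eq_top.mpr ⟨z, h⟩))
  exact ⟨M₁, M₂, hM₁, hM₂, fun h => hz (h ▸ hzM (mem_zpowers z))⟩

end

/-- Condition: all subgroups of order `p ^ d` (and of order 4 if `p ^ d = 2`) of `Q` are normal. -/
def AllNormal {G : Type*} [Group G] (p d : ℕ) (Q : Subgroup G) : Prop :=
  ∀ F : Subgroup G, F ≤ Q → (Nat.card F = p ^ d ∨ (p ^ d = 2 ∧ Nat.card F = 4)) → F.Normal

/-- Under `AllNormal`, `p`-regular elements of `powCommSubgroup` centralize `Q`. -/
theorem mem_centralizer_of_allNormal {G : Type*} [Group G] [Finite G] {p : ℕ} [Fact p.Prime] {Q : Subgroup G}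
    [Q.Normal] (hQ : IsPGroup p Q) {d : ℕ} (hd : 1 ≤ d) (hQd : p ^ d < Nat.card Q) (hn : AllNormal p d Q)
    {r : G} (hr : r ∈ powCommSubgroup p G) (hco : (orderOf r).Coprime p) :
    r ∈ centralizer (Q : Set G) := by
  have hp := (Fact.out : p.Prime)
  refine Cfsg.Agent.H84.mem_centralizer_of_fixes hQ (by rw [normalizer_eq_top]; exact mem_top r) hco
    fun v hv hv' => ?_
  suffices h : ∃ E : Subgroup G, v ∈ E ∧ r ∈ centralizer (E : Set G) by
    obtain ⟨E, hvE, hrE⟩ := h
    exact (mem_centralizer_iff.mp hrE v hvE).symm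
  have hord : orderOf v ∣ p ^ d ∨ (p ^ d = 2 ∧ orderOf v = 4) := by
    rcases hv' with h | ⟨h2, h4⟩
    · exact Or.inl ((orderOf_dvd_of_pow_eq_one h).trans (dvd_pow_self p (by omega)))
    · subst h2
      obtain ⟨i, hi, hi'⟩ := (Nat.dvd_prime_pow Nat.prime_two).mp (orderOf_dvd_of_pow_eq_one (show v ^ 2 ^ 2 = 1 from h4))
      rcases Nat.lt_or_ge d i with h | h
      · right
        have : i = 2 := by omega
        have : d = 1 := by omega
        subst i; subst d
        exact ⟨rfl, hi'⟩
      · exact Or.inl (hi' ▸ pow_dvd_pow 2 h)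
  rcases hord with hord | ⟨h2, h4⟩
  · obtain ⟨E, hvE, hEQ, hEc⟩ := exists_between_card hQ (zpowers_le.mpr hv)
      (k := d) (by rw [Nat.card_zpowers]; exact Nat.le_of_dvd (pow_pos hp.pos d) hord) hQd.le
    refine ⟨E, hvE (mem_zpowers v), ?_⟩
    have hk2 : p ^ (d + 1) ≤ Nat.card Q := by
      obtain ⟨m, hm⟩ := IsPGroup.iff_card.mp hQ
      rw [hm] at hQd ⊢
      exact Nat.pow_le_pow_right hp.pos ((Nat.pow_lt_pow_iff_right hp.one_lt).mp hQd)
    obtain ⟨X, hEX, hXQ, hXc⟩ := exists_between_card hQ hEQ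
      (k := d + 1) (hEc ▸ Nat.pow_le_pow_right hp.pos d.le_succ) hk2
    haveI := hn E hEQ (Or.inl hEc)
    by_cases hXcy : IsCyclic X
    · haveI := hXcy
      haveI := isCyclic_of_injective (Subgroup.inclusion hEX) (Subgroup.inclusion_injective hEX)
      exact mem_centralizer_cyclic_of_powComm (hQ.to_le hEQ) hr hco
    have hXp : IsPGroup p X := hQ.to_le hXQ
    have hMn : ∀ M : Subgroup X, IsCoatom M → (M.map X.subtype).Normal := by
      intro M hM
      refine hn _ ((map_subtype_le M).trans hXQ) (Or.inl ?_)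
      obtain ⟨-, hi, -⟩ := Cfsg.Agent.H24.coatom_spec hXp hM
      have h := M.card_mul_index
      rw [hi, hXc, pow_succ] at h
      rw [card_map_of_injective X.subtype_injective]
      exact Nat.eq_of_mul_eq_mul_right hp.pos h
    haveI hXn : X.Normal := by
      obtain ⟨M₁, M₂, h1, h2, hne⟩ := exists_two_coatoms hXcy
      haveI := hMn M₁ h1
      haveI := hMn M₂ h2
      have e : X = M₁.map X.subtype ⊔ M₂.map X.subtype := by
        rw [← Subgroup.map_sup, IsCoatom.sup_eq_top_of_ne h1 h2 hne, ← MonoidHom.range_eq_map, range_subtype]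
      rw [e]; infer_instance
    have hfr : ∀ a ∈ zpowers r, ∀ y ∈ X, a * y * a⁻¹ * y⁻¹ ∈ (frattini X).map X.subtype := by
      intro a ha y hy
      have haB : a ∈ powCommSubgroup p G := zpowers_le.mpr hr ha
      have hac : (orderOf a).Coprime p := hco.coprime_dvd_left
        (orderOf_dvd_of_mem_zpowers ha)
      refine ⟨⟨_, mul_mem (hXn.conj_mem y hy a) (inv_mem hy)⟩, ?_, rfl⟩
      refine mem_iInf.mpr fun M => mem_iInf.mpr fun hM => ?_
      obtain ⟨-, hi, -⟩ := Cfsg.Agent.H24.coatom_spec hXp hM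
      haveI := hMn M hM
      have hsub : (M.map X.subtype).subgroupOf X = M := comap_map_eq_self_of_injective X.subtype_injective M
      obtain ⟨z, hz, hze⟩ := conj_mem_of_powComm_prime_section (p := p) (M := M.map X.subtype) (X := X)
        (by rw [relIndex, hsub, hi]) haB hac hy
      exact (show z = (⟨_, mul_mem (hXn.conj_mem y hy a) (inv_mem hy)⟩ : X) from Subtype.ext hze) ▸ hz
    have hcX := Cfsg.Agent.H20.le_centralizer_of_trivial_on_frattini (A := zpowers r) (K := X)
      (by rw [normalizer_eq_top]; exact le_top) (by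
        obtain ⟨j, hj⟩ := IsPGroup.iff_card.mp (hXp.to_subgroup (frattini X))
        rw [Nat.card_zpowers, hj]
        exact hco.pow_right j) hfr
    exact centralizer_le hEX (hcX (mem_zpowers r))
  · haveI := hn (zpowers v) (zpowers_le.mpr hv) (Or.inr ⟨h2, by rw [Nat.card_zpowers, h4]⟩)
    exact ⟨zpowers v, mem_zpowers v,
      mem_centralizer_cyclic_of_powComm (hQ.to_le (zpowers_le.mpr hv)) hr hco⟩

/-- `powCommSubgroup` acts on `Q` as a `p`-group. -/
def ActsP {G : Type*} [Group G] (p : ℕ) (Q : Subgroup G) : Prop :=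
  ∀ b ∈ powCommSubgroup p G, ∃ a : ℕ, b ^ p ^ a ∈ centralizer (Q : Set G)

theorem actsP_of_allNormal {G : Type*} [Group G] [Finite G] {p : ℕ} [Fact p.Prime] {Q : Subgroup G}
    [Q.Normal] (hQ : IsPGroup p Q) {d : ℕ} (hd : 1 ≤ d) (hQd : p ^ d < Nat.card Q) (hn : AllNormal p d Q) :
    ActsP p Q := by
  intro b hb
  refine ⟨(orderOf b).factorization p, mem_centralizer_of_allNormal hQ hd hQd hn (pow_mem hb _) ?_⟩
  rw [orderOf_pow_of_dvd (pow_ne_zero _ (Fact.out : p.Prime).ne_zero) (Nat.ordProj_dvd _ _)]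
  exact (Nat.coprime_ordCompl (Fact.out : p.Prime) (orderOf_pos b).ne').symm

/-- An endomorphism `f` of an elementary abelian `p`-group with `f ^ (p - 1) = 1` has an eigenvector. -/
theorem exists_eigen {p : ℕ} [Fact p.Prime] {V : Type*} [AddCommGroup V] [Module (ZMod p) V] [Nontrivial V]
    (f : Module.End (ZMod p) V) (hf : f ^ (p - 1) = 1) : ∃ a : ZMod p, ∃ v : V, v ≠ 0 ∧ f v = a • v := by
  have hp := (Fact.out : p.Prime)
  by_contra hno
  push Not at hno
  have hinj : ∀ a : ZMod p, Function.Injective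
      (Polynomial.aeval f (Polynomial.X - Polynomial.C a)) := by
    intro a
    rw [← LinearMap.ker_eq_bot, LinearMap.ker_eq_bot']
    intro v hv
    by_contra hv0
    refine hno a v hv0 (sub_eq_zero.mp ?_)
    simpa [Polynomial.aeval_sub, Module.algebraMap_end_apply] using hv
  have hprod : ∀ s : Finset (ZMod p), Function.Injective
      (Polynomial.aeval f (∏ a ∈ s, (Polynomial.X - Polynomial.C a))) := by
    intro s
    induction s using Finset.induction_on with
    | empty => simp only [Finset.prod_empty, map_one]; exact Function.injective_id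
    | insert a s ha ih =>
      rw [Finset.prod_insert ha, map_mul, Module.End.mul_eq_comp, LinearMap.coe_comp]
      exact (hinj a).comp ih
  have hroots : (Polynomial.X ^ p - Polynomial.X : Polynomial (ZMod p)).roots = Finset.univ.val := by
    have := FiniteField.roots_X_pow_card_sub_X (ZMod p)
    rwa [ZMod.card] at this
  have hmonic : (Polynomial.X ^ p - Polynomial.X : Polynomial (ZMod p)).Monic :=
    Polynomial.monic_X_pow_sub (by rw [Polynomial.degree_X]; exact_mod_cast hp.one_lt)
  have heq : ∏ a : ZMod p, (Polynomial.X - Polynomial.C a) = Polynomial.X ^ p - Polynomial.X := by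
    have := Polynomial.prod_multiset_X_sub_C_of_monic_of_roots_card_eq hmonic (by
      rw [hroots, FiniteField.X_pow_card_sub_X_natDegree_eq _ hp.one_lt]
      simp [ZMod.card])
    rw [hroots] at this
    exact this
  obtain ⟨v, hv⟩ := exists_ne (0 : V)
  refine hv (hprod Finset.univ ?_)
  rw [heq, map_zero]
  have : f ^ p = f := by
    have h1 : f ^ (p - 1 + 1) = f := by rw [pow_succ, hf, one_mul]
    rwa [Nat.sub_add_cancel hp.one_le] at h1
  simp [this]

/-- An additive endomorphism `f` of a group of exponent `p` with trivial `(p - 1)`st iterate has an eigenvector. -/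
theorem exists_eigen_add {p : ℕ} [Fact p.Prime] {V : Type*} [AddCommGroup V] [Nontrivial V]
    [Module (ZMod p) V] (φ : V →+ V) (hφ : ∀ x, φ^[p - 1] x = x) :
    ∃ a : ℕ, ∃ v : V, v ≠ 0 ∧ φ v = a • v := by
  let f : Module.End (ZMod p) V := φ.toZModLinearMap p
  have hf : f ^ (p - 1) = 1 := LinearMap.ext fun x => by
    rw [Module.End.pow_apply]
    exact hφ x
  obtain ⟨a, v, hv, hva⟩ := exists_eigen f hf
  rw [← ZMod.natCast_zmod_val a, Nat.cast_smul_eq_nsmul] at hva
  exact ⟨a.val, v, hv, hva⟩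

/-- An endomorphism `φ` of an abelian group of exponent `p` with trivial `(p - 1)`st iterate has an eigenvector. -/
theorem exists_eigen_group {p : ℕ} [Fact p.Prime] {N : Type*} [CommGroup N] [Nontrivial N]
    (hexp : ∀ x : N, x ^ p = 1) (φ : N →* N) (hφ : ∀ x, φ^[p - 1] x = x) :
    ∃ a : ℕ, ∃ v : N, v ≠ 1 ∧ φ v = v ^ a := by
  letI : Module (ZMod p) (Additive N) := AddCommGroup.zmodModule (fun x => hexp x.toMul)
  exact exists_eigen_add (p := p) (V := Additive N) (MonoidHom.toAdditive φ) hφ

/-- A minimal normal `p`-subgroup centralized by `powCommSubgroup` has order `p`. -/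
theorem card_minNormal_eq_of_powComm {G : Type*} [Group G] [Finite G] {p : ℕ} [Fact p.Prime]
    {N : Subgroup G} (hN : Cfsg.Agent.H32.IsMinNormal N) (hNp : IsPGroup p N)
    (hB : N ≤ centralizer (powCommSubgroup p G : Set G)) : Nat.card N = p := by
  have hp := (Fact.out : p.Prime)
  haveI := hN.1
  haveI : Nontrivial N := (nontrivial_iff_ne_bot N).mpr hN.2.1
  -- abelian
  have hcomm : ∀ a b : N, a * b = b * a := by
    have h0 : (Subgroup.center N).map N.subtype ≠ ⊥ := by
      rw [Ne, map_eq_bot_iff_of_injective _ N.subtype_injective]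
      haveI := hNp.center_nontrivial
      exact (nontrivial_iff_ne_bot _).mp this
    have h := (hN.2.2 _ inferInstance (map_subtype_le _)).resolve_left h0
    intro a b
    have : (a : G) ∈ (Subgroup.center N).map N.subtype := h.symm ▸ a.2
    obtain ⟨a', ha', e⟩ := this
    obtain rfl : a' = a := Subtype.ext e
    exact (mem_center_iff.mp ha' b).symm
  letI : CommGroup N := { (inferInstance : Group N) with mul_comm := hcomm }
  -- exponent p
  have hexp : ∀ x : N, x ^ p = 1 := by
    let Ω : Subgroup G := ((powMonoidHom p : N →* N).ker).map N.subtype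
    have hΩn : Ω.Normal := by
      refine ⟨?_⟩
      rintro _ ⟨x, hx, rfl⟩ g
      refine ⟨⟨g * x * g⁻¹, hN.1.conj_mem x x.2 g⟩, ?_, rfl⟩
      have hx' : (x : G) ^ p = 1 := congrArg Subtype.val (show x ^ p = 1 from hx)
      show (⟨g * x * g⁻¹, _⟩ : N) ^ p = 1
      exact Subtype.ext (by simp [conj_pow, hx'])
    have hΩ0 : Ω ≠ ⊥ := by
      rw [Ne, map_eq_bot_iff_of_injective _ N.subtype_injective]
      obtain ⟨x, hx⟩ := exists_prime_orderOf_dvd_card' p
        (hNp.card_eq_or_dvd.resolve_left (fun h => hN.2.1 (card_eq_one.mp h)))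
      intro h
      have : x ∈ (powMonoidHom p : N →* N).ker := by
        show x ^ p = 1
        exact hx ▸ pow_orderOf_eq_one x
      rw [h, mem_bot] at this
      rw [this, orderOf_one] at hx
      exact hp.ne_one hx.symm
    intro x
    have hx : (x : G) ∈ Ω := ((hN.2.2 Ω hΩn (map_subtype_le _)).resolve_left hΩ0).symm ▸ x.2
    obtain ⟨y, hy, e⟩ := hx
    obtain rfl : y = x := Subtype.ext e
    exact hy
  have hcB : ∀ b ∈ powCommSubgroup p G, ∀ x ∈ N, b * x * b⁻¹ = x := fun b hb x hx => by
    rw [mem_centralizer_iff.mp (hB hx) b hb, mul_inv_cancel_right]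
  have hscalar : ∀ g : G, ∃ a : ℕ, ∀ x ∈ N, g * x * g⁻¹ = x ^ a := by
    intro g
    let φ : N →* N := (MulAut.conjNormal g).toMonoidHom
    have hiter : ∀ (k : ℕ) (x : N), ((φ^[k] x : N) : G) = g ^ k * (x : G) * (g ^ k)⁻¹ := by
      intro k x
      induction k with
      | zero => simp
      | succ k ih =>
        rw [Function.iterate_succ_apply', pow_succ']
        show g * ((φ^[k] x : N) : G) * g⁻¹ = _
        rw [ih]; group
    obtain ⟨a, v, hv, hva⟩ := exists_eigen_group (p := p) hexp φ
      (fun x => Subtype.ext (by rw [hiter]; exact hcB _ (pow_mem_powComm g) _ x.2))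
    refine ⟨a, ?_⟩
    let S : Subgroup G := ((φ.comp (MonoidHom.id N) * (powMonoidHom a : N →* N)⁻¹).ker).map N.subtype
    have hmemS : ∀ x : N, (x : G) ∈ S ↔ g * (x : G) * g⁻¹ = (x : G) ^ a := by
      intro x
      have : (x : G) ∈ S ↔ φ x * (x ^ a)⁻¹ = 1 := by
        constructor
        · rintro ⟨y, hy, e⟩
          obtain rfl : y = x := Subtype.ext e
          exact hy
        · exact fun h => ⟨x, h, rfl⟩
      rw [this, mul_inv_eq_one, Subtype.ext_iff]
      simp [φ, MulAut.conjNormal_apply]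
    have hSn : S.Normal := by
      refine ⟨?_⟩
      intro y hy h
      have hyN : y ∈ N := map_subtype_le _ hy
      have hy' := (hmemS ⟨y, hyN⟩).mp hy
      refine (hmemS ⟨h * y * h⁻¹, hN.1.conj_mem y hyN h⟩).mpr ?_
      show g * (h * y * h⁻¹) * g⁻¹ = (h * y * h⁻¹) ^ a
      have hc := hcB ⁅g, h⁆ (commutatorElement_mem_powComm g h) (h * (g * y * g⁻¹) * h⁻¹)
        (hN.1.conj_mem _ (hN.1.conj_mem y hyN g) h)
      rw [conj_pow, ← hy', ← hc, commutatorElement_def]
      group
    have hS0 : S ≠ ⊥ := by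
      intro h0
      apply hv
      have hmem : (v : G) ∈ S := by
        rw [hmemS]
        exact congrArg Subtype.val hva
      rw [h0, mem_bot] at hmem
      exact Subtype.ext hmem
    have hSN := (hN.2.2 S hSn (map_subtype_le _)).resolve_left hS0
    exact fun x hx => (hmemS ⟨x, hx⟩).mp (hSN.symm ▸ hx)
  obtain ⟨x, hxN, hx1⟩ := (ne_bot_iff_exists_ne_one).mp hN.2.1 |> fun ⟨x, hx⟩ => (⟨x.1, x.2, fun h => hx (Subtype.ext h)⟩ : ∃ x, x ∈ N ∧ x ≠ 1)
  have hzn : (zpowers x).Normal := by
    refine ⟨?_⟩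
    rintro y ⟨i, rfl⟩ g
    obtain ⟨a, ha⟩ := hscalar g
    rw [ha _ (zpow_mem hxN i)]
    exact pow_mem (zpow_mem (mem_zpowers x) i) _
  have he := (hN.2.2 _ hzn (zpowers_le.mpr hxN)).resolve_left (by simpa using hx1)
  rw [← he, Nat.card_zpowers]
  exact orderOf_eq_prime (congrArg Subtype.val (hexp ⟨x, hxN⟩)) hx1

/-- Extension of a supersolvably embedded `p`-group by a supersolvable group. -/
theorem isSupersolvable_of_actsP {p : ℕ} [Fact p.Prime] {G : Type u} [Group G] [Finite G] (Q : Subgroup G)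
    [Q.Normal] (hQ : IsPGroup p Q) (hB : ActsP p Q) (h : Cfsg.IsSupersolvable (G ⧸ Q)) :
    Cfsg.IsSupersolvable G := by
  induction hn : Nat.card G using Nat.strong_induction_on generalizing G with
  | _ n ih =>
  by_cases hQ0 : Q = ⊥
  · subst hQ0
    exact Cfsg.Agent.H32.isSupersolvable_of_mulEquiv QuotientGroup.quotientBot h
  have hp := (Fact.out : p.Prime)
  obtain ⟨N, hN, hNQ⟩ := Cfsg.Agent.H32.exists_minNormal_le Q inferInstance hQ0
  haveI := hN.1
  have hNp : IsPGroup p N := hQ.to_le hNQ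
  -- fixed points
  set B := powCommSubgroup p G with hBdef
  have hcent : N ≤ centralizer (B : Set G) := by
    set ψ : B →* MulAut N := (MulAut.conjNormal (H := N)).comp B.subtype with hψ
    have hrange : IsPGroup p ψ.range := by
      rintro ⟨_, b, rfl⟩
      obtain ⟨a, ha⟩ := hB b b.2
      refine ⟨a, Subtype.ext ?_⟩
      show (ψ b) ^ p ^ a = 1
      rw [← map_pow]
      ext x
      rw [hψ, MonoidHom.comp_apply, MulAut.conjNormal_apply, MulAut.one_apply]
      have := mem_centralizer_iff.mp ha x.1 (hNQ x.2)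
      rw [Subgroup.coe_subtype, Subgroup.coe_pow, ← this, mul_inv_cancel_right]
    obtain ⟨x, hx, hx1⟩ := hrange.exists_fixed_point_of_prime_dvd_card_of_fixed_point N
      (hNp.card_eq_or_dvd.resolve_left (fun h => hN.2.1 (card_eq_one.mp h)))
      (a := 1) (fun σ => smul_one σ)
    have hne : N ⊓ centralizer (B : Set G) ≠ ⊥ := by
      intro h0
      have hxc : (x : G) ∈ N ⊓ centralizer (B : Set G) := by
        refine ⟨x.2, mem_centralizer_iff.mpr fun b hb => ?_⟩
        have hfix : (⟨ψ ⟨b, hb⟩, ⟨b, hb⟩, rfl⟩ : ψ.range) • x = x := hx _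
        have h3 : b * (x : G) * b⁻¹ = x := congrArg Subtype.val hfix
        exact mul_inv_eq_iff_eq_mul.mp h3
      rw [h0, mem_bot] at hxc
      exact hx1 (Subtype.ext hxc.symm)
    have := (hN.2.2 _ inferInstance inf_le_left).resolve_left hne
    exact inf_eq_left.mp this
  have hcard := card_minNormal_eq_of_powComm hN hNp hcent
  refine Cfsg.Agent.H32.isSupersolvable_of_prime_normal N hp hcard ?_
  set π := QuotientGroup.mk' N
  have hπ := QuotientGroup.mk'_surjective N
  haveI : (Q.map π).Normal := ‹Q.Normal›.map π hπ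
  refine ih (Nat.card (G ⧸ N)) (hn ▸ Cfsg.Agent.H32.card_quotient_lt N hN.2.1) (Q.map π) (hQ.map π) ?_ ?_ rfl
  · intro b hb
    rw [← map_powCommSubgroup π hπ] at hb
    obtain ⟨b, hb, rfl⟩ := hb
    obtain ⟨a, ha⟩ := hB b hb
    refine ⟨a, mem_centralizer_iff.mpr ?_⟩
    rintro _ ⟨x, hx, rfl⟩
    rw [← map_pow, ← map_mul, ← map_mul, mem_centralizer_iff.mp ha x hx]
  · exact Cfsg.Agent.H32.isSupersolvable_of_surjective
      (QuotientGroup.map Q (Q.map π) π (le_comap_map π Q))
      (QuotientGroup.map_surjective_of_surjective Q (Q.map π) π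
        ((QuotientGroup.mk'_surjective _).comp hπ) (le_comap_map π Q)) h

end Cfsg.Agent.H75
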