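import Mathlib
import Cfsg.Agent.H75.HSubgroup
import Cfsg.Agent.H75.SupEmbedded

/-!
Supersolvability from strongly closed subgroups of a fixed order in the Sylow subgroups of a normal subgroup.
-/

set_option autoImplicit false
set_option linter.all false
open Subgroup
open scoped Pointwise

namespace Cfsg.Agent.H75

universe u

/-- Every noncyclic Sylow subgroup of `H` has all subgroups of some intermediate order closed in `G`. -/
def SylowClosed {G : Type*} [Group G] (H : Subgroup G) : Prop :=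
  ∀ (p : ℕ), p.Prime → ∀ P : Subgroup G, P ≤ H → IsPGroup p P → ¬ p ∣ P.relIndex H → ¬ IsCyclic ↥P →
    ∃ d : ℕ, 1 ≤ d ∧ p ^ d < Nat.card P ∧ AllClosed p d P

variable {G : Type u} [Group G] [Finite G]

/-- A group with closed Sylow conditions has a normal Sylow subgroup for its largest prime. -/
theorem exists_normal_sylow_largest (H : Subgroup G) (hH : SylowClosed H) {q : ℕ} [hq : Fact q.Prime]
    (hmax : ∀ r : ℕ, r.Prime → r ∣ Nat.card H → r ≤ q) :
    ∃ Q : Subgroup G, Q ≤ H ∧ IsPGroup q Q ∧ ¬ q ∣ Q.relIndex H ∧ H ≤ normalizer (Q : Set G) := by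
  induction hn : Nat.card H using Nat.strong_induction_on generalizing H with
  | _ n ih =>
  by_cases hqH : IsPGroup q H
  · exact ⟨H, le_rfl, hqH, by rw [relIndex_self]; exact hq.1.not_dvd_one, le_normalizer⟩
  have hne : Nat.card H ≠ 1 := fun h => hqH (IsPGroup.of_card (n := 0) (by rw [h, pow_zero]))
  set p := (Nat.card H).minFac with hpdef
  haveI hp : Fact p.Prime := ⟨Nat.minFac_prime hne⟩
  have hpq : p ≠ q := by
    intro h
    apply hqH
    refine IsPGroup.of_card (n := (Nat.card H).factorization q) ?_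
    refine Nat.eq_pow_of_factorization_eq_single Nat.card_pos.ne' ?_
    ext r
    by_cases hr : r = q
    · subst hr; rw [Finsupp.single_eq_same]
    · rw [Finsupp.single_eq_of_ne hr]
      by_contra h0
      have hrp : r.Prime ∧ r ∣ Nat.card H :=
        ⟨Nat.prime_of_mem_primeFactors (Finsupp.mem_support_iff.mpr h0), Nat.dvd_of_factorization_pos h0⟩
      have h1 := hmax r hrp.1 hrp.2
      have h2 := Nat.minFac_le_of_dvd hrp.1.two_le hrp.2
      rw [← hpdef, h] at h2
      omega
  obtain ⟨P⟩ : Nonempty (Sylow p H) := inferInstance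
  have hK : Cfsg.HasNormalPComplement p H := by
    have hmin : ∀ r : ℕ, r.Prime → r ∣ Nat.card H → p ≤ r := fun r hr hd => Nat.minFac_le_of_dvd hr.two_le hd
    by_cases hc : IsCyclic ↥(P : Subgroup H)
    · rw [Cfsg.Agent.H22.hasNormalPComplement_iff_exists P]
      exact ⟨_, MonoidHom.normal_ker _, IsCyclic.isComplement' rfl hc⟩
    set P' := (P : Subgroup H).map H.subtype with hP'
    have hc' : ¬ IsCyclic P' := fun h => hc (((P : Subgroup H).equivMapOfInjective _ H.subtype_injective).isCyclic.mpr h)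
    obtain ⟨d, hd, hdP, hcl⟩ := hH p hp.1 P' (map_subtype_le _) (P.2.map _)
      (by rw [relIndex, hP', subgroupOf, comap_map_eq_self_of_injective H.subtype_injective]; exact P.not_dvd_index) hc'
    refine hasNormalPComplement_of_allClosed hmin P hd
      (by rwa [hP', card_map_of_injective H.subtype_injective] at hdP) ?_
    intro F hF hFc g x hx
    obtain ⟨⟨y, hy, rfl⟩, hxN⟩ := hx
    have h1 := hcl (F.map H.subtype) (map_mono hF) (by rwa [card_map_of_injective H.subtype_injective]) (g : G)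
      (x := ((MulAut.conj g).toMonoidHom y : H)) ⟨⟨(y : G), ⟨y, hy, rfl⟩, by simp⟩,
        le_normalizer_map H.subtype ⟨_, hxN, rfl⟩⟩
    obtain ⟨z, hz, hze⟩ := h1
    exact (Subtype.ext hze : z = _) ▸ hz
  rw [Cfsg.Agent.H22.hasNormalPComplement_iff_exists P] at hK
  obtain ⟨N, hNn, hNc⟩ := hK
  set N' := N.map H.subtype with hN'
  have hN'H : N' ≤ H := map_subtype_le _
  have hidx : N'.relIndex H = Nat.card (P : Subgroup H) := by
    rw [relIndex, hN', subgroupOf, comap_map_eq_self_of_injective H.subtype_injective, hNc.symm.index_eq_card]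
  have hcardN' : Nat.card N' = Nat.card N := card_map_of_injective H.subtype_injective
  have hpN : ¬ p ∣ Nat.card N := by
    have := P.not_dvd_index
    rwa [hNc.index_eq_card] at this
  have hP1 : p ∣ Nat.card (P : Subgroup H) := P.dvd_card_of_dvd_card (Nat.minFac_dvd _)
  obtain ⟨k, hk⟩ := IsPGroup.iff_card.mp P.2
  have hlt : Nat.card N' < n := by
    rw [hcardN', ← hn, ← N.card_mul_index, hNc.symm.index_eq_card]
    have h2 : 2 ≤ Nat.card (P : Subgroup H) := le_trans hp.1.two_le (Nat.le_of_dvd Nat.card_pos hP1)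
    exact lt_mul_of_one_lt_right Nat.card_pos h2
  have hN'S : SylowClosed N' := by
    intro r hr R hRN hR hRi hRc
    refine hH r hr R (hRN.trans hN'H) hR ?_ hRc
    rw [← relIndex_mul_relIndex R N' H hRN hN'H, hidx, hk]
    intro h
    haveI : Fact r.Prime := ⟨hr⟩
    rcases hr.dvd_mul.mp h with h | h
    · exact hRi h
    obtain rfl : r = p := (Nat.prime_dvd_prime_iff_eq hr hp.1).mp (hr.dvd_of_dvd_pow h)
    refine hRc ?_
    have : Nat.card R = 1 := by
      rcases hR.card_eq_or_dvd with h1 | h1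
      · exact h1
      · exact absurd (h1.trans (hcardN' ▸ card_dvd_of_le hRN)) hpN
    haveI := (Nat.card_eq_one_iff_unique.mp this).1
    infer_instance
  obtain ⟨Q, hQN, hQ, hQi, hQn⟩ := ih _ hlt N' hN'S (fun r hr hd => hmax r hr (hd.trans (card_dvd_of_le hN'H))) rfl
  refine ⟨Q, hQN.trans hN'H, hQ, ?_, ?_⟩
  · rw [← relIndex_mul_relIndex Q N' H hQN hN'H, hidx, hk]
    exact fun h => (hq.1.dvd_mul.mp h).elim hQi
      (fun h => hpq ((Nat.prime_dvd_prime_iff_eq hq.1 hp.1).mp (hq.1.dvd_of_dvd_pow h)).symm)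
  · -- `Q` is the unique Sylow `q`-subgroup of the normal subgroup `N`
    haveI : (Q.subgroupOf N').Normal := normal_subgroupOf_of_le_normalizer hQn
    have hQ' : IsPGroup q (Q.subgroupOf N') := hQ.of_equiv (subgroupOfEquivOfLe hQN).symm
    have hQi' : ¬ q ∣ (Q.subgroupOf N').index := hQi
    set S := hQ'.toSylow hQi' with hS
    haveI : (S : Subgroup N').Normal := by rw [hS, IsPGroup.toSylow_coe]; infer_instance
    haveI hSc : (Q.subgroupOf N').Characteristic := by
      have := Sylow.characteristic_of_normal S this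
      rwa [hS, IsPGroup.toSylow_coe] at this
    intro h hh
    refine mem_normalizer_of_map_eq ?_
    have hN'g : N'.map (MulAut.conj h).toMonoidHom = N' := by
      refine eq_of_le_of_card_ge ?_ (card_map_of_injective (f := (MulAut.conj h).toMonoidHom) (MulAut.conj h).injective).ge
      rintro _ ⟨_, ⟨y, hy, rfl⟩, rfl⟩
      exact ⟨⟨h, hh⟩ * y * (⟨h, hh⟩ : H)⁻¹, hNn.conj_mem y hy _, rfl⟩
    let e : N' ≃* N' := ((MulAut.conj h).subgroupMap N').trans (MulEquiv.subgroupCongr hN'g)
    have he := characteristic_iff_map_eq.mp hSc e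
    refine eq_of_le_of_card_ge ?_ (card_map_of_injective (f := (MulAut.conj h).toMonoidHom) (MulAut.conj h).injective).ge
    rintro _ ⟨y, hy, rfl⟩
    have hz : e ⟨y, hQN hy⟩ ∈ (Q.subgroupOf N').map e.toMonoidHom := mem_map_of_mem _ hy
    rw [he] at hz
    exact hz

/-- The index of `K` in `K ⊔ Q` divides `|Q|` for normal `Q`. -/
theorem relIndex_sup_dvd_card (K Q : Subgroup G) [Q.Normal] : K.relIndex (K ⊔ Q) ∣ Nat.card Q := by
  have h1 := Cfsg.Agent.H32.card_mul_relIndex (le_sup_left : K ≤ K ⊔ Q)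
  have h2 := Cfsg.Agent.H32.card_mul_relIndex (le_sup_right : Q ≤ K ⊔ Q)
  rw [relIndex_sup_right] at h2
  refine Nat.dvd_of_mul_dvd_mul_left (Nat.card_pos (α := K)) ?_
  rw [h1, ← h2, mul_comm (Nat.card K)]
  exact mul_dvd_mul_left _ (relIndex_dvd_card Q K)

/-- If an element of a `r`-group lies in `K ⊔ Q`, with `Q` an `r'`-normal subgroup, a `Q`-conjugate lies in `K`. -/
theorem exists_conj_mem_of_sup {r : ℕ} [Fact r.Prime] {K Q : Subgroup G} [Q.Normal] (hQ : ¬ r ∣ Nat.card Q)
    {x : G} (hx : x ∈ K ⊔ Q) (hr : IsPGroup r (zpowers x)) : ∃ v ∈ Q, v * x * v⁻¹ ∈ K := by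
  set H := K ⊔ Q with hH
  have hidx : ¬ r ∣ (K.subgroupOf H).index := by
    exact fun h => hQ (h.trans (relIndex_sup_dvd_card K Q))
  obtain ⟨R⟩ : Nonempty (Sylow r (K.subgroupOf H)) := inferInstance
  set R' := (R : Subgroup (K.subgroupOf H)).map (K.subgroupOf H).subtype with hR'
  have hR'i : ¬ r ∣ R'.index := by
    rw [hR', index_map_subtype]
    exact fun h => ((Fact.out : r.Prime).dvd_mul.mp h).elim R.not_dvd_index hidx
  have hxp : IsPGroup r (zpowers (⟨x, hx⟩ : H)) := by
    refine IsPGroup.of_injective hr (((H.subtype).comp (zpowers (⟨x, hx⟩ : H)).subtype).codRestrict (zpowers x) ?_) ?_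
    · rintro ⟨_, i, rfl⟩; exact ⟨i, by simp⟩
    · intro a b hab
      exact Subtype.ext (Subtype.ext (congrArg Subtype.val hab :))
  obtain ⟨S, hS⟩ := hxp.exists_le_sylow
  obtain ⟨h, hh⟩ := MulAction.exists_smul_eq H S ((R.2.map (K.subgroupOf H).subtype).toSylow hR'i)
  have hmem : h * ⟨x, hx⟩ * h⁻¹ ∈ R' := by
    have h1 : MulAut.conj h (⟨x, hx⟩ : H) ∈ (h • S : Sylow r H) := by
      show _ ∈ ((h • S : Sylow r H) : Subgroup H)
      rw [Sylow.coe_subgroup_smul, ← SetLike.mem_coe]
      exact Subgroup.smul_mem_pointwise_smul _ _ _ (hS (mem_zpowers _))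
    rw [hh] at h1
    exact h1
  have hk : (h : G) * x * (h : G)⁻¹ ∈ K := by
    obtain ⟨y, -, e⟩ := hmem
    have := congrArg Subtype.val e
    have h2 : ((y : H) : G) ∈ K := y.2
    rw [Subgroup.coe_subtype] at this
    rw [this] at h2
    simpa using h2
  have hh2 : (h : G) ∈ ((K : Set G) * (Q : Set G)) := by rw [← mul_normal]; exact h.2
  obtain ⟨n, hn, v, hv, hnv⟩ := hh2
  refine ⟨v, hv, ?_⟩
  have := mul_mem (mul_mem (inv_mem hn) hk) hn
  rw [← hnv] at this
  convert this using 1
  group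

/-- The condition passes to the quotient by a normal Sylow subgroup. -/
theorem sylowClosed_quotient {E Q : Subgroup G} [Q.Normal] (hE : SylowClosed E) {q : ℕ} [hq : Fact q.Prime]
    (hQE : Q ≤ E) (hQ : IsPGroup q Q) (hQi : ¬ q ∣ Q.relIndex E) : SylowClosed (E.map (QuotientGroup.mk' Q)) := by
  intro r hr P' hP'E hP' hP'i hP'c
  haveI : Fact r.Prime := ⟨hr⟩
  set π := QuotientGroup.mk' Q with hπ
  have hQker : π.ker = Q := QuotientGroup.ker_mk' Q
  have hEcard : Nat.card (E.map π) = Q.relIndex E := by rw [← relIndex_ker, hQker]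
  have hrq : r ≠ q := by
    rintro rfl
    rcases hP'.card_eq_or_dvd with h | h
    · haveI := (Nat.card_eq_one_iff_unique.mp h).1
      exact hP'c inferInstance
    · exact hQi (hEcard ▸ h.trans (card_dvd_of_le hP'E))
  obtain ⟨m, hm⟩ := IsPGroup.iff_card.mp hQ
  have hrQ : ¬ r ∣ Nat.card Q := fun h => hrq ((Nat.prime_dvd_prime_iff_eq hr hq.1).mp (hr.dvd_of_dvd_pow (hm ▸ h)))
  set L := P'.comap π with hL
  have hQL : Q ≤ L := hQker ▸ ker_le_comap π P'
  have hLE : L ≤ E := by
    rw [hL]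
    refine (comap_mono hP'E).trans ?_
    rw [comap_map_eq, hQker, sup_of_le_left hQE]
  obtain ⟨R⟩ : Nonempty (Sylow r L) := inferInstance
  set P := (R : Subgroup L).map L.subtype with hP
  have hPL : P ≤ L := map_subtype_le _
  have hPr : IsPGroup r P := R.2.map _
  have hPi : ¬ r ∣ P.relIndex L := by
    rw [relIndex, hP, subgroupOf, comap_map_eq_self_of_injective L.subtype_injective]; exact R.not_dvd_index
  have hinj : ∀ A : Subgroup G, A ≤ P → Nat.card (A.map π) = Nat.card A := by
    intro A hA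
    rw [← relIndex_ker, hQker]
    have : Q ⊓ A = ⊥ := by
      refine inf_eq_bot_of_coprime ?_
      obtain ⟨j, hj⟩ := IsPGroup.iff_card.mp (hPr.to_le hA)
      rw [hm, hj]
      exact Nat.Coprime.pow _ _ ((Nat.coprime_primes hq.1 hr).mpr (Ne.symm hrq))
    rw [← inf_relIndex_right, this, relIndex_bot_left]
  have hmapP : P.map π = P' := by
    refine eq_of_le_of_card_ge ((map_mono hPL).trans (map_comap_le π P')) ?_
    rw [hinj P le_rfl]
    obtain ⟨a, ha⟩ := IsPGroup.iff_card.mp hPr
    obtain ⟨b, hb⟩ := IsPGroup.iff_card.mp hP'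
    have hL' : Nat.card L = Nat.card Q * Nat.card P' := by
      rw [← Cfsg.Agent.H32.card_mul_relIndex hQL]
      congr 1
      conv_lhs => rw [← hQker]
      rw [relIndex_ker, hL, map_comap_eq_self_of_surjective (QuotientGroup.mk'_surjective Q)]
    have h2 : r ^ b ∣ Nat.card P * P.relIndex L := by
      rw [Cfsg.Agent.H32.card_mul_relIndex hPL, hL', hb]; exact dvd_mul_left _ _
    have hco : (r ^ b).Coprime (P.relIndex L) := Nat.Coprime.pow_left _ (hr.coprime_iff_not_dvd.mpr hPi)
    rw [hb]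
    exact Nat.le_of_dvd Nat.card_pos (hco.dvd_of_dvd_mul_right h2)
  have hPiE : ¬ r ∣ P.relIndex E := by
    rw [← relIndex_mul_relIndex P L E hPL hLE]
    intro h
    rcases hr.dvd_mul.mp h with h | h
    · exact hPi h
    refine hP'i ?_
    have := relIndex_comap (f := π) P' E
    rw [hL, this] at h
    exact h
  have hPc : ¬ IsCyclic P := by
    intro h
    apply hP'c
    rw [← hmapP]
    exact isCyclic_of_surjective (π.subgroupMap P) (MonoidHom.subgroupMap_surjective π P)
  obtain ⟨d, hd, hdP, hcl⟩ := hE r hr P (hPL.trans hLE) hPr hPiE hPc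
  refine ⟨d, hd, by rwa [← hmapP, hinj P le_rfl], ?_⟩
  intro F' hF' hFc g' x' hx'
  obtain ⟨g, rfl⟩ := QuotientGroup.mk'_surjective Q g'
  set F := F'.comap π ⊓ P with hF
  have hFmap : F.map π = F' := by
    refine le_antisymm ((map_mono inf_le_left).trans (map_comap_le π F')) fun y hy => ?_
    obtain ⟨z, hz, rfl⟩ := (hmapP ▸ hF' : F' ≤ P.map π) hy
    exact ⟨z, ⟨hy, hz⟩, rfl⟩
  have hFcard : Nat.card F = Nat.card F' := by rw [← hFmap, hinj F inf_le_right]
  obtain ⟨⟨f', hf', rfl⟩, hxN⟩ := hx'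
  rw [← hFmap] at hf' hxN
  obtain ⟨f, hf, rfl⟩ := hf'
  -- the normalizer of the image is the image of the normalizer
  have hxr : IsPGroup r (zpowers (g * f * g⁻¹)) :=
    ((hPr.to_le inf_le_right : IsPGroup r F).map (MulAut.conj g).toMonoidHom).to_le
      (zpowers_le.mpr ⟨f, hf, rfl⟩)
  have hx : g * f * g⁻¹ ∈ normalizer (F : Set G) ⊔ Q := by
    have hx1 : g * f * g⁻¹ ∈ normalizer ((F ⊔ Q : Subgroup G) : Set G) := by
      have h1 : F ⊔ Q = (F.map π).comap π := by rw [comap_map_eq, hQker]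
      rw [h1]
      exact le_normalizer_comap π (show π (g * f * g⁻¹) ∈ normalizer ((F.map π : Subgroup (G ⧸ Q)) : Set (G ⧸ Q)) by
        simpa [hπ] using hxN)
    set x := g * f * g⁻¹
    set T := F ⊔ Q with hT
    have hFT : F ≤ T := le_sup_left
    have hFTi : ¬ r ∣ (F.subgroupOf T).index := by
      exact fun h => hrQ (h.trans (relIndex_sup_dvd_card F Q))
    have hconj : (F.map (MulAut.conj x).toMonoidHom) ≤ T := by
      rintro _ ⟨y, hy, rfl⟩
      exact (mem_normalizer_iff.mp hx1 y).mp (hFT hy)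
    have hFr : IsPGroup r F := hPr.to_le inf_le_right
    obtain ⟨S, hS⟩ := ((hFr.map (MulAut.conj x).toMonoidHom).of_equiv
      (subgroupOfEquivOfLe hconj).symm).exists_le_sylow
    obtain ⟨h, hh⟩ := MulAction.exists_smul_eq T S
      ((hFr.of_equiv (subgroupOfEquivOfLe hFT).symm).toSylow hFTi)
    have hhx : (h : G) * x ∈ normalizer (F : Set G) := by
      refine mem_normalizer_of_map_eq (eq_of_le_of_card_ge ?_
        (card_map_of_injective (f := (MulAut.conj ((h : G) * x)).toMonoidHom) (MulAut.conj ((h : G) * x)).injective).ge)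
      rintro _ ⟨y, hy, rfl⟩
      have hy' : (MulAut.conj x).toMonoidHom y ∈ F.map (MulAut.conj x).toMonoidHom := mem_map_of_mem _ hy
      have h1 : MulAut.conj h (⟨_, hconj hy'⟩ : T) ∈ (h • S : Sylow r T) := by
        show _ ∈ ((h • S : Sylow r T) : Subgroup T)
        rw [Sylow.coe_subgroup_smul, ← SetLike.mem_coe]
        exact Subgroup.smul_mem_pointwise_smul _ _ _ (hS hy')
      rw [hh] at h1
      simpa [mul_assoc] using (mem_subgroupOf.mp h1)
    have hh2 : (h : G) ∈ ((Q : Set G) * (F : Set G)) := by rw [← normal_mul, sup_comm]; exact h.2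
    obtain ⟨v, hv, w, hw, hvw⟩ := hh2
    have e : x = w⁻¹ * (v⁻¹ * ((h : G) * x)) := by rw [← hvw]; group
    rw [e]
    exact mul_mem (mem_sup_left (le_normalizer (inv_mem hw)))
      (mul_mem (mem_sup_right (inv_mem hv)) (mem_sup_left hhx))
  obtain ⟨v, hv, hvx⟩ := exists_conj_mem_of_sup hrQ hx hxr
  have hres := hcl F inf_le_right (by rwa [hFcard]) (v * g) (x := v * (g * f * g⁻¹) * v⁻¹)
    ⟨⟨f, hf, by simp [mul_assoc]⟩, hvx⟩
  rw [← hFmap]
  refine ⟨_, hres, ?_⟩
  have hv1 : π v = 1 := (QuotientGroup.eq_one_iff v).mpr hv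
  show π (v * (g * f * g⁻¹) * v⁻¹) = MulAut.conj (π g) (π f)
  simp [hv1]

/-- The criterion. -/
theorem isSupersolvable_of_sylowClosed {G : Type u} [Group G] [Finite G] (E : Subgroup G) [E.Normal]
    (hE : SylowClosed E) (h : Cfsg.IsSupersolvable (G ⧸ E)) : Cfsg.IsSupersolvable G := by
  induction hn : Nat.card G using Nat.strong_induction_on generalizing G with
  | _ n ih =>
  by_cases hE0 : E = ⊥
  · subst hE0
    exact Cfsg.Agent.H32.isSupersolvable_of_mulEquiv QuotientGroup.quotientBot h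
  have hne : (Nat.card E).primeFactors.Nonempty := by
    rw [Nat.nonempty_primeFactors]
    exact (one_lt_card_iff_ne_bot E).mpr hE0
  set q := (Nat.card E).primeFactors.max' hne with hq
  have hqm := (Nat.card E).primeFactors.max'_mem hne
  rw [← hq, Nat.mem_primeFactors] at hqm
  haveI : Fact q.Prime := ⟨hqm.1⟩
  obtain ⟨Q, hQE, hQ, hQi, hQn⟩ := exists_normal_sylow_largest E hE (q := q)
    (fun r hr hd => Finset.le_max' _ r (Nat.mem_primeFactors.mpr ⟨hr, hd, Nat.card_pos.ne'⟩))
  haveI : (Q.subgroupOf E).Normal := normal_subgroupOf_of_le_normalizer hQn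
  have hQ' : IsPGroup q (Q.subgroupOf E) := hQ.of_equiv (subgroupOfEquivOfLe hQE).symm
  have hQi' : ¬ q ∣ (Q.subgroupOf E).index := hQi
  haveI hQc : (Q.subgroupOf E).Characteristic := by
    have h1 : ((hQ'.toSylow hQi' : Sylow q E) : Subgroup E).Normal := by rw [IsPGroup.toSylow_coe]; infer_instance
    have := Sylow.characteristic_of_normal _ h1
    rwa [IsPGroup.toSylow_coe] at this
  haveI hQG : Q.Normal := by
    have := ConjAct.normal_of_characteristic_of_normal (K := Q.subgroupOf E)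
    rwa [map_subgroupOf_eq_of_le hQE] at this
  have hQ0 : Q ≠ ⊥ := by
    rintro rfl
    rw [relIndex_bot_left] at hQi
    exact hQi hqm.2.1
  set π := QuotientGroup.mk' Q
  haveI : (E.map π).Normal := ‹E.Normal›.map π (QuotientGroup.mk'_surjective Q)
  have hss : Cfsg.IsSupersolvable (G ⧸ Q) :=
    ih _ (hn ▸ Cfsg.Agent.H32.card_quotient_lt Q hQ0) (E.map π) (sylowClosed_quotient hE hQE hQ hQi)
      (Cfsg.Agent.H32.isSupersolvable_of_surjective
        (QuotientGroup.map E (E.map π) π (le_comap_map π E))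
        (QuotientGroup.map_surjective_of_surjective E (E.map π) π
          ((QuotientGroup.mk'_surjective _).comp (QuotientGroup.mk'_surjective Q)) (le_comap_map π E)) h) rfl
  by_cases hc : IsCyclic Q
  · exact Cfsg.Agent.H32.isSupersolvable_of_cyclic_normal Q hss
  obtain ⟨d, hd, hdQ, hcl⟩ := hE q hqm.1 Q hQE hQ hQi hc
  refine isSupersolvable_of_actsP Q hQ (actsP_of_allNormal hQ hd hdQ fun F hF hFc => ?_) hss
  have hN := le_normalizer_of_closed hQ hF (hcl F hF hFc)
  refine ⟨fun x hx g => hcl F hF hFc g ⟨⟨x, hx, rfl⟩, hN (hQG.conj_mem x (hF hx) g)⟩⟩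

end Cfsg.Agent.H75
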