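import Cfsg.Agent.H75.CentricBase
import Cfsg.Agent.H75.ClosedQd

/-!
`N(Z(J(S)))` controls fusion when the normalizers of subgroups between `Z(S)` and `S` have no section `SL₂(p)`.
-/

set_option autoImplicit false
set_option linter.all false

namespace Cfsg.Agent.H75

universe u

open Cfsg.Agent.H61
open Cfsg.Agent.H23 (IsSylowIn)
open scoped Pointwise

variable {G : Type u} [Group G] [Finite G] {p : ℕ} [Fact p.Prime]

/-- `N(U)` has no section `SL₂(p)`. -/
def GoodLocal (p : ℕ) (U : Subgroup G) : Prop :=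
  ¬ ∃ (H K : Subgroup G) (hK : (K.subgroupOf H).Normal), H ≤ Subgroup.normalizer (U : Set G) ∧
    Nonempty ((H ⧸ K.subgroupOf H) ≃* Matrix.SpecialLinearGroup (Fin 2) (ZMod p))

theorem closedFus_of_goodLocal (b : Bool) (hp : p ≠ 2) {U : Subgroup G} (hU : GoodLocal p U) :
    ClosedFus b p ↥(Subgroup.normalizer (U : Set G)) := by
  set N := Subgroup.normalizer (U : Set G)
  refine closedFus_main (G := N) (fun X _ _ hX hC => ?_) sect_refl
  intro S D hD A g _ hA hgA R hR hbase
  have hn := zjOf_normal b hp S hD hC (fun V _ hV => by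
    by_contra hns
    obtain ⟨K, L, hL, ⟨e⟩⟩ := (H35.exists_sections_of_not_isPStableOn hp hV hns).1
    obtain ⟨H, f, hf⟩ := hX
    let i := (Subgroup.equivMapOfInjective (((K.comap f).map H.subtype)) N.subtype N.subtype_injective).symm
    let j := (Subgroup.equivMapOfInjective (K.comap f) H.subtype H.subtype_injective).symm
    let q := ((((e.toMonoidHom.comp (QuotientGroup.mk' _)).comp (f.subgroupComap K)).comp j.toMonoidHom)).comp i.toMonoidHom
    have hq : Function.Surjective q :=
      (((e.surjective.comp (QuotientGroup.mk'_surjective _)).comp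
        (f.subgroupComap_surjective_of_surjective K hf)).comp j.surjective).comp i.surjective
    obtain ⟨K', R', hR', hle, he⟩ := H35.exists_section_of_surjective _ q hq
    exact hU ⟨K', R', hR', hle.trans (Subgroup.map_subtype_le _), he⟩)
  exact hbase _ rfl g ⟨Subgroup.mem_top g, by
    rw [Subgroup.normalizer_eq_top_iff.2 hn]; exact Subgroup.mem_top g⟩ A hA hgA

theorem goodLocal_cj {U : Subgroup G} (hU : GoodLocal p U) (k : G) : GoodLocal p (cj k U) := by
  rintro ⟨H, K, hK, hle, ⟨e⟩⟩
  apply hU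
  set φ := (MulAut.conj k⁻¹).toMonoidHom
  have hφ : Function.Injective φ := (MulAut.conj k⁻¹).injective
  let i := (Subgroup.equivMapOfInjective H φ hφ).symm
  let q := (e.toMonoidHom.comp (QuotientGroup.mk' (K.subgroupOf H))).comp i.toMonoidHom
  have hq : Function.Surjective q := (e.surjective.comp (QuotientGroup.mk'_surjective _)).comp i.surjective
  obtain ⟨K', R', hR', hle', he⟩ := H35.exists_section_of_surjective _ q hq
  refine ⟨K', R', hR', hle'.trans ((Subgroup.map_mono hle).trans ?_), he⟩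
  rw [← cj_normalizer]
  show cj k⁻¹ (cj k _) ≤ _
  rw [cj_cj, inv_mul_cancel, cj_one]

/-- Control of fusion by `N(W)`, `W = zjOf b p S`. -/
theorem controls_of_goodLocal (b : Bool) (hp : p ≠ 2) (S : Sylow p G)
    (hgood : ∀ P : Subgroup G, (S : Subgroup G) ⊓ Subgroup.centralizer ((S : Subgroup G) : Set G) ≤ P →
      P ≤ (S : Subgroup G) → GoodLocal p P)
    (hW : ∀ T : Subgroup G, T ≤ (S : Subgroup G) →
      (S : Subgroup G) ⊓ Subgroup.centralizer ((S : Subgroup G) : Set G) ≤ T →
      (S : Subgroup G) ⊓ Subgroup.centralizer ((S : Subgroup G) : Set G) ≤ zjOf b p T)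
    {A : Subgroup G} {g : G} (hA : A ≤ (S : Subgroup G)) (hg : cj g A ≤ (S : Subgroup G)) :
    ∃ x ∈ Subgroup.normalizer (zjOf b p (S : Subgroup G) : Set G), ∀ a ∈ A, g * a * g⁻¹ = x * a * x⁻¹ := by
  set Z := (S : Subgroup G) ⊓ Subgroup.centralizer ((S : Subgroup G) : Set G) with hZdef
  set N₀ := Subgroup.normalizer (zjOf b p (S : Subgroup G) : Set G)
  let R : Subgroup G → G → Prop := fun B y => ∃ x ∈ N₀, ∀ a ∈ B, y * a * y⁻¹ = x * a * x⁻¹
  have mono : ∀ A B y, B ≤ A → R A y → R B y := fun A B y hBA ⟨x, hx, h⟩ => ⟨x, hx, fun a ha => h a (hBA ha)⟩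
  have mul : ∀ A y z, R A y → R (cj y A) z → R A (z * y) := by
    rintro A y z ⟨x, hx, hxa⟩ ⟨w, hw, hwa⟩
    refine ⟨w * x, mul_mem hw hx, fun a ha => ?_⟩
    calc z * y * a * (z * y)⁻¹ = z * (y * a * y⁻¹) * z⁻¹ := by group
      _ = w * (y * a * y⁻¹) * w⁻¹ := hwa _ (conj_mem_cj ha)
      _ = _ := by rw [hxa a ha]; group
  have triv : ∀ A y, A ≤ (S : Subgroup G) → (∀ a ∈ A, y * a * y⁻¹ = a) → R A y :=
    fun A y _ hy => ⟨1, one_mem _, fun a ha => by simp [hy a ha]⟩
  have hfam : ∀ T : Subgroup G, T ≤ (S : Subgroup G) →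
      ∃ k : G, True ∧ Full p (S : Subgroup G) (cj k T) := fun T hT =>
    let ⟨k, hk, _⟩ := exists_full S hT
    ⟨k, trivial, hk⟩
  have hZle : ∀ U : Subgroup G, U ≤ (S : Subgroup G) → Z ≤ (S : Subgroup G) ⊓ Subgroup.normalizer (U : Set G) :=
    fun U hU => le_inf inf_le_left ((inf_le_right.trans (Subgroup.centralizer_le hU)).trans
      (Subgroup.centralizer_le_normalizer _))
  have hgoodcen : ∀ U : Subgroup G, U ≤ (S : Subgroup G) →
      (S : Subgroup G) ⊓ Subgroup.centralizer (U : Set G) ≤ U → GoodLocal p U := fun U hU hc =>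
    hgood U ((le_inf inf_le_left (inf_le_right.trans (Subgroup.centralizer_le hU))).trans hc) hU
  have hclosed : Cfsg.IsStronglyClosed (S : Subgroup G) (S : Subgroup G) := ⟨le_rfl, fun x _ g h => h⟩
  suffices key : ∀ U : Subgroup G, Full p (S : Subgroup G) U → GoodLocal p U →
      ∀ y ∈ Subgroup.normalizer (U : Set G), ∀ B : Subgroup G,
        B ≤ (S : Subgroup G) ⊓ Subgroup.normalizer (U : Set G) →
        cj y B ≤ (S : Subgroup G) ⊓ Subgroup.normalizer (U : Set G) → R B y by
    refine family_induction S (fun _ => True) hfam R mono mul (fun U _ hU n hn => ?_) hA hg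
    exact base_of_centric S R mono mul triv 0 (fun V hV _ hc n hn => key V hV (hgoodcen V hV.1 hc) n hn V
      (le_inf hV.1 Subgroup.le_normalizer) (by rw [cj_eq_self hn]; exact le_inf hV.1 Subgroup.le_normalizer))
      hU (Nat.zero_le _) n hn
  intro U hU hUg
  induction hd : Nat.card (S : Subgroup G) -
      Nat.card ((S : Subgroup G) ⊓ Subgroup.normalizer (U : Set G) : Subgroup G)
    using Nat.strong_induction_on generalizing U with
  | _ d IH =>
  subst hd
  set T : Subgroup G := (S : Subgroup G) ⊓ Subgroup.normalizer (U : Set G) with hT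
  intro y hy B hB hyB
  have hfus := closedFus_subgroup hU.2 (closedFus_of_goodLocal b hp hUg) (E := T)
    ⟨le_rfl, fun x _ g h => h⟩
  refine hfus B y hy hB hyB R ⟨mono, mul, fun C z hC => triv C z (hC.trans inf_le_left)⟩ ?_
  rintro _ rfl x hx C hC hxC
  have hx' : x ∈ Subgroup.normalizer (zjOf b p T : Set G) := (Subgroup.mem_inf.1 hx).2
  have hTp : IsPGroup p T := S.2.to_le inf_le_left
  rcases (inf_le_left : T ≤ (S : Subgroup G)).eq_or_lt with hTS | hTS
  · exact ⟨x, by show x ∈ Subgroup.normalizer (zjOf b p (S : Subgroup G) : Set G); rwa [← hTS], fun a _ => rfl⟩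
  have big : ∀ (C : Subgroup G) (h : G), Nat.card T < Nat.card C → C ≤ (S : Subgroup G) →
      cj h C ≤ (S : Subgroup G) → R C h := by
    intro C h hlt hC hh
    refine family_induction_above (Nat.card T + 1) S (fun _ => True) hfam R mono mul
      (fun U' _ hU' hcard => base_of_centric S R mono mul triv (Nat.card T + 1)
        (fun V hV hVm hc n hn => ?_) hU' hcard) hlt hC hh
    have hle : V ≤ (S : Subgroup G) ⊓ Subgroup.normalizer (V : Set G) :=
      le_inf hV.1 Subgroup.le_normalizer
    refine IH _ ?_ V hV (hgoodcen V hV.1 hc) rfl n hn V hle (by rw [cj_eq_self hn]; exact hle)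
    have := Subgroup.card_le_of_le hle
    have := Subgroup.card_le_of_le (inf_le_left : (S : Subgroup G) ⊓
      Subgroup.normalizer (V : Set G) ≤ S)
    omega
  set V := zjOf b p T with hV
  have hVS : V ≤ (S : Subgroup G) := (zjOf_le b T).trans inf_le_left
  set Q : Subgroup G := (S : Subgroup G) ⊓ Subgroup.normalizer (V : Set G) with hQ
  have hgrow : Nat.card T < Nat.card Q :=
    (card_lt_inf_normalizer S.2 hTS).trans_le (Subgroup.card_le_of_le
      (inf_le_inf_left _ (normalizer_le_normalizer_zjOf b T)))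
  have hTQ : T ≤ Q := le_inf inf_le_left (Subgroup.le_normalizer.trans (normalizer_le_normalizer_zjOf b T))
  obtain ⟨k, hk, hkle⟩ := exists_full S hVS
  set U' := cj k V with hU'
  set P' : Subgroup G := (S : Subgroup G) ⊓ Subgroup.normalizer (U' : Set G) with hP'
  have hcard : Nat.card T < Nat.card P' :=
    hgrow.trans_le ((card_cj k Q).ge.trans (Subgroup.card_le_of_le hkle))
  have hU'g : GoodLocal p U' := goodLocal_cj (hgood V (hW T inf_le_left (hZle U hU.1)) hVS) k
  have h1 : R C k := mono _ _ _ (hC.trans hTQ) (big Q k hgrow inf_le_left (hkle.trans inf_le_left))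
  have hxk : k * x * k⁻¹ ∈ Subgroup.normalizer (U' : Set G) := by
    rw [hU', ← cj_normalizer]; exact conj_mem_cj hx'
  have e1 : cj (k * x * k⁻¹) (cj k C) = cj k (cj x C) := by simp [mul_assoc]
  have h2 : R (cj k C) (k * x * k⁻¹) := by
    refine IH _ ?_ U' hk hU'g rfl _ hxk _ ((cj_mono k (hC.trans hTQ)).trans hkle)
      (by rw [e1]; exact (cj_mono k (hxC.trans hTQ)).trans hkle)
    have := Subgroup.card_le_of_le (inf_le_left : P' ≤ (S : Subgroup G))
    simp only [hP'] at hcard this ⊢
    omega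
  have h3 : R (cj k (cj x C)) k⁻¹ :=
    mono (cj k Q) _ _ (cj_mono k (hxC.trans hTQ))
      (big _ _ (by rw [card_cj]; exact hgrow) (hkle.trans inf_le_left) (by simp [hQ]))
  have := mul _ _ _ h1 (mul _ _ _ h2 (by rw [e1]; exact h3))
  simpa [mul_assoc] using this

/-- `Z(J(T))` contains every subgroup of `T` central in `T`. -/
theorem le_centerThompsonAOf_of_central {T Z : Subgroup G} (hZT : Z ≤ T)
    (hZ : Z ≤ Subgroup.centralizer (T : Set G)) : Z ≤ Cfsg.centerThompsonAOf T := by
  intro z hz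
  obtain ⟨B, hB⟩ := H35.maxAbelianSubgroups_nonempty T
  have hjoin : B.map T.subtype ≤ Cfsg.thompsonSubgroupAOf T := Subgroup.map_mono (le_sSup hB)
  refine ⟨hjoin ⟨⟨z, hZT hz⟩, ?_, rfl⟩, Subgroup.mem_centralizer_iff.2 fun x hx =>
    Subgroup.mem_centralizer_iff.1 (hZ hz) x (H35.thompsonSubgroupAOf_le T hx)⟩
  refine H35.mem_of_card_max le_sup_left ?_ (Subgroup.mem_sup_right (Subgroup.mem_zpowers _))
  exact hB.2 _ (H35.isMulCommutative_sup_zpowers hB.1 fun a _ =>
    Subtype.ext (Subgroup.mem_centralizer_iff.1 (hZ hz) a a.2))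

end Cfsg.Agent.H75
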