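import Mathlib

/-!
A normal subgroup `H` of prime index in a maximal subgroup `M`: if no two conjugates of `H`
generate `G`, the transfer into `M / H` is nontrivial.
-/

set_option autoImplicit false
set_option linter.all false

namespace Cfsg.Agent.H75

open Subgroup

variable {G : Type*} [Group G] [Finite G]

theorem exists_normal_of_pairs_proper (M H : Subgroup G) (hmax : IsCoatom M) (hHM : H ≤ M)
    (hHn : M ≤ normalizer (H : Set G)) (hq : (H.relIndex M).Prime)
    (hMn : ∀ g : G, M.map (MulAut.conj g).toMonoidHom = M → g ∈ M)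
    (hL : ∀ g : G, H ⊔ H.map (MulAut.conj g).toMonoidHom ≠ ⊤)
    (hLn : ∀ g : G, ¬ H.map (MulAut.conj g).toMonoidHom ≤ M →
      ¬ (H ⊔ H.map (MulAut.conj g).toMonoidHom).Normal) :
    ∃ K : Subgroup G, K.Normal ∧ K ≠ ⊤ ∧ (∀ a b : G, a * b * a⁻¹ * b⁻¹ ∈ K) ∧
      ((∀ (g : G), ∀ h ∈ H, g⁻¹ * h * g ∈ M → g⁻¹ * h * g ∈ H) → H ≤ K) := by
  classical
  haveI hn : (H.subgroupOf M).Normal := (normal_subgroupOf_iff_le_normalizer hHM).2 hHn
  have hcard : Nat.card (M ⧸ H.subgroupOf M) = H.relIndex M := rfl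
  haveI : Fact (H.relIndex M).Prime := ⟨hq⟩
  haveI : IsCyclic (M ⧸ H.subgroupOf M) := isCyclic_of_prime_card hcard
  letI : CommGroup (M ⧸ H.subgroupOf M) := IsCyclic.commGroup
  set φ : M →* M ⧸ H.subgroupOf M := QuotientGroup.mk' (H.subgroupOf M) with hφ
  have hφ1 : ∀ m : M, φ m = 1 ↔ (m : G) ∈ H := fun m => by
    rw [hφ, QuotientGroup.mk'_apply, QuotientGroup.eq_one_iff, mem_subgroupOf]
  -- an element of least order outside `H`
  have hne : ∃ n, ∃ y ∈ M, y ∉ H ∧ orderOf y = n := by
    by_contra hcon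
    push Not at hcon
    have hle : M ≤ H := fun m hm => by_contra fun h => hcon _ m hm h rfl
    rw [relIndex_eq_one.2 hle] at hq
    exact Nat.not_prime_one hq
  obtain ⟨y, hyM, hyH, hyo⟩ := Nat.find_spec hne
  have hmin : ∀ t ∈ M, t ∉ H → orderOf y ≤ orderOf t := fun t ht htH => by
    rw [hyo]; exact Nat.find_min' hne ⟨t, ht, htH, rfl⟩
  have hgenM : ∀ z ∈ M, z ∉ H → H ⊔ zpowers z = M := by
    intro z hz hzH
    have hle : H ⊔ zpowers z ≤ M := sup_le hHM (zpowers_le.2 hz)
    refine le_antisymm hle (relIndex_eq_one.1 ?_)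
    have h := relIndex_mul_relIndex H (H ⊔ zpowers z) M le_sup_left hle
    rcases hq.eq_one_or_self_of_dvd _ (Dvd.intro_left _ h) with h1 | h1
    · exact h1
    · exfalso
      rw [h1] at h
      have h2 : H.relIndex (H ⊔ zpowers z) = 1 := by
        have := hq.pos
        exact (Nat.mul_eq_right (by omega)).1 h
      exact hzH (relIndex_eq_one.1 h2 (mem_sup_right (mem_zpowers z)))
  -- the fusion of `M ∖ H` inside `M`
  have hfus : ∀ g : G, g ∉ M → g⁻¹ * y * g ∈ M → g⁻¹ * y * g ∈ H := by
    intro g hg hgy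
    set Hg := H.map (MulAut.conj g).toMonoidHom with hHg
    set Mg := M.map (MulAut.conj g).toMonoidHom with hMg
    have hyMg : y ∈ Mg := ⟨_, hgy, by simp [mul_assoc]⟩
    have hnorm : Mg ≤ normalizer (Hg : Set G) := (map_mono hHn).trans
      (map_equiv_normalizer_eq H (MulAut.conj g)).le
    by_cases hsub : Hg ≤ M
    swap
    · exfalso
      set L := H ⊔ Hg with hLdef
      have hyL : zpowers y ≤ normalizer (L : Set G) := zpowers_le.2
        ((le_inf inf_le_left inf_le_right : normalizer (H : Set G) ⊓ normalizer (Hg : Set G) ≤ _).trans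
          (normalizer_inf_normalizer_le_normalizer_sup H Hg) ⟨hHn hyM, hnorm hyMg⟩)
      have htop : L ⊔ zpowers y = ⊤ := by
        refine hmax.2 _ (lt_of_le_not_ge ?_ fun h => hsub ((le_sup_of_le_left le_sup_right : Hg ≤ L ⊔ zpowers y).trans h))
        rw [← hgenM y hyM hyH]
        exact sup_le_sup_right le_sup_left _
      exact hLn g hsub (normalizer_eq_top_iff.1 (top_le_iff.1 (htop ▸ sup_le le_normalizer hyL)))
    by_contra hnH
    have hlt : M.map (MulAut.conj g).toMonoidHom ≤ M := by
      conv_lhs => rw [← hgenM _ hgy hnH, Subgroup.map_sup, MonoidHom.map_zpowers]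
      refine sup_le hsub ?_
      rw [zpowers_le]
      simpa [mul_assoc] using hyM
    exact hg (hMn g (eq_of_le_of_card_ge hlt (card_map_of_injective (MulAut.conj g).injective).ge))
  let T : G →* M ⧸ H.subgroupOf M := MonoidHom.transfer φ
  haveI : Fintype (Quotient (MulAction.orbitRel (zpowers y) (G ⧸ M))) := Fintype.ofFinite _
  have hfix : ∀ z : zpowers y, z • ((1 : G) : G ⧸ M) = ((1 : G) : G ⧸ M) := fun z => by
    refine QuotientGroup.eq.2 ?_
    simpa using M.inv_mem ((zpowers_le.2 hyM) z.2)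
  set q₁ : Quotient (MulAction.orbitRel (zpowers y) (G ⧸ M)) := Quotient.mk'' ((1 : G) : G ⧸ M) with hq₁
  have hq₁out : q₁.out = ((1 : G) : G ⧸ M) := by
    have h := Quotient.exact' ((Quotient.out_eq q₁).trans hq₁)
    obtain ⟨z, hz⟩ := h
    rw [← hz]
    exact hfix z
  have hval : T y = φ ⟨y, hyM⟩ := by
    show MonoidHom.transfer φ y = _
    rw [MonoidHom.transfer_eq_prod_quotient_orbitRel_zpowers_quot, Finset.prod_eq_single q₁]
    · have hg0 : q₁.out.out ∈ M := by
        have h := QuotientGroup.eq.1 ((QuotientGroup.out_eq' q₁.out).trans hq₁out)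
        simpa using inv_mem h
      have hk : Function.minimalPeriod (y • ·) q₁.out = 1 := by
        rw [Function.minimalPeriod_eq_one_iff_isFixedPt, hq₁out]
        exact hfix ⟨y, mem_zpowers y⟩
      set g₀ : M := ⟨q₁.out.out, hg0⟩
      calc φ _ = φ (g₀⁻¹ * ⟨y, hyM⟩ * g₀) := congrArg φ (Subtype.ext (by simp [hk, g₀]))
        _ = φ ⟨y, hyM⟩ := by rw [map_mul, map_mul, map_inv, mul_comm, mul_inv_cancel_left]
    · intro r _ hr
      rw [hφ1]
      show r.out.out⁻¹ * y ^ Function.minimalPeriod (y • ·) r.out * r.out.out ∈ H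
      have hg0 : r.out.out ∉ M := by
        intro h
        apply hr
        rw [← Quotient.out_eq r, hq₁]
        refine congrArg Quotient.mk'' ?_
        rw [← QuotientGroup.out_eq' r.out]
        exact QuotientGroup.eq.2 (by simpa using inv_mem h)
      set k := Function.minimalPeriod (y • ·) r.out with hk
      have hmem := QuotientGroup.out_conj_pow_minimalPeriod_mem M y r.out
      by_contra hnH
      have ho := hmin _ hmem hnH
      have hconj : orderOf (r.out.out⁻¹ * y ^ k * r.out.out) = orderOf (y ^ k) := by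
        have := (MulAut.conj r.out.out⁻¹).orderOf_eq (y ^ k)
        simpa using this
      rw [hconj] at ho
      have hz : zpowers (y ^ k) = zpowers y :=
        eq_of_le_of_card_ge (zpowers_le.2 (pow_mem (mem_zpowers y) k))
          (by rw [Nat.card_zpowers, Nat.card_zpowers]; exact ho)
      have hyk : r.out.out⁻¹ * y * r.out.out ∈ M := by
        obtain ⟨j, hj⟩ := (hz.symm ▸ mem_zpowers y : y ∈ zpowers (y ^ k))
        have := zpow_mem hmem j
        have e : (r.out.out⁻¹ * y ^ k * r.out.out) ^ j = r.out.out⁻¹ * (y ^ k) ^ j * r.out.out := by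
          have := conj_zpow (a := r.out.out⁻¹) (b := y ^ k) (i := j)
          simpa using this
        rwa [e, show (y ^ k) ^ j = y from hj] at this
      have hyH' := hfus _ hg0 hyk
      refine hnH ?_
      have := pow_mem hyH' k
      have e : (r.out.out⁻¹ * y * r.out.out) ^ k = r.out.out⁻¹ * y ^ k * r.out.out := by
        have := conj_pow (a := r.out.out⁻¹) (b := y) (i := k)
        simpa using this
      rwa [e] at this
    · exact fun h => absurd (Finset.mem_univ q₁) h
  refine ⟨T.ker, inferInstance, fun h => hyH ((hφ1 ⟨y, hyM⟩).1 ?_), fun a b => ?_, fun hcl h hh => ?_⟩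
  · rw [← hval]
    exact MonoidHom.mem_ker.1 (h ▸ mem_top y)
  · rw [MonoidHom.mem_ker, map_mul, map_mul, map_mul, map_inv, map_inv, mul_comm (T a) (T b),
      mul_inv_cancel_right, mul_inv_cancel]
  · rw [MonoidHom.mem_ker]
    show MonoidHom.transfer φ h = 1
    haveI : Fintype (Quotient (MulAction.orbitRel (zpowers h) (G ⧸ M))) := Fintype.ofFinite _
    rw [MonoidHom.transfer_eq_prod_quotient_orbitRel_zpowers_quot]
    refine Finset.prod_eq_one fun r _ => ?_
    rw [hφ1]
    exact hcl _ _ (pow_mem hh _) (QuotientGroup.out_conj_pow_minimalPeriod_mem M h r.out)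

end Cfsg.Agent.H75
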