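import Cfsg.Agent.H75.SL2Natural

/-!
# `SL₂(2ⁿ)`-modules with a fixed-point-free element of order three

Such a module of exponent two is a direct sum of natural modules (`exists_coords`).
-/

set_option autoImplicit false
set_option linter.all false

namespace Cfsg.Agent.H75.SL2FPF

open Matrix
open Cfsg.Agent.H75.SL2Natural

/-- The computation killing the off-diagonal part. -/
theorem ring_key {F R : Type*} [Field F] [Fintype F] [Ring R] (h2 : ∀ r : R, r + r = 0)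
    (n : ℕ) (hn : 2 ≤ n) (hF : Fintype.card F = 2 ^ n) [CharP F 2]
    (P Q : F → R) (hQ1 : Q 1 = 1) (hQmul : ∀ a b, Q (a * b) = Q a * Q b)
    (hPadd : ∀ a b, P (a + b) = P a + P b) (hP1 : P 1 = 0)
    (hQP : ∀ a b c, Q (a + b) * P c = Q a * P c + Q b * P c)
    (hTL : ∀ a b, a ≠ 0 → P (a * a * b) * Q a + Q (a * a * b) * (P a + P a⁻¹) = Q a * P b)
    (hBR : ∀ a b, a ≠ 0 → P (a * a * b) * Q a⁻¹ = (P a + P a⁻¹) * Q b + Q a⁻¹ * P b) :
    ∀ b, P b = 0 := by
  have eq_of : ∀ {x y : R}, x + y = 0 → x = y := fun {x y} h => by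
    rw [eq_neg_of_add_eq_zero_left h, eq_comm, eq_neg_iff_add_eq_zero]
    exact h2 y
  have hinv : ∀ a, a ≠ 0 → Q a * Q a⁻¹ = 1 ∧ Q a⁻¹ * Q a = 1 := fun a ha => by
    rw [← hQmul, ← hQmul, mul_inv_cancel₀ ha, inv_mul_cancel₀ ha, hQ1]
    exact ⟨rfl, rfl⟩
  have hcomm : ∀ a b, Commute (Q a) (Q b) := fun a b => by
    rw [Commute, SemiconjBy, ← hQmul, ← hQmul, mul_comm]
  have hpow : ∀ a (k : ℕ), Q (a ^ k) = Q a ^ k := by
    intro a k
    induction k with
    | zero => simp [hQ1]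
    | succ k ih => rw [pow_succ, pow_succ, hQmul, ih]
  obtain ⟨m, hm⟩ : ∃ m, Fintype.card F = 2 * m := ⟨2 ^ (n - 1), by
    rw [hF, ← pow_succ']; congr 1; omega⟩
  have hroot : ∀ a : F, (a * a) ^ m = a := fun a => by
    rw [← sq, ← pow_mul, ← hm, FiniteField.pow_card]
  set S : F → R := fun a => P a + P a⁻¹ with hS
  have hSinv : ∀ a, S a⁻¹ = S a := fun a => by simp only [hS, inv_inv, add_comm]
  -- `P (a²) = S a * Q a = Q a * S a`
  have hPc : ∀ a, a ≠ 0 → P (a * a) = S a * Q a ∧ P (a * a) = Q a * S a := by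
    intro a ha
    have h1 := hBR a 1 ha
    rw [mul_one, hP1, mul_zero, add_zero, hQ1, mul_one] at h1
    have h1' : P (a * a) = S a * Q a := by
      rw [← mul_one (P (a * a)), ← (hinv a ha).2, ← mul_assoc, h1]
    have h2' := hTL a 1 ha
    rw [mul_one, hP1, mul_zero] at h2'
    have h3 : S a * Q a * Q a = Q (a * a) * S a := by rw [← h1']; exact eq_of h2'
    have h4 : Commute (Q (a * a)) (S a) := by
      rw [Commute, SemiconjBy]
      conv_rhs => rw [hQmul, ← mul_assoc]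
      exact h3.symm
    have h5 := h4.pow_left m
    rw [← hpow, hroot] at h5
    exact ⟨h1', h1'.trans h5.symm.eq⟩
  have hBR' : ∀ a b, a ≠ 0 → P (a * a * b) = P (a * a) * Q b + Q a⁻¹ * P b * Q a := by
    intro a b ha
    rw [← mul_one (P (a * a * b)), ← (hinv a ha).2, ← mul_assoc, hBR a b ha, add_mul,
      (hPc a ha).1, mul_assoc (S a), (hcomm b a).eq, ← mul_assoc]
  have hTL' : ∀ a b, a ≠ 0 → P (a * a * b) = Q a * P b * Q a⁻¹ + Q b * P (a * a) := by
    intro a b ha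
    have h1 := hTL a b ha
    have h3 : P (a * a * b) * Q a = Q a * P b + Q (a * a * b) * S a := by
      rw [← h1, hS, add_assoc, h2, add_zero]
    rw [← mul_one (P (a * a * b)), ← (hinv a ha).1, ← mul_assoc, h3, add_mul]
    congr 1
    rw [mul_comm (a * a) b, hQmul, hQmul, (hPc a ha).2, mul_assoc, mul_assoc, mul_assoc]
    have h6 : S a * Q a⁻¹ = Q a⁻¹ * S a := by
      have := (hPc a⁻¹ (inv_ne_zero ha))
      rw [hSinv] at this
      exact this.1.symm.trans this.2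
    rw [h6, ← mul_assoc (Q a) (Q a⁻¹), (hinv a ha).1, one_mul]
  -- `S` commutes with every `Q b`
  have hScomm : ∀ a b, a ≠ 0 → Commute (S (a * a)) (Q b) := by
    intro a b ha
    have e1 := hBR' a b ha
    have e2 := hTL' a⁻¹ b (inv_ne_zero ha)
    have e3 := hTL' a b ha
    have e4 := hBR' a⁻¹ b (inv_ne_zero ha)
    rw [inv_inv] at e2 e4
    have key : P (a * a) * Q b + Q b * P (a⁻¹ * a⁻¹) = P (a⁻¹ * a⁻¹) * Q b + Q b * P (a * a) := by
      have : P (a * a * b) + P (a⁻¹ * a⁻¹ * b) = P (a⁻¹ * a⁻¹ * b) + P (a * a * b) := add_comm _ _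
      conv_lhs at this => rw [e1, e2]
      conv_rhs at this => rw [e3, e4]
      generalize Q a⁻¹ * P b * Q a = X at this
      generalize Q a * P b * Q a⁻¹ = Y at this
      have h9 : P (a * a) * Q b + Q b * P (a⁻¹ * a⁻¹) + (X + X) =
          P (a⁻¹ * a⁻¹) * Q b + Q b * P (a * a) + (Y + Y) := by
        calc P (a * a) * Q b + Q b * P (a⁻¹ * a⁻¹) + (X + X)
            = (P (a * a) * Q b + X + (X + Q b * P (a⁻¹ * a⁻¹))) := by abel
          _ = P (a⁻¹ * a⁻¹) * Q b + Y + (Y + Q b * P (a * a)) := this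
          _ = P (a⁻¹ * a⁻¹) * Q b + Q b * P (a * a) + (Y + Y) := by abel
      rwa [h2, h2, add_zero, add_zero] at h9
    rw [Commute, SemiconjBy, hS]
    simp only [mul_inv, add_mul, mul_add]
    refine eq_of ?_
    calc _ = (P (a * a) * Q b + Q b * P (a⁻¹ * a⁻¹)) +
          (P (a⁻¹ * a⁻¹) * Q b + Q b * P (a * a)) := by abel
      _ = 0 := by rw [key]; exact h2 _
  have hScomm' : ∀ a b, a ≠ 0 → Commute (S a) (Q b) := by
    intro a b ha
    obtain ⟨r, rfl⟩ : ∃ r, a = r * r := FiniteField.isSquare_of_char_two (ringChar.eq F 2) a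
    exact hScomm r b (fun h => ha (by simp [h]))
  have hPcomm : ∀ c b, Commute (P c) (Q b) := by
    intro c b
    rcases eq_or_ne c 0 with rfl | hc
    · have h0 : P 0 = 0 := by
        have := hPadd 0 0
        rw [add_zero] at this
        rwa [h2] at this
      rw [h0]; exact Commute.zero_left _
    obtain ⟨r, rfl⟩ : ∃ r, c = r * r := FiniteField.isSquare_of_char_two (ringChar.eq F 2) c
    have hr : r ≠ 0 := fun h => hc (by simp [h])
    rw [(hPc r hr).1]
    exact (hScomm' r b hr).mul_left (hcomm r b)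
  have hsum : ∀ c b, c ≠ 0 → P (c * b) = P b + Q b * P c := by
    intro c b hc
    obtain ⟨r, rfl⟩ : ∃ r, c = r * r := FiniteField.isSquare_of_char_two (ringChar.eq F 2) c
    have hr : r ≠ 0 := fun h => hc (by simp [h])
    rw [hTL' r b hr, ← (hPcomm b r).eq, mul_assoc, (hinv r hr).1, mul_one]
  have hsym : ∀ b c, b ≠ 0 → c ≠ 0 → Q (1 + c) * P b = Q (1 + b) * P c := by
    intro b c hb hc
    rw [hQP, hQP, hQ1, one_mul, one_mul]
    have e1 := hsum c b hc
    have e2 := hsum b c hb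
    rw [mul_comm b c, e1] at e2
    refine eq_of ?_
    calc _ = (P b + Q b * P c) + (P c + Q c * P b) := by abel
      _ = 0 := by rw [e2]; exact h2 _
  obtain ⟨c0, hc0, hc01⟩ : ∃ c0 : F, c0 ≠ 0 ∧ c0 ≠ 1 := by
    classical
    have h4 : 2 < Fintype.card F := by
      rw [hF]
      calc 2 < 2 ^ 2 := by norm_num
        _ ≤ 2 ^ n := Nat.pow_le_pow_right two_pos hn
    obtain ⟨c, hc⟩ : ∃ c, c ∉ ({0, 1} : Finset F) := by
      by_contra h
      push Not at h
      have := Finset.card_le_card (show Finset.univ ⊆ ({0, 1} : Finset F) from fun c _ => h c)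
      rw [Finset.card_univ] at this
      exact absurd (this.trans Finset.card_le_two) h4.not_ge
    exact ⟨c, fun h => hc (by simp [h]), fun h => hc (by simp [h])⟩
  have h1c : (1 + c0) ≠ 0 := fun h => hc01 (CharTwo.add_eq_zero.1 h).symm
  have hP : ∀ b, b ≠ 0 → P b = Q (1 + b) * (Q (1 + c0)⁻¹ * P c0) := by
    intro b hb
    rw [← mul_assoc, (hcomm _ _).eq, mul_assoc, ← hsym b c0 hb hc0, ← mul_assoc,
      (hinv _ h1c).2, one_mul]
  set Z := Q (1 + c0)⁻¹ * P c0 with hZ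
  have hQZ : ∀ a b, Q (a + b) * Z = Q a * Z + Q b * Z := fun a b => by
    simp only [hZ, ← mul_assoc]
    rw [(hcomm _ _).eq, mul_assoc, hQP, mul_add, ← mul_assoc, ← mul_assoc,
      (hcomm ((1 + c0)⁻¹) a).eq, (hcomm ((1 + c0)⁻¹) b).eq]
  have hZ0 : Z = 0 := by
    have e := hPadd 1 c0
    rw [hP1, zero_add, hP c0 hc0, hP (1 + c0) h1c, ← add_assoc, CharTwo.add_self_eq_zero, zero_add,
      hQZ, hQ1, one_mul] at e
    exact (add_eq_right (b := Q c0 * Z)).1 e.symm
  intro b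
  rcases eq_or_ne b 0 with rfl | hb
  · have := hPadd 0 0
    rw [add_zero] at this
    rwa [h2] at this
  · rw [hP b hb, hZ0, mul_zero]

variable {F : Type*} [Field F] [CharP F 2]

local notation "SL" => SpecialLinearGroup (Fin 2) F

theorem xu_self (c : F) : (xu c : SL) * xu c = 1 := by
  rw [← xu_add, CharTwo.add_self_eq_zero, xu_zero]

theorem ww_self : (ww : SL) * ww = 1 := by
  apply Subtype.ext
  ext i j
  fin_cases i <;> fin_cases j <;>
    simp [ww_val, Matrix.SpecialLinearGroup.coe_mul, Matrix.mul_apply, Fin.sum_univ_two,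
      CharTwo.neg_eq]

theorem yl_eq (c : F) : (yl c : SL) = ww * xu c * ww := by
  rw [ww_xu, CharTwo.neg_eq, mul_assoc, ww_self, mul_one]

/-- The standard element of order three. -/
def g3 : SL := xu 1 * yl 1

variable {V : Type*} [AddCommGroup V]

/-- `V` has exponent two and the standard element of order three has no fixed point. -/
structure Setup (F : Type*) [Field F] (V : Type*) [AddCommGroup V] where
  ρ : SpecialLinearGroup (Fin 2) F →* AddMonoid.End V
  two : ∀ v : V, v + v = 0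
  rel : ∀ v, ρ (xu 1 * yl 1) v + ρ (yl 1 * xu 1) v = v

variable (D : Setup F V)

namespace Setup

variable [Finite F]

theorem eqv (D : Setup F V) {x y : V} (h : x + y = 0) : x = y := by
  rw [eq_neg_of_add_eq_zero_left h, eq_comm, eq_neg_iff_add_eq_zero]
  exact D.two y

theorem addc (D : Setup F V) {x y z : V} : x = y + z ↔ x + z = y := by
  constructor
  · rintro rfl
    rw [add_assoc, D.two, add_zero]
  · rintro rfl
    rw [add_assoc, D.two, add_zero]

omit [CharP F 2] in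
theorem mul (a b : SL) (v : V) : D.ρ (a * b) v = D.ρ a (D.ρ b v) := act_mul D.ρ a b v

omit [CharP F 2] in
theorem one (v : V) : D.ρ 1 v = v := act_one D.ρ v

theorem xx (c : F) (v : V) : D.ρ (xu c) (D.ρ (xu c) v) = v := by
  rw [← D.mul, xu_self, D.one]

theorem wwww (v : V) : D.ρ ww (D.ρ ww v) = v := by rw [← D.mul, ww_self, D.one]

/-- The fixed points of `xu 1`. -/
def M : AddSubgroup V where
  carrier := {v | D.ρ (xu 1) v = v}
  add_mem' {a b} (ha : D.ρ (xu 1) a = a) (hb : D.ρ (xu 1) b = b) := by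
    show D.ρ (xu 1) (a + b) = a + b; rw [map_add, ha, hb]
  zero_mem' := map_zero _
  neg_mem' {a} (ha : D.ρ (xu 1) a = a) := by show D.ρ (xu 1) (-a) = -a; rw [map_neg, ha]

omit [CharP F 2] in
theorem mem_M {v : V} : v ∈ D.M ↔ D.ρ (xu 1) v = v := Iff.rfl

theorem A_mem (v : V) : D.ρ (xu 1) v + v ∈ D.M := by
  rw [D.mem_M, map_add, D.xx, add_comm]

theorem xu_mem (c : F) {m : V} (hm : m ∈ D.M) : D.ρ (xu c) m ∈ D.M := by
  rw [D.mem_M, ← D.mul, ← xu_add, add_comm, xu_add, D.mul, hm]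

theorem eq_self_of_char_two (a : F) : ∃ r, a = r * r :=
  FiniteField.isSquare_of_char_two (ringChar.eq F 2) a

/-- `hh t * ww` acts as `xu t + yl t⁻¹`. -/
theorem hw (t : Fˣ) (v : V) :
    D.ρ (hh t * ww) v = D.ρ (xu (t : F)) v + D.ρ (yl ((t⁻¹ : Fˣ) : F)) v := by
  obtain ⟨r, hr⟩ := eq_self_of_char_two (t : F)
  have hr0 : r ≠ 0 := fun h => t.ne_zero (by rw [hr, h, mul_zero])
  set u := Units.mk0 r hr0
  have e1 : hh u * xu 1 = xu (t : F) * hh u := by
    rw [hh_xu, mul_one]; simp [u, hr]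
  have e2 : hh u * yl 1 = yl ((t⁻¹ : Fˣ) : F) * hh u := by
    rw [hh_yl, mul_one]; simp [u, hr, mul_inv]
  have e3 : ∀ w, D.ρ (xu (t : F)) (D.ρ (yl ((t⁻¹ : Fˣ) : F)) w) +
      D.ρ (yl ((t⁻¹ : Fˣ) : F)) (D.ρ (xu (t : F)) w) = w := by
    intro w
    have h1 := congrArg (D.ρ (hh u)) (D.rel (D.ρ (hh u)⁻¹ w))
    rw [map_add, ← D.mul, ← D.mul (hh u) (yl 1 * xu 1), ← D.mul, ← D.mul, ← D.mul] at h1
    rw [← mul_assoc (hh u) (xu 1), e1, mul_assoc _ (hh u) (yl 1), e2,
      ← mul_assoc (hh u) (yl 1), e2, mul_assoc _ (hh u) (xu 1), e1, mul_inv_cancel, D.one] at h1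
    simp only [mul_assoc, mul_inv_cancel, mul_one, D.mul] at h1
    exact h1
  have h4 := e3 (D.ρ (xu (t : F)) v)
  rw [D.xx] at h4
  rw [← xu_yl_xu, CharTwo.neg_eq, D.mul, D.mul]
  exact D.addc.2 h4

/-- The key consequence of fixed-point-freeness: `A W = 1` on `M`. -/
theorem AW {m : V} (hm : m ∈ D.M) : D.ρ (xu 1) (D.ρ ww m) = m + D.ρ ww m := by
  have h1 := D.hw 1 m
  rw [show (hh (1 : Fˣ) : SL) = 1 by apply Subtype.ext; simp [hh_val, Matrix.one_fin_two],
    one_mul, inv_one, Units.val_one, hm] at h1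
  have h3 : (xu 1 : SL) * ww = yl 1 * xu 1 := by
    rw [← xu_yl_xu_one, CharTwo.neg_eq, ← mul_assoc, ← mul_assoc, xu_self, one_mul]
  rw [← D.mul, h3, D.mul, hm, h1, ← add_assoc, D.two, zero_add]

theorem decomp (v : V) :
    v + D.ρ ww (D.ρ (xu 1) v + v) ∈ D.M := by
  rw [D.mem_M, map_add, D.AW (D.A_mem v), ← add_assoc, ← add_assoc, D.two, zero_add]

theorem eq_zero_of_ww_mem {m : V} (hm : m ∈ D.M) (h : D.ρ ww m ∈ D.M) : m = 0 := by
  have h1 : D.ρ (xu 1) (D.ρ ww m) = D.ρ ww m := h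
  rw [D.AW hm] at h1
  exact add_eq_right.1 h1

theorem uniq {a b c d : V} (ha : a ∈ D.M) (hb : b ∈ D.M) (hc : c ∈ D.M) (hd : d ∈ D.M)
    (h : a + D.ρ ww b = c + D.ρ ww d) : a = c ∧ b = d := by
  have h1 : D.ρ ww (b + d) = a + c := by
    rw [map_add]
    apply D.eqv
    calc _ = (a + D.ρ ww b) + (c + D.ρ ww d) := by abel
      _ = 0 := by rw [h]; exact D.two _
  have h2 : b + d = 0 := D.eq_zero_of_ww_mem (add_mem hb hd) (h1 ▸ add_mem ha hc)
  rw [h2, map_zero] at h1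
  exact ⟨D.eqv h1.symm, D.eqv h2⟩

/-- The off-diagonal part of `xu a`, an endomorphism of `M`. -/
def Q (a : F) (m : V) : V := D.ρ (xu a) (D.ρ ww m) + D.ρ ww (D.ρ (xu a) m)

/-- The diagonal part of `xu a` minus one. -/
def P (a : F) (m : V) : V := D.ρ (xu a) m + m

theorem xW (a : F) (m : V) :
    D.ρ (xu a) (D.ρ ww m) = D.Q a m + D.ρ ww (D.ρ (xu a) m) := by
  rw [Q, add_assoc, D.two, add_zero]

theorem xm (a : F) (m : V) : D.ρ (xu a) m = m + D.P a m := by
  rw [P, add_left_comm, D.two, add_zero]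

theorem Q_mem (a : F) {m : V} (hm : m ∈ D.M) : D.Q a m ∈ D.M := by
  have h1 : D.ρ (xu 1) (D.ρ (xu a) (D.ρ ww m)) = D.ρ (xu a) (m + D.ρ ww m) := by
    rw [← D.mul, ← xu_add, add_comm, xu_add, D.mul, D.AW hm]
  rw [D.mem_M, Q, map_add, h1, D.AW (D.xu_mem a hm), map_add]
  calc _ = (D.ρ (xu a) m + D.ρ (xu a) m) + (D.ρ (xu a) (D.ρ ww m) + D.ρ ww (D.ρ (xu a) m)) := by abel
    _ = _ := by rw [D.two, zero_add]

theorem P_mem (a : F) {m : V} (hm : m ∈ D.M) : D.P a m ∈ D.M := add_mem (D.xu_mem a hm) hm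

theorem Q_add' (a : F) (m m' : V) : D.Q a (m + m') = D.Q a m + D.Q a m' := by
  simp only [Q, map_add]; abel

theorem P_add' (a : F) (m m' : V) : D.P a (m + m') = D.P a m + D.P a m' := by
  simp only [P, map_add]; abel

theorem P_zero' (a : F) : D.P a 0 = 0 := by simp only [P, map_zero, add_zero]

theorem Q_zero' (a : F) : D.Q a 0 = 0 := by simp only [Q, map_zero, add_zero]

theorem Q_one {m : V} (hm : m ∈ D.M) : D.Q 1 m = m := by
  rw [Q, D.AW hm, hm, add_assoc, D.two, add_zero]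

theorem Q_zero (m : V) : D.Q 0 m = 0 := by
  rw [Q, xu_zero, D.one, D.one, D.two]

theorem yl_apply (b : F) (v : V) : D.ρ (yl b) v = D.ρ ww (D.ρ (xu b) (D.ρ ww v)) := by
  rw [yl_eq, D.mul, D.mul]

/-- Fixed points of the upper unitriangular group. -/
def K : AddSubgroup V where
  carrier := {v | ∀ c, D.ρ (xu c) v = v}
  add_mem' {a b} ha hb c := by rw [map_add, ha c, hb c]
  zero_mem' c := map_zero _
  neg_mem' {a} ha c := by rw [map_neg, ha c]

omit [CharP F 2] in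
theorem K_le : D.K ≤ D.M := fun v hv => hv 1

theorem P_K (a : F) {k : V} (hk : k ∈ D.K) : D.P a k = 0 := by rw [P, hk a, D.two]

/-- `P a + P a⁻¹`. -/
def S (a : F) (m : V) : V := D.P a m + D.P a⁻¹ m

theorem hh_apply (t : Fˣ) (m : V) :
    D.ρ (hh t) m = D.Q t m + D.ρ ww (D.S t m) := by
  have h1 := D.hw t (D.ρ ww m)
  rw [← D.mul, mul_assoc, ww_self, mul_one, D.yl_apply, D.wwww, D.xW, D.xm (t : F) m,
    D.xm ((t⁻¹ : Fˣ) : F) m, Units.val_inv_eq_inv_val] at h1
  rw [h1, S, map_add, map_add, map_add]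
  calc _ = D.Q t m + (D.ρ ww (D.P t m) + D.ρ ww (D.P (t : F)⁻¹ m)) + (D.ρ ww m + D.ρ ww m) := by
        abel
    _ = _ := by rw [D.two, add_zero]

omit [CharP F 2] in
theorem hh_mem_K (t : Fˣ) {k : V} (hk : k ∈ D.K) : D.ρ (hh t) k ∈ D.K := hh_mem_V0 (ρ := D.ρ) t hk

theorem S_K (a : F) {k : V} (hk : k ∈ D.K) : D.S a k = 0 := by
  rw [S, D.P_K _ hk, D.P_K _ hk, add_zero]

theorem hh_K (t : Fˣ) {k : V} (hk : k ∈ D.K) : D.ρ (hh t) k = D.Q t k := by
  rw [D.hh_apply, D.S_K _ hk, map_zero, add_zero]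

theorem Q_K (a : F) {k : V} (hk : k ∈ D.K) : D.Q a k ∈ D.K := by
  rcases eq_or_ne a 0 with rfl | ha
  · rw [D.Q_zero]; exact zero_mem _
  · have := D.hh_mem_K (Units.mk0 a ha) hk
    rwa [D.hh_K _ hk] at this

theorem Q_add_K (a b : F) {k : V} (hk : k ∈ D.K) :
    D.Q (a + b) k = D.Q a k + D.Q b k := by
  have e : D.ρ (xu (a + b)) (D.ρ ww k) = D.Q a k + D.Q b k + D.ρ ww k := by
    rw [xu_add, D.mul, D.xW b k, hk b, map_add, D.Q_K b hk a, D.xW a k, hk a]
    abel
  rw [Q, e, hk (a + b), add_assoc, D.two, add_zero]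

/-- The second term of the fixed-point series of the upper unitriangular group on `M`. -/
def K2 : AddSubgroup V where
  carrier := {v | v ∈ D.M ∧ ∀ a, D.P a v ∈ D.K}
  add_mem' {x y} hx hy := ⟨add_mem hx.1 hy.1, fun a => by
    rw [D.P_add']; exact add_mem (hx.2 a) (hy.2 a)⟩
  zero_mem' := ⟨zero_mem _, fun a => by rw [D.P_zero']; exact zero_mem _⟩
  neg_mem' {x} hx := by
    rw [show -x = x from (eq_neg_of_add_eq_zero_left (D.two x)).symm]
    exact hx

theorem K_le_K2 : D.K ≤ D.K2 := fun v hv => ⟨D.K_le hv, fun a => by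
  rw [D.P_K a hv]; exact zero_mem _⟩

theorem S_mem {m : V} (hm : m ∈ D.K2) (a : F) : D.S a m ∈ D.K := add_mem (hm.2 _) (hm.2 _)

theorem sq_conj (a : Fˣ) (b : F) (v : V) :
    D.ρ (hh a) (D.ρ (xu b) v) = D.ρ (xu ((a : F) * a * b)) (D.ρ (hh a) v) := by
  rw [← D.mul, ← D.mul, hh_xu]

/-- Upper transvections against the torus, on the first coordinate. -/
theorem TL (a : Fˣ) (b : F) {m : V} (hm : m ∈ D.K2) :
    D.P ((a : F) * a * b) (D.Q a m) + D.Q ((a : F) * a * b) (D.S a m) = D.Q a (D.P b m) := by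
  have h1 := D.sq_conj a b m
  rw [D.xm b m, map_add, D.hh_apply a m, D.hh_K a (hm.2 b), map_add, D.xm _ (D.Q a m), D.xW,
    D.S_mem hm a] at h1
  apply D.eqv
  calc _ = (D.Q a m + D.ρ ww (D.S a m) + D.Q a (D.P b m)) +
      (D.Q a m + D.P ((a : F) * a * b) (D.Q a m) +
        (D.Q ((a : F) * a * b) (D.S a m) + D.ρ ww (D.S a m))) +
      ((D.Q a m + D.Q a m) + (D.ρ ww (D.S a m) + D.ρ ww (D.S a m))) := by
        rw [D.two, D.two, add_zero, add_zero]
        abel_nf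
        simp [two_nsmul, two_zsmul, D.two]
    _ = 0 := by rw [h1, D.two, D.two, D.two, add_zero, add_zero]

theorem Q_K2 (a : F) {m : V} (hm : m ∈ D.K2) : D.Q a m ∈ D.K2 := by
  rcases eq_or_ne a 0 with rfl | ha
  · rw [D.Q_zero]; exact zero_mem _
  refine ⟨D.Q_mem a hm.1, fun c => ?_⟩
  have h1 := D.TL (Units.mk0 a ha) (c * (a * a)⁻¹) hm
  rw [show (Units.mk0 a ha : F) * Units.mk0 a ha * (c * (a * a)⁻¹) = c by
    simp only [Units.val_mk0]; field_simp, Units.val_mk0] at h1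
  rw [(D.addc.2 h1)]
  exact add_mem (D.Q_K _ (hm.2 _)) (D.Q_K _ (D.S_mem hm _))

theorem hh_inv_ww (a : Fˣ) : (hh a : SL) * ww = ww * hh a⁻¹ := by
  apply Subtype.ext
  simp [hh_val, ww_val, Matrix.SpecialLinearGroup.coe_mul, CharTwo.neg_eq]

theorem hW (a : Fˣ) (m : V) :
    D.ρ (hh a) (D.ρ ww m) = D.S a m + D.ρ ww (D.Q (a : F)⁻¹ m) := by
  rw [← D.mul, hh_inv_ww, D.mul, D.hh_apply, map_add, D.wwww, add_comm]
  congr 1
  · rw [Units.val_inv_eq_inv_val, S, S, inv_inv, add_comm]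
  · rw [Units.val_inv_eq_inv_val]

/-- Upper transvections against the torus, on the second coordinate. -/
theorem BR (a : Fˣ) (b : F) {m : V} (hm : m ∈ D.K2) :
    D.P ((a : F) * a * b) (D.Q (a : F)⁻¹ m) = D.S a (D.Q b m) + D.Q (a : F)⁻¹ (D.P b m) := by
  set c := (a : F) * a * b with hc
  have h1 := D.sq_conj a b (D.ρ ww m)
  rw [D.xW b m, D.xm b m, map_add, map_add, map_add, D.hh_apply a (D.Q b m), D.hW a m,
    D.hW a (D.P b m), D.S_K _ (hm.2 b), zero_add, map_add, ← hc, D.S_mem hm a c, D.xW c,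
    D.xm c (D.Q (a : F)⁻¹ m), map_add] at h1
  have hQ' := D.Q_K2 (a : F)⁻¹ hm
  have hQb := D.Q_K2 b hm
  have h2 := D.uniq (a := D.Q a (D.Q b m) + D.S a m)
    (b := D.S a (D.Q b m) + D.Q (a : F)⁻¹ m + D.Q (a : F)⁻¹ (D.P b m))
    (c := D.S a m + D.Q c (D.Q (a : F)⁻¹ m))
    (d := D.Q (a : F)⁻¹ m + D.P c (D.Q (a : F)⁻¹ m))
    (add_mem (D.Q_mem _ hQb.1) (D.K_le (D.S_mem hm _)))
    (add_mem (add_mem (D.K_le (D.S_mem hQb _)) hQ'.1) (D.Q_mem _ (D.K_le (hm.2 b))))
    (add_mem (D.K_le (D.S_mem hm _)) (D.Q_mem _ hQ'.1)) (add_mem hQ'.1 (D.P_mem _ hQ'.1))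
    (by
      simp only [map_add]
      calc _ = _ := by abel
        _ = _ := h1
        _ = _ := by abel)
  have h3 := h2.2
  rw [add_right_comm] at h3
  rw [add_comm (D.Q (a : F)⁻¹ m)] at h3
  exact (add_right_cancel h3).symm

theorem Q_mul (a b : F) {m : V} (hm : m ∈ D.K2) :
    D.Q (a * b) m = D.Q a (D.Q b m) := by
  rcases eq_or_ne a 0 with rfl | ha
  · rw [zero_mul, D.Q_zero, D.Q_zero]
  rcases eq_or_ne b 0 with rfl | hb
  · rw [mul_zero, D.Q_zero, D.Q_zero']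
  set A := Units.mk0 a ha
  set B := Units.mk0 b hb
  have h1 : D.ρ (hh (A * B)) m = D.ρ (hh A) (D.ρ (hh B) m) := by rw [hh_mul, D.mul]
  rw [D.hh_apply, D.hh_apply B, map_add, D.hh_apply A, D.hW A, Units.val_mul,
    D.S_K _ (D.S_mem hm _), zero_add, add_assoc, ← map_add] at h1
  simp only [A, B, Units.val_mk0] at h1
  exact (D.uniq (D.Q_mem _ hm.1) (D.K_le (D.S_mem hm _)) (D.Q_mem _ (D.Q_mem _ hm.1))
    (add_mem (D.K_le (D.S_mem (D.Q_K2 _ hm) _)) (D.Q_mem _ (D.K_le (D.S_mem hm _)))) h1).1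

theorem K2_le_K [Fintype F] {n : ℕ} (hn : 2 ≤ n) (hF : Fintype.card F = 2 ^ n) :
    D.K2 ≤ D.K := by
  let Pe : F → AddMonoid.End D.K2 := fun a =>
    AddMonoidHom.mk' (fun m => ⟨D.P a m, D.K_le_K2 (m.2.2 a)⟩)
      fun x y => Subtype.ext (D.P_add' a _ _)
  let Qe : F → AddMonoid.End D.K2 := fun a =>
    AddMonoidHom.mk' (fun m => ⟨D.Q a m, D.Q_K2 a m.2⟩)
      fun x y => Subtype.ext (D.Q_add' a _ _)
  have key := ring_key (R := AddMonoid.End D.K2)
    (fun r => AddMonoidHom.ext fun m => Subtype.ext (D.two _)) n hn hF Pe Qe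
    (AddMonoidHom.ext fun m => Subtype.ext (D.Q_one m.2.1))
    (fun a b => AddMonoidHom.ext fun m => Subtype.ext (D.Q_mul a b m.2))
    (fun a b => AddMonoidHom.ext fun m => Subtype.ext ?_)
    (AddMonoidHom.ext fun m => Subtype.ext (by show D.P 1 (m : V) = 0; rw [P, m.2.1, D.two]))
    (fun a b c => AddMonoidHom.ext fun m => Subtype.ext (D.Q_add_K a b (m.2.2 c)))
    (fun a b ha => AddMonoidHom.ext fun m => Subtype.ext ?_)
    (fun a b ha => AddMonoidHom.ext fun m => Subtype.ext (D.BR (Units.mk0 a ha) b m.2))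
  · intro v hv c
    have h := congrArg (fun f : AddMonoid.End D.K2 => ((f ⟨v, hv⟩ : D.K2) : V)) (key c)
    have h' : D.P c v = 0 := h
    exact D.eqv h'
  · show D.P (a + b) (m : V) = D.P a m + D.P b m
    have h : D.ρ (xu (a + b)) (m : V) = D.ρ (xu a) m + D.P b m := by
      rw [xu_add, D.mul, D.xm b, map_add, m.2.2 b a]
    rw [P, h, P]
    simp only [P]
    abel
  · exact D.TL (Units.mk0 a ha) b m.2

theorem M_eq_K [Fintype F] {n : ℕ} (hn : 2 ≤ n) (hF : Fintype.card F = 2 ^ n) {v : V}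
    (hv : v ∈ D.M) : v ∈ D.K := by
  classical
  by_contra hv'
  have hcomm : ∀ a b, ∀ m, D.P a (D.P b m) = D.P b (D.P a m) := by
    intro a b m
    have h1 : D.ρ (xu a) (D.ρ (xu b) m) = D.ρ (xu b) (D.ρ (xu a) m) := by
      rw [← D.mul, ← D.mul, ← xu_add, ← xu_add, add_comm]
    simp only [P, map_add, h1]
    abel
  have h : ∀ s : Finset F, ∃ m, m ∈ D.M ∧ m ∉ D.K ∧ ∀ a ∈ s, D.P a m ∈ D.K := by
    intro s
    induction s using Finset.induction_on with
    | empty => exact ⟨v, hv, hv', by simp⟩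
    | insert b s _ ih =>
      obtain ⟨m, hm, hmK, hms⟩ := ih
      by_cases hb : D.P b m ∈ D.K
      · exact ⟨m, hm, hmK, Finset.forall_mem_insert _ _ _ |>.2 ⟨hb, hms⟩⟩
      · refine ⟨_, D.P_mem b hm, hb, Finset.forall_mem_insert _ _ _ |>.2 ⟨?_, fun a ha => ?_⟩⟩
        · have : D.P b (D.P b m) = 0 := by
            simp only [P, map_add, D.xx]
            rw [add_comm (D.ρ (xu b) m) m]
            exact D.two _
          rw [this]; exact zero_mem _
        · rw [hcomm, D.P_K b (hms a ha)]; exact zero_mem _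
  obtain ⟨m, hm, hmK, hms⟩ := h Finset.univ
  exact hmK (D.K2_le_K hn hF ⟨hm, fun a => hms a (Finset.mem_univ a)⟩)

section Consequences

variable [Fintype F] {n : ℕ} (hn : 2 ≤ n) (hF : Fintype.card F = 2 ^ n)
include hn hF

theorem xu_fix {v : V} (hv : v ∈ D.M) (c : F) : D.ρ (xu c) v = v := D.M_eq_K hn hF hv c

theorem Q_mul' (a b : F) {m : V} (hm : m ∈ D.M) : D.Q (a * b) m = D.Q a (D.Q b m) :=
  D.Q_mul a b (D.K_le_K2 (D.M_eq_K hn hF hm))

theorem C_apply (c : F) (v : V) :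
    D.ρ (xu c) v + v = D.Q c (D.ρ (xu 1) v + v) := by
  have hm' := D.A_mem v
  have hdec := D.decomp v
  set m' := D.ρ (xu 1) v + v with hm
  set m := v + D.ρ ww m' with hmm
  have hv : v = m + D.ρ ww m' := by rw [hmm, add_assoc, D.two, add_zero]
  conv_lhs => rw [hv, map_add, D.xW, D.xu_fix hn hF hdec c, D.xu_fix hn hF hm' c]
  calc _ = D.Q c m' + ((m + m) + (D.ρ ww m' + D.ρ ww m')) := by abel
    _ = _ := by rw [D.two, D.two, add_zero, add_zero]

theorem C_ww (c : F) {m : V} (hm : m ∈ D.M) :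
    D.ρ (xu c) (D.ρ ww m) + D.ρ ww m = D.Q c m := by
  rw [D.C_apply hn hF, D.AW hm, add_assoc, D.two, add_zero]

theorem eq_zero_of_add_Q {c : F} (hc : c ≠ 1) {m : V} (hm : m ∈ D.M) (h : m + D.Q c m = 0) :
    m = 0 := by
  have h1 : D.Q (1 + c) m = 0 := by
    rw [D.Q_add_K 1 c (D.M_eq_K hn hF hm), D.Q_one hm, h]
  have hne : (1 + c) ≠ 0 := fun e => hc (CharTwo.add_eq_zero.1 e).symm
  rw [← D.Q_one hm, ← inv_mul_cancel₀ hne, D.Q_mul' hn hF _ _ hm, h1, D.Q_zero']

end Consequences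

/-- Coordinates: the module is a sum of natural modules. -/
theorem exists_coords [Fintype F] [Finite V] {n : ℕ} (hn : 2 ≤ n) (hF : Fintype.card F = 2 ^ n) :
    ∃ (k : ℕ) (ψ : V ≃+ (Fin k → Fin 2 → F)),
      ∀ g v i, ψ (D.ρ g v) i = (g : Matrix (Fin 2) (Fin 2) F).mulVec (ψ v i) := by
  have hK : ∀ {v : V}, v ∈ D.M → v ∈ D.K := fun hv => D.M_eq_K hn hF hv
  have hx : ∀ a, ∀ m ∈ D.M, D.ρ (xu a) m = m := fun a m hm => hK hm a
  letI : Module F D.M :=
    { smul := fun a m => ⟨D.Q a m, D.Q_mem a m.2⟩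
      one_smul := fun m => Subtype.ext (D.Q_one m.2)
      mul_smul := fun a b m => Subtype.ext (D.Q_mul a b (D.K_le_K2 (hK m.2)))
      smul_zero := fun a => Subtype.ext (D.Q_zero' a)
      smul_add := fun a x y => Subtype.ext (D.Q_add' a _ _)
      add_smul := fun a b m => Subtype.ext (D.Q_add_K a b (hK m.2))
      zero_smul := fun m => Subtype.ext (D.Q_zero _) }
  have hsmul : ∀ a (m : D.M), ((a • m : D.M) : V) = D.Q a m := fun _ _ => rfl
  haveI : Module.Finite F D.M := Module.Finite.of_finite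
  let e := (Module.finBasis F D.M).equivFun
  set k := Module.finrank F D.M
  let Φ : (Fin k → Fin 2 → F) →+ V :=
    AddMonoidHom.mk'
      (fun u => (e.symm (fun i => u i 0) : V) + D.ρ ww (e.symm (fun i => u i 1) : V))
      (fun u u' => by
        simp only [show (fun i => (u + u') i 0) = (fun i => u i 0) + (fun i => u' i 0) from rfl,
          show (fun i => (u + u') i 1) = (fun i => u i 1) + (fun i => u' i 1) from rfl,
          map_add, AddSubgroup.coe_add]
        abel)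
  have hinj : Function.Injective Φ := by
    intro u u' h
    obtain ⟨h0, h1⟩ := D.uniq (SetLike.coe_mem _) (SetLike.coe_mem _) (SetLike.coe_mem _)
      (SetLike.coe_mem _) h
    have h0' := e.symm.injective (Subtype.ext h0)
    have h1' := e.symm.injective (Subtype.ext h1)
    funext i j
    fin_cases j
    · exact congrFun h0' i
    · exact congrFun h1' i
  have hsurj : Function.Surjective Φ := by
    intro v
    refine ⟨fun i => ![e ⟨_, D.decomp v⟩ i, e ⟨_, D.A_mem v⟩ i], ?_⟩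
    show (e.symm (fun i => e ⟨_, D.decomp v⟩ i) : V) +
      D.ρ ww (e.symm (fun i => e ⟨_, D.A_mem v⟩ i) : V) = v
    rw [e.symm_apply_apply, e.symm_apply_apply]
    show v + D.ρ ww _ + D.ρ ww _ = v
    rw [add_assoc, D.two, add_zero]
  have hΦx : ∀ c u, D.ρ (xu c) (Φ u) =
      Φ (fun i => (xu c : SL).1.mulVec (u i)) := by
    intro c u
    show D.ρ (xu c) ((e.symm (fun i => u i 0) : V) + D.ρ ww (e.symm (fun i => u i 1) : V)) = _
    rw [map_add, hx c _ (SetLike.coe_mem _), D.xW, hx c _ (SetLike.coe_mem _), ← hsmul,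
      ← add_assoc, ← AddSubgroup.coe_add, ← map_smul, ← map_add]
    show _ = (e.symm (fun i => (xu c : SL).1.mulVec (u i) 0) : V) +
      D.ρ ww (e.symm (fun i => (xu c : SL).1.mulVec (u i) 1) : V)
    have hv0 : (fun i => (xu c : SL).1.mulVec (u i) 0) = (fun i => u i 0) + c • (fun i => u i 1) := by
      funext i
      simp [xu_val, Matrix.mulVec, dotProduct, Fin.sum_univ_two]
    have hv1 : (fun i => (xu c : SL).1.mulVec (u i) 1) = (fun i => u i 1) := by
      funext i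
      simp [xu_val, Matrix.mulVec, dotProduct, Fin.sum_univ_two]
    rw [hv0, hv1]
  have hΦw : ∀ u, D.ρ ww (Φ u) = Φ (fun i => (ww : SL).1.mulVec (u i)) := by
    intro u
    show D.ρ ww ((e.symm (fun i => u i 0) : V) + D.ρ ww (e.symm (fun i => u i 1) : V)) = _
    rw [map_add, D.wwww, add_comm]
    show _ = (e.symm (fun i => _) : V) + D.ρ ww (e.symm (fun i => _) : V)
    congr 4
    · funext i
      simp [ww_val, dotProduct, Fin.sum_univ_two]
    · funext i
      simp [ww_val, dotProduct, Fin.sum_univ_two, CharTwo.neg_eq]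
  have hΦ : ∀ g u, D.ρ g (Φ u) = Φ (fun i => (g : Matrix (Fin 2) (Fin 2) F).mulVec (u i)) := by
    intro g
    induction g using sl_induction with
    | hx c => exact hΦx c
    | hy c =>
      intro u
      rw [D.yl_apply, hΦw, hΦx, hΦw, yl_eq]
      simp only [Matrix.SpecialLinearGroup.coe_mul, Matrix.mulVec_mulVec, mul_assoc]
    | hmul a b ha hb =>
      intro u
      rw [D.mul, hb, ha]
      simp only [Matrix.SpecialLinearGroup.coe_mul, Matrix.mulVec_mulVec]
  let ψ := (AddEquiv.ofBijective Φ ⟨hinj, hsurj⟩).symm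
  refine ⟨k, ψ, fun g v i => ?_⟩
  suffices h : ψ (D.ρ g v) = fun i => (g : Matrix (Fin 2) (Fin 2) F).mulVec (ψ v i) from
    congrFun h i
  apply ψ.symm.injective
  rw [AddEquiv.symm_apply_apply]
  show D.ρ g v = Φ _
  rw [← hΦ]
  exact congrArg (D.ρ g) (ψ.symm_apply_apply v).symm

end Setup

end Cfsg.Agent.H75.SL2FPF
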