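import Cfsg.Agent.H75.SL2FPF

/-!
# Two-groups under `SL₂(2ⁿ)` with a fixed-point-free element of order three

`isElementaryAbelian_and_coords`: such a group is elementary abelian and, as a module, a sum of
natural modules.
-/

set_option autoImplicit false
set_option linter.all false

namespace Cfsg.Agent.H75.SL2FPF

open Matrix
open Cfsg.Agent.H75.SL2Natural
open scoped IsMulCommutative commutatorElement

universe uG uF

variable {F : Type uF} [Field F] [Fintype F] [CharP F 2]

local notation "SL" => SpecialLinearGroup (Fin 2) F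

theorem g3_val : (g3 : SL).1 = !![0, 1; 1, 1] := by
  simp [g3, xu_val, yl_val, Matrix.SpecialLinearGroup.coe_mul, CharTwo.add_self_eq_zero]

theorem g3_inv : (g3 : SL)⁻¹ = yl 1 * xu 1 := by
  refine inv_eq_of_mul_eq_one_right ?_
  rw [g3, mul_assoc, ← mul_assoc (yl 1), ← yl_add, CharTwo.add_self_eq_zero,
    show (yl 0 : SL) = 1 from SpecialLinearGroup.transvection_coeff_zero _, one_mul, xu_self]

/-- Elements of order three are conjugate to the standard one. -/
theorem exists_conj_g3 (s : SL) (h3 : s ^ 3 = 1) (h1 : s ≠ 1) :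
    ∃ h : SL, s = h * g3 * h⁻¹ := by
  set p := (s : Matrix (Fin 2) (Fin 2) F) 0 0 with hp
  set q := (s : Matrix (Fin 2) (Fin 2) F) 0 1 with hq
  set r := (s : Matrix (Fin 2) (Fin 2) F) 1 0 with hr
  set u := (s : Matrix (Fin 2) (Fin 2) F) 1 1 with hu
  have hs : (s : Matrix (Fin 2) (Fin 2) F) = !![p, q; r, u] := by
    ext i j; fin_cases i <;> fin_cases j <;> rfl
  have hdet : p * u - q * r = 1 := by
    have := s.2
    rw [Matrix.det_fin_two] at this
    exact this
  have hcube : ((s ^ 3 : SL) : Matrix (Fin 2) (Fin 2) F) = 1 := by rw [h3]; rfl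
  have two : (2 : F) = 0 := CharTwo.two_eq_zero
  rw [pow_succ, pow_two, Matrix.SpecialLinearGroup.coe_mul, Matrix.SpecialLinearGroup.coe_mul,
    hs] at hcube
  have e00 := congrFun (congrFun hcube 0) 0
  have e01 := congrFun (congrFun hcube 0) 1
  have e10 := congrFun (congrFun hcube 1) 0
  have e11 := congrFun (congrFun hcube 1) 1
  simp [Matrix.mul_apply, Fin.sum_univ_two] at e00 e01 e10 e11
  -- trace one
  have htr : p + u = 1 := by
    by_contra htr
    have hT : (p + u) * (p + u) - 1 ≠ 0 := by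
      intro h0
      apply htr
      have : (p + u - 1) * (p + u - 1) = 0 := by linear_combination h0 + (1 - (p + u)) * two
      exact sub_eq_zero.1 (mul_self_eq_zero.1 this)
    have hq0 : q = 0 := by
      have : ((p + u) * (p + u) - 1) * q = 0 := by linear_combination e01 + q * hdet
      exact (mul_eq_zero.1 this).resolve_left hT
    have hr0 : r = 0 := by
      have : ((p + u) * (p + u) - 1) * r = 0 := by linear_combination e10 + r * hdet
      exact (mul_eq_zero.1 this).resolve_left hT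
    have hpu : p = u := by
      have : ((p + u) * (p + u) - 1) * (p - u) = 0 := by
        linear_combination e00 - e11 + (p - u) * hdet
      exact sub_eq_zero.1 ((mul_eq_zero.1 this).resolve_left hT)
    rw [hq0, hr0, ← hpu] at hdet
    have hp1 : p = 1 := by
      have : (p - 1) * (p - 1) = 0 := by linear_combination hdet + (1 - p) * two
      exact sub_eq_zero.1 (mul_self_eq_zero.1 this)
    apply h1
    apply Subtype.ext
    rw [hs, hq0, hr0, ← hpu, hp1]
    exact Matrix.one_fin_two.symm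
  -- an invertible intertwiner
  have hu' : u = 1 + p := by linear_combination htr - p * two
  obtain ⟨a, b, c, d, hne, i00, i01, i10, i11⟩ : ∃ a b c d : F, a * d - b * c ≠ 0 ∧
      p * a + q * c = b ∧ p * b + q * d = a + b ∧ r * a + u * c = d ∧ r * b + u * d = c + d := by
    rw [hu'] at hdet ⊢
    by_cases hr0 : r = 0
    · by_cases hq0 : q = 0
      · refine ⟨1, p, 1, 1 + p, ?_, ?_, ?_, ?_, ?_⟩
        · rw [show (1 : F) * (1 + p) - p * 1 = 1 by ring]; exact one_ne_zero
        · rw [hq0]; ring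
        · rw [hq0] at hdet ⊢; linear_combination hdet - (p + 0) * two
        · rw [hr0]; ring
        · rw [hq0] at hdet; rw [hr0]; linear_combination hdet + (0 : F) * two
      · refine ⟨0, q, 1, 1 + p, ?_, ?_, ?_, ?_, ?_⟩
        · rw [show (0 : F) * (1 + p) - q * 1 = -q by ring]; exact neg_ne_zero.2 hq0
        · ring
        · linear_combination (p * q) * two
        · rw [hr0]; ring
        · rw [hr0] at hdet ⊢; linear_combination hdet
    · refine ⟨1, p, 0, r, ?_, ?_, ?_, ?_, ?_⟩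
      · simpa using hr0
      · ring
      · linear_combination -hdet + (p * p - 1) * two + (0 : F) * two
      · ring
      · linear_combination (r * p) * two
  obtain ⟨w, hw⟩ : ∃ w, a * d - b * c = w * w :=
    FiniteField.isSquare_of_char_two (ringChar.eq F 2) _
  have hw0 : w ≠ 0 := fun h => hne (by rw [hw, h, mul_zero])
  let h : SL := ⟨!![a / w, b / w; c / w, d / w], by
    rw [Matrix.det_fin_two_of, div_mul_div_comm, div_mul_div_comm, ← sub_div, hw,
      div_self (mul_ne_zero hw0 hw0)]⟩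
  refine ⟨h, eq_mul_inv_of_mul_eq (Subtype.ext ?_)⟩
  rw [Matrix.SpecialLinearGroup.coe_mul, Matrix.SpecialLinearGroup.coe_mul, hs, g3_val]
  show !![p, q; r, u] * !![a / w, b / w; c / w, d / w] =
    !![a / w, b / w; c / w, d / w] * !![0, 1; 1, 1]
  ext i j
  fin_cases i <;> fin_cases j <;> simp [Matrix.mul_apply, Fin.sum_univ_two] <;> field_simp <;>
    first | linear_combination i00 | linear_combination i01 | linear_combination i10 |
      linear_combination i11

/-- Natural coordinates are faithful. -/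
theorem eq_one_of_fix_all (c : SL) (u : Fin 2 → F) (hu : u ≠ 0)
    (h : ∀ s : SL, c.1.mulVec (s.1.mulVec u) = s.1.mulVec u) : c = 1 := by
  have h0 := h 1
  rw [Matrix.SpecialLinearGroup.coe_one, Matrix.one_mulVec] at h0
  have key : ∀ s : SL, c.1.mulVec (s.1.mulVec u - u) = s.1.mulVec u - u := fun s => by
    rw [Matrix.mulVec_sub, h, h0]
  have hx : ∀ t, c.1.mulVec ![t * u 1, 0] = ![t * u 1, 0] := fun t => by
    have := key (xu t)
    have e : (xu t : SL).1.mulVec u - u = ![t * u 1, 0] := by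
      funext i
      fin_cases i <;> simp [xu_val, Matrix.mulVec, dotProduct, Fin.sum_univ_two]
    rwa [e] at this
  have hy : ∀ t, c.1.mulVec ![0, t * u 0] = ![0, t * u 0] := fun t => by
    have := key (yl t)
    have e : (yl t : SL).1.mulVec u - u = ![0, t * u 0] := by
      funext i
      fin_cases i <;> simp [yl_val, Matrix.mulVec, dotProduct, Fin.sum_univ_two]
    rwa [e] at this
  have hcol : c.1.mulVec ![1, 0] = ![1, 0] ∧ c.1.mulVec ![0, 1] = ![0, 1] := by
    by_cases h1 : u 1 = 0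
    · have h0' : u 0 ≠ 0 := fun h' => hu (by funext i; fin_cases i <;> assumption)
      have e1 := hy (u 0)⁻¹
      rw [inv_mul_cancel₀ h0'] at e1
      have e0 : c.1.mulVec ![u 0, 0] = ![u 0, 0] := by
        have : u = ![u 0, 0] := by funext i; fin_cases i <;> simp [h1]
        rw [← this]; exact h0
      refine ⟨?_, e1⟩
      have := congrArg (fun v => (u 0)⁻¹ • v) e0
      simp only [← Matrix.mulVec_smul] at this
      simpa [h0'] using this
    · have e0 := hx (u 1)⁻¹
      rw [inv_mul_cancel₀ h1] at e0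
      refine ⟨e0, ?_⟩
      have e : ![0, u 1] = u - ![u 0, 0] := by funext i; fin_cases i <;> simp
      have e2 : c.1.mulVec ![u 0, 0] = ![u 0, 0] := by
        have := hx (u 0 / u 1)
        rwa [div_mul_cancel₀ _ h1] at this
      have e3 : c.1.mulVec ![0, u 1] = ![0, u 1] := by rw [e, Matrix.mulVec_sub, h0, e2]
      have := congrArg (fun v => (u 1)⁻¹ • v) e3
      simp only [← Matrix.mulVec_smul] at this
      simpa [h1] using this
  apply Subtype.ext
  rw [Matrix.SpecialLinearGroup.coe_one]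
  obtain ⟨a, b⟩ := hcol
  ext i j
  fin_cases j
  · have := congrFun a i
    fin_cases i <;> simpa [Matrix.mulVec, dotProduct, Fin.sum_univ_two] using this
  · have := congrFun b i
    fin_cases i <;> simpa [Matrix.mulVec, dotProduct, Fin.sum_univ_two] using this

/-- In exponent four, fixed-point-freeness forces exponent two. -/
theorem two_eq_zero_of_four {n : ℕ} (hn : 2 ≤ n) (hF : Fintype.card F = 2 ^ n) {V : Type*}
    [AddCommGroup V] [Finite V] (ρ : SL →* AddMonoid.End V) (h4 : ∀ v : V, (v + v) + (v + v) = 0)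
    (rel : ∀ v, ρ (xu 1 * yl 1) v + ρ (yl 1 * xu 1) v = -v) : ∀ v : V, v + v = 0 := by
  classical
  let d : V →+ V := AddMonoidHom.mk' (fun v => v + v) fun a b => add_add_add_comm a b a b
  -- the module `2V`
  let ρ2 : SL →* AddMonoid.End d.range :=
    { toFun := fun g => AddMonoidHom.mk' (fun n => ⟨ρ g n, by
          obtain ⟨v, hv⟩ := n.2
          exact ⟨ρ g v, by rw [← hv]; exact (map_add (ρ g) v v).symm⟩⟩)
        fun a b => Subtype.ext (map_add (ρ g) _ _)
      map_one' := AddMonoidHom.ext fun n => Subtype.ext (act_one ρ _)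
      map_mul' := fun a b => AddMonoidHom.ext fun n => Subtype.ext (act_mul ρ a b _) }
  have hd2 : ∀ n : d.range, n + n = 0 := by
    rintro ⟨_, v, rfl⟩
    exact Subtype.ext (h4 v)
  have hneg2 : ∀ n : d.range, -(n : V) = n := fun n => by
    rw [eq_comm, eq_neg_iff_add_eq_zero]
    exact congrArg Subtype.val (hd2 n)
  let D2 : Setup F d.range :=
    ⟨ρ2, hd2, fun n => Subtype.ext ((rel (n : V)).trans (hneg2 n))⟩
  -- the module `V / 2V`
  let ρb : SL →* AddMonoid.End (V ⧸ d.range) :=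
    { toFun := fun g => QuotientAddGroup.map _ _ (ρ g : V →+ V) (by
        rintro _ ⟨v, rfl⟩
        exact ⟨ρ g v, (map_add (ρ g) v v).symm⟩)
      map_one' := AddMonoidHom.ext fun q => QuotientAddGroup.induction_on q fun v =>
        congrArg ((↑) : V → V ⧸ d.range) (act_one ρ v)
      map_mul' := fun a b => AddMonoidHom.ext fun q => QuotientAddGroup.induction_on q fun v =>
        congrArg ((↑) : V → V ⧸ d.range) (act_mul ρ a b v) }
  have hb2 : ∀ q : V ⧸ d.range, q + q = 0 := fun q => QuotientAddGroup.induction_on q fun v =>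
    (QuotientAddGroup.eq_zero_iff _).2 ⟨v, rfl⟩
  let Db : Setup F (V ⧸ d.range) :=
    ⟨ρb, hb2, fun q => QuotientAddGroup.induction_on q fun v => by
      show ((ρ (xu 1 * yl 1) v : V) : V ⧸ d.range) + ((ρ (yl 1 * xu 1) v : V) : V ⧸ d.range) = v
      rw [← QuotientAddGroup.mk_add, rel v, QuotientAddGroup.mk_neg, eq_comm,
        eq_neg_iff_add_eq_zero]
      exact hb2 _⟩
  obtain ⟨a, ha0, ha1⟩ : ∃ a : F, a ≠ 0 ∧ a ≠ 1 := by
    have h4' : 2 < Fintype.card F := by
      rw [hF]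
      calc 2 < 2 ^ 2 := by norm_num
        _ ≤ 2 ^ n := Nat.pow_le_pow_right two_pos hn
    by_contra h
    push Not at h
    have := Finset.card_le_card (show Finset.univ ⊆ ({0, 1} : Finset F) from fun c _ => by
      by_cases hc : c = 0
      · simp [hc]
      · simp [h c hc])
    rw [Finset.card_univ] at this
    exact absurd (this.trans Finset.card_le_two) h4'.not_ge
  obtain ⟨k, hk, hkodd⟩ : ∃ k, a ^ k = 1 ∧ Odd k := by
    refine ⟨Fintype.card F - 1, FiniteField.pow_card_sub_one_eq_one a ha0, ?_⟩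
    rw [hF]
    exact Nat.Even.sub_odd (Nat.one_le_two_pow) (Nat.even_pow.2 ⟨even_two, by omega⟩) odd_one
  -- operators
  let A : V →+ V := AddMonoidHom.mk' (fun v => ρ (xu 1) v - v) fun u v => by
    simp only [map_add]; abel
  let C : V →+ V := AddMonoidHom.mk' (fun v => ρ (xu a) v - v) fun u v => by
    simp only [map_add]; abel
  let W : V →+ V := (ρ ww : V →+ V)
  let T : V →+ V := W.comp C
  have hAA : ∀ v, A (A v) = -(A v + A v) := by
    intro v
    show ρ (xu 1) (ρ (xu 1) v - v) - (ρ (xu 1) v - v) = -((ρ (xu 1) v - v) + (ρ (xu 1) v - v))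
    rw [map_sub, ← act_mul, xu_self, act_one]
    abel
  have hCC : ∀ v, C (C v) = -(C v + C v) := by
    intro v
    show ρ (xu a) (ρ (xu a) v - v) - (ρ (xu a) v - v) = -((ρ (xu a) v - v) + (ρ (xu a) v - v))
    rw [map_sub, ← act_mul, xu_self, act_one]
    abel
  have hAC : ∀ v, A (C v) = C (A v) := by
    intro v
    show ρ (xu 1) (ρ (xu a) v - v) - (ρ (xu a) v - v) = ρ (xu a) (ρ (xu 1) v - v) - (ρ (xu 1) v - v)
    rw [map_sub, map_sub, ← act_mul, ← act_mul, ← xu_add, ← xu_add, add_comm 1 a]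
    abel
  -- translation between `V` and the two elementary modules
  have hsub2 : ∀ x y : d.range, x - y = x + y := fun x y => by
    rw [sub_eq_add_neg, neg_eq_of_add_eq_zero_left (hd2 y)]
  have hsubb : ∀ x y : V ⧸ d.range, x - y = x + y := fun x y => by
    rw [sub_eq_add_neg, neg_eq_of_add_eq_zero_left (hb2 y)]
  let A2 : d.range → d.range := fun m => D2.ρ (xu 1) m + m
  have hA2 : ∀ m : d.range, A m = (A2 m : V) := fun m =>
    congrArg Subtype.val (hsub2 (D2.ρ (xu 1) m) m)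
  have hC2 : ∀ m : d.range, C m = (D2.Q a (A2 m) : d.range) := fun m =>
    congrArg Subtype.val ((hsub2 (D2.ρ (xu a) m) m).trans (D2.C_apply hn hF a m))
  let Ab : V ⧸ d.range → V ⧸ d.range := fun m => Db.ρ (xu 1) m + m
  have hAb : ∀ v, ((A v : V) : V ⧸ d.range) = Ab v := fun v =>
    hsubb (Db.ρ (xu 1) v) v
  have hCb : ∀ v, ((C v : V) : V ⧸ d.range) = Db.Q a (Ab v) := fun v =>
    (hsubb (Db.ρ (xu a) v) v).trans (Db.C_apply hn hF a v)
  have hAWb : ∀ m ∈ Db.M, Ab (Db.ρ ww m) = m := fun m hm => by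
    show Db.ρ (xu 1) (Db.ρ ww m) + Db.ρ ww m = m
    rw [Db.AW hm, add_assoc, hb2, add_zero]
  have hWb : ∀ v, ((W v : V) : V ⧸ d.range) = Db.ρ ww v := fun _ => rfl
  -- `C v = A (T v) + 2 _`
  have hf1 : ∀ v, ∃ m : d.range, C v = A (T v) + m := by
    intro v
    have h1 : ((A (T v) : V) : V ⧸ d.range) = ((C v : V) : V ⧸ d.range) := by
      rw [hAb]
      show Ab ((W (C v) : V) : V ⧸ d.range) = _
      rw [hWb, hCb]
      exact hAWb _ (Db.Q_mem a (Db.A_mem _))
    rw [QuotientAddGroup.eq] at h1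
    exact ⟨⟨_, h1⟩, (add_neg_cancel_left _ _).symm⟩
  -- the two functions with values in `2V`
  let θ : V → d.range := fun v => ⟨A v + A v, A v, rfl⟩
  have hθA : ∀ v, θ v = A2 ⟨v + v, v, rfl⟩ := fun v => Subtype.ext (by
    rw [← hA2]; exact (map_add A v v).symm)
  have hθM : ∀ v, θ v ∈ D2.M := fun v => by rw [hθA]; exact D2.A_mem _
  have hΞ : ∀ v, ∃ m : d.range, A (C v) = m ∧ m ∈ D2.M := by
    intro v
    obtain ⟨m, hm⟩ := hf1 v
    refine ⟨θ (T v) + A2 m, ?_, add_mem (hθM _) (D2.A_mem _)⟩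
    rw [hm, map_add, hAA, hA2, AddSubgroup.coe_add]
    congr 1
    exact hneg2 (θ (T v))
  choose Ξ hΞ1 hΞ2 using hΞ
  have hθT : ∀ v, θ (T v) = D2.Q a (θ v) := by
    intro v
    obtain ⟨m, hm⟩ := hf1 v
    have h1 : C v + C v = (θ (T v) : V) := by
      have h2 : (m : V) + m = 0 := congrArg Subtype.val (hd2 m)
      calc C v + C v = (A (T v) + m) + (A (T v) + m) := by rw [hm]
        _ = (A (T v) + A (T v)) + ((m : V) + m) := by abel
        _ = _ := by rw [h2, add_zero]
    have h3 := hC2 ⟨v + v, v, rfl⟩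
    rw [map_add, h1, ← hθA] at h3
    exact Subtype.ext h3
  have hmain : ∀ v, Ξ (T v) + D2.Q a (Ξ v) = D2.Q a (θ v) + D2.Q (a * a) (θ v) := by
    intro v
    obtain ⟨m, hm⟩ := hf1 v
    -- apply `A`
    have e1 : A2 m = Ξ v + θ (T v) := by
      apply Subtype.ext
      have h1 := hΞ1 v
      rw [hm, map_add, hAA, hA2] at h1
      have h2 : -(A (T v) + A (T v)) = (θ (T v) : V) := hneg2 (θ (T v))
      rw [h2] at h1
      show (A2 m : V) = (Ξ v : V) + θ (T v)
      rw [← h1, add_comm (θ (T v) : V), add_assoc,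
        show (θ (T v) : V) + θ (T v) = 0 from congrArg Subtype.val (hd2 _), add_zero]
    -- apply `C`
    have e2 : θ (T v) = Ξ (T v) + D2.Q a (A2 m) := by
      apply Subtype.ext
      have h1 := hCC v
      rw [hm, map_add, ← hAC, hΞ1, hC2] at h1
      rw [AddSubgroup.coe_add, h1, ← hm]
      have h2 : (C v + C v) = (θ (T v) : V) := by
        have h2 : (m : V) + m = 0 := congrArg Subtype.val (hd2 m)
        calc C v + C v = (A (T v) + m) + (A (T v) + m) := by rw [hm]
          _ = (A (T v) + A (T v)) + ((m : V) + m) := by abel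
          _ = _ := by rw [h2, add_zero]
      rw [h2, hneg2]
    rw [e1, D2.Q_add', hθT, ← D2.Q_mul' hn hF a a (hθM v)] at e2
    rw [e2]
    generalize Ξ (T v) = X
    generalize D2.Q a (Ξ v) = Y
    generalize D2.Q (a * a) (θ v) = Z
    calc X + Y = X + Y + (Z + Z) := by rw [hd2, add_zero]
      _ = _ := by abel
  have hθTj : ∀ j v, θ (T^[j] v) = D2.Q (a ^ j) (θ v) := by
    intro j v
    induction j with
    | zero => rw [pow_zero, D2.Q_one (hθM v)]; rfl
    | succ j ih =>
      rw [Function.iterate_succ_apply', hθT, ih, ← D2.Q_mul' hn hF _ _ (hθM v), pow_succ']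
  have hiter : ∀ j v, Ξ (T^[j] v) + D2.Q (a ^ j) (Ξ v) =
      j • (D2.Q (a ^ j) (θ v) + D2.Q (a ^ (j + 1)) (θ v)) := by
    intro j v
    induction j with
    | zero => rw [pow_zero, D2.Q_one (hΞ2 v), zero_smul]; exact hd2 _
    | succ j ih =>
      have h1 := congrArg (D2.Q a) ih
      have h2 : ∀ (i : ℕ) (x : d.range), D2.Q a (i • x) = i • D2.Q a x := fun i x => by
        induction i with
        | zero => rw [zero_smul, zero_smul, D2.Q_zero']
        | succ i ih => rw [succ_nsmul, succ_nsmul, D2.Q_add', ih]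
      rw [D2.Q_add', ← D2.Q_mul' hn hF _ _ (hΞ2 v), h2, D2.Q_add',
        ← D2.Q_mul' hn hF _ _ (hθM v), ← D2.Q_mul' hn hF _ _ (hθM v), ← pow_succ',
        ← pow_succ'] at h1
      have h3 := hmain (T^[j] v)
      rw [hθTj, ← Function.iterate_succ_apply' T, ← D2.Q_mul' hn hF _ _ (hθM v),
        ← D2.Q_mul' hn hF _ _ (hθM v), mul_assoc, ← pow_succ', ← pow_succ'] at h3
      rw [succ_nsmul, ← h1, ← h3]
      generalize Ξ (T^[j + 1] v) = X
      generalize D2.Q a (Ξ (T^[j] v)) = Y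
      generalize D2.Q (a ^ (j + 1)) (Ξ v) = Z
      calc X + Z = X + Z + (Y + Y) := by rw [hd2, add_zero]
        _ = _ := by abel
  -- vectors of the form `W (A v)` are periodic
  have hper : ∀ j v, ((T^[j] (W (A v)) : V) : V ⧸ d.range) = Db.ρ ww (Db.Q (a ^ j) (Ab v)) := by
    intro j v
    induction j with
    | zero => rw [pow_zero, Db.Q_one (Db.A_mem _), Function.iterate_zero_apply, hWb, hAb]
    | succ j ih =>
      rw [Function.iterate_succ_apply']
      show ((W (C (T^[j] (W (A v)))) : V) : V ⧸ d.range) = _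
      rw [hWb, hCb, ih, hAWb _ (Db.Q_mem _ (Db.A_mem _)), ← Db.Q_mul' hn hF _ _ (Db.A_mem _),
        pow_succ']
  have hθ0 : ∀ v, θ (W (A v)) = 0 := by
    intro v
    set u := W (A v) with hu
    have hdiff : ((T^[k] u : V) : V ⧸ d.range) = (u : V ⧸ d.range) := by
      rw [hper, hk, Db.Q_one (Db.A_mem _), hu, hWb, hAb]
    rw [QuotientAddGroup.eq] at hdiff
    obtain ⟨x, hx⟩ := hdiff
    have hΞeq : Ξ (T^[k] u) = Ξ u := by
      have h1 : A (C u) = A (C (T^[k] u)) := by
        have h2 : u = T^[k] u + d x := by rw [hx, add_neg_cancel_left]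
        conv_lhs => rw [h2, map_add, map_add]
        have h3 : C (d x) = (D2.Q a (A2 ⟨d x, x, rfl⟩) : d.range) := hC2 ⟨d x, x, rfl⟩
        have h4 : A2 (D2.Q a (A2 ⟨d x, x, rfl⟩)) = 0 := by
          show D2.ρ (xu 1) _ + _ = 0
          rw [D2.xu_fix hn hF (D2.Q_mem a (D2.A_mem _)), hd2]
        rw [h3, hA2, h4, AddSubgroup.coe_zero, add_zero]
      rw [hΞ1, hΞ1] at h1
      exact (Subtype.ext h1).symm
    have h1 := hiter k u
    rw [hΞeq, hk, D2.Q_one (hΞ2 u), hd2, D2.Q_one (hθM u), pow_succ, hk, one_mul] at h1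
    obtain ⟨i, hi⟩ := hkodd
    rw [hi, succ_nsmul, mul_nsmul', two_nsmul, hd2, zero_add] at h1
    · exact D2.eq_zero_of_add_Q hn hF ha1 (hθM u) h1.symm
  have hA20 : ∀ m : d.range, A2 m = 0 := by
    rintro ⟨_, v, rfl⟩
    have h1 : θ v = 0 := by
      have h2 : ((A (W (A v)) : V) : V ⧸ d.range) = ((A v : V) : V ⧸ d.range) := by
        rw [hAb, hWb, hAb]
        exact hAWb _ (Db.A_mem _)
      rw [QuotientAddGroup.eq] at h2
      obtain ⟨x, hx⟩ := h2
      have h3 : A v = A (W (A v)) + d x := by rw [hx, add_neg_cancel_left]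
      apply Subtype.ext
      show A v + A v = 0
      rw [h3]
      calc _ = (A (W (A v)) + A (W (A v))) + ((x + x) + (x + x)) := by
            show (A (W (A v)) + (x + x)) + (A (W (A v)) + (x + x)) = _
            abel
        _ = _ := by rw [h4, add_zero]; exact congrArg Subtype.val (hθ0 v)
    rw [hθA] at h1
    exact h1
  intro v
  have hM : ∀ m : d.range, m ∈ D2.M := fun m => D2.eqv (hA20 m)
  exact congrArg Subtype.val (D2.eq_zero_of_ww_mem (hM ⟨v + v, v, rfl⟩) (hM _))

section GroupLevel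

variable {G : Type uG} [Group G] [Finite G] (Q : Subgroup G) [Q.Normal]

/-- The product of an orbit of an element of order three lies in the derived section. -/
theorem prod_mem (M : Subgroup G) [M.Normal] (hMQ : M ≤ Q) (hc : ∀ a ∈ Q, ∀ b ∈ Q, ⁅a, b⁆ ∈ M)
    {g : G} (hg3 : g ^ 3 = 1) (hfpf : ∀ q ∈ Q, g * q * g⁻¹ = q → q = 1) {u : G} (hu : u ∈ Q) :
    u * (g * u * g⁻¹) * (g * g * u * (g * g)⁻¹) ∈ M := by
  have hQc : ∀ a ∈ Q, g * a * g⁻¹ ∈ Q := fun a ha => ‹Q.Normal›.conj_mem a ha g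
  -- no fixed points on `Q / M`
  have hfix : ∀ s ∈ Q, g * s * g⁻¹ * s⁻¹ ∈ M → s ∈ M := by
    intro s hs hsM
    let f : M → M := fun m => ⟨g * (m : G) * g⁻¹ * (m : G)⁻¹,
      mul_mem (‹M.Normal›.conj_mem _ m.2 g) (inv_mem m.2)⟩
    have key : ∀ a ∈ Q, ∀ b ∈ Q, g * a * g⁻¹ * a⁻¹ = g * b * g⁻¹ * b⁻¹ → a = b := by
      intro a ha b hb h
      have h1 : g * (b⁻¹ * a) * g⁻¹ = b⁻¹ * a := by
        calc g * (b⁻¹ * a) * g⁻¹ = (g * b * g⁻¹)⁻¹ * (g * a * g⁻¹ * a⁻¹) * a := by group
          _ = (g * b * g⁻¹)⁻¹ * (g * b * g⁻¹ * b⁻¹) * a := by rw [h]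
          _ = b⁻¹ * a := by group
      exact (inv_mul_eq_one.1 (hfpf _ (mul_mem (inv_mem hb) ha) h1)).symm
    have hf : Function.Surjective f := Finite.injective_iff_surjective.1 fun a b h =>
      Subtype.ext (key _ (hMQ a.2) _ (hMQ b.2) (congrArg Subtype.val h))
    obtain ⟨m, hm⟩ := hf ⟨_, hsM⟩
    rw [key s hs m (hMQ m.2) (congrArg Subtype.val hm).symm]
    exact m.2
  set s := u * (g * u * g⁻¹) * (g * g * u * (g * g)⁻¹) with hs
  have hs' : s ∈ Q := mul_mem (mul_mem hu (hQc _ hu)) (‹Q.Normal›.conj_mem u hu _)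
  refine hfix s hs' ?_
  have h1 : g * s * g⁻¹ = u⁻¹ * s * u := by
    have hgg : g * g * g = 1 := by rw [← hg3, pow_succ, pow_two]
    rw [hs]
    calc g * (u * (g * u * g⁻¹) * (g * g * u * (g * g)⁻¹)) * g⁻¹
        = (g * u * g⁻¹) * (g * g * u * (g * g)⁻¹) * (g * g * g * u * (g * g * g)⁻¹) := by group
      _ = _ := by rw [hgg]; group
  rw [h1]
  have h2 := hc u⁻¹ (inv_mem hu) s hs'
  rw [commutatorElement_def, inv_inv] at h2
  exact h2

/-- The action of `SL₂` on a normal abelian subgroup centralised by `Q`. -/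
noncomputable def actionHom (e : G ⧸ Q ≃* SpecialLinearGroup (Fin 2) F) (A : Subgroup G) [A.Normal]
    [IsMulCommutative A] (hQA : ∀ q ∈ Q, ∀ a ∈ A, q * a = a * q) :
    SpecialLinearGroup (Fin 2) F →* AddMonoid.End (Additive A) :=
  (QuotientGroup.lift Q
    ({ toFun := fun g => AddMonoidHom.mk'
        (fun a => Additive.ofMul (⟨g * (a.toMul : G) * g⁻¹, ‹A.Normal›.conj_mem _ a.toMul.2 g⟩ : A))
        (fun a b => congrArg Additive.ofMul (Subtype.ext (by
          show g * ((a.toMul : G) * b.toMul) * g⁻¹ = g * a.toMul * g⁻¹ * (g * b.toMul * g⁻¹)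
          group)))
       map_one' := AddMonoidHom.ext fun a => congrArg Additive.ofMul (Subtype.ext (by
          show (1 : G) * a.toMul * 1⁻¹ = a.toMul
          group))
       map_mul' := fun g h => AddMonoidHom.ext fun a => congrArg Additive.ofMul (Subtype.ext (by
          show g * h * (a.toMul : G) * (g * h)⁻¹ = g * (h * a.toMul * h⁻¹) * g⁻¹
          group)) } : G →* AddMonoid.End (Additive A))
    (fun q hq => AddMonoidHom.ext fun a => congrArg Additive.ofMul (Subtype.ext (by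
      show q * (a.toMul : G) * q⁻¹ = a.toMul
      rw [hQA q hq _ a.toMul.2, mul_inv_cancel_right])))).comp e.symm.toMonoidHom

omit [Finite G] in
theorem actionHom_apply (e : G ⧸ Q ≃* SpecialLinearGroup (Fin 2) F) (A : Subgroup G) [A.Normal]
    [IsMulCommutative A] (hQA : ∀ q ∈ Q, ∀ a ∈ A, q * a = a * q) (g : G) (a : Additive A) :
    ((actionHom Q e A hQA (e g) a).toMul : G) = g * (a.toMul : G) * g⁻¹ := by
  rw [actionHom, MonoidHom.comp_apply, MulEquiv.coe_toMonoidHom, e.symm_apply_apply]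
  rfl

/-- The orbit relation in additive form. -/
theorem actionHom_rel (e : G ⧸ Q ≃* SpecialLinearGroup (Fin 2) F) (A : Subgroup G) [A.Normal]
    [IsMulCommutative A] (hQA : ∀ q ∈ Q, ∀ a ∈ A, q * a = a * q) (hAQ : A ≤ Q) {x : G}
    (hx : e x = g3) (hx3 : x ^ 3 = 1) (hfpf : ∀ q ∈ Q, x * q * x⁻¹ = q → q = 1)
    (v : Additive A) :
    actionHom Q e A hQA (xu 1 * yl 1) v + actionHom Q e A hQA (yl 1 * xu 1) v = -v := by
  have hxx : e ((x * x : G) : G ⧸ Q) = yl 1 * xu 1 := by
    rw [← g3_inv, QuotientGroup.mk_mul, map_mul, hx]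
    refine eq_inv_of_mul_eq_one_left ?_
    rw [← hx, ← map_mul, ← map_mul, ← QuotientGroup.mk_mul, ← QuotientGroup.mk_mul, ← pow_two,
      ← pow_succ, hx3, QuotientGroup.mk_one, map_one]
  have h1 := prod_mem A ⊥ bot_le (fun a ha b hb => by
      rw [Subgroup.mem_bot, commutatorElement_eq_one_iff_mul_comm]
      exact hQA a (hAQ ha) b hb)
    hx3 (fun q hq => hfpf q (hAQ hq)) v.toMul.2
  rw [Subgroup.mem_bot] at h1
  refine eq_neg_of_add_eq_zero_right ?_
  apply Additive.toMul.injective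
  apply Subtype.ext
  rw [show xu 1 * yl 1 = e x from hx.symm, ← hxx]
  show (v.toMul : G) * (((actionHom Q e A hQA (e x) v).toMul : G) *
    (actionHom Q e A hQA (e ((x * x : G) : G ⧸ Q)) v).toMul) = 1
  rw [actionHom_apply, actionHom_apply, ← mul_assoc]
  exact h1

/-- The additive coordinates of an elementary abelian `A`. -/
theorem exists_coords_group {n : ℕ} (hn : 2 ≤ n) (hF : Fintype.card F = 2 ^ n)
    (e : G ⧸ Q ≃* SpecialLinearGroup (Fin 2) F) (A : Subgroup G) [A.Normal] [IsMulCommutative A]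
    (hQA : ∀ q ∈ Q, ∀ a ∈ A, q * a = a * q) (hAQ : A ≤ Q) (h2 : ∀ a ∈ A, a * a = 1) {x : G}
    (hx : e x = g3) (hx3 : x ^ 3 = 1) (hfpf : ∀ q ∈ Q, x * q * x⁻¹ = q → q = 1) :
    ∃ (k : ℕ) (ψ : Additive A ≃+ (Fin k → Fin 2 → F)),
      ∀ g v i, ψ (actionHom Q e A hQA g v) i = (g : Matrix (Fin 2) (Fin 2) F).mulVec (ψ v i) := by
  have h2' : ∀ v : Additive A, v + v = 0 := fun v =>
    congrArg Additive.ofMul (Subtype.ext (h2 _ v.toMul.2) : v.toMul * v.toMul = 1)
  let D : Setup F (Additive A) := ⟨actionHom Q e A hQA, h2', fun v => by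
    rw [actionHom_rel Q e A hQA hAQ hx hx3 hfpf v]
    exact neg_eq_of_add_eq_zero_left (h2' v)⟩
  exact D.exists_coords hn hF

/-- Commutators vanish: the step of the induction. -/
theorem commute_of_section {n : ℕ} (hn : 2 ≤ n) (hF : Fintype.card F = 2 ^ n)
    (e : G ⧸ Q ≃* SpecialLinearGroup (Fin 2) F) (N : Subgroup G) [N.Normal] (hNQ : N ≤ Q)
    (hN : ∀ a ∈ N, ∀ q ∈ Q, q * a = a * q) (hN2 : ∀ a ∈ N, a * a = 1)
    (hcN : ∀ a ∈ Q, ∀ b ∈ Q, ⁅a, b⁆ ∈ N) {x : G}
    (hx : e x = g3) (hx3 : x ^ 3 = 1) (hfpf : ∀ q ∈ Q, x * q * x⁻¹ = q → q = 1) :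
    ∀ u ∈ Q, ∀ v ∈ Q, u * v = v * u := by
  haveI : IsMulCommutative N := IsMulCommutative.of_comm fun a b =>
    Subtype.ext (hN b b.2 a (hNQ a.2))
  have hQN : ∀ q ∈ Q, ∀ a ∈ N, q * a = a * q := fun q hq a ha => hN a ha q hq
  obtain ⟨k, ψ, hψ⟩ := exists_coords_group Q hn hF e N hQN hNQ hN2 hx hx3 hfpf
  let ρ := actionHom Q e N hQN
  -- the commutator map
  let β : Q → Q → Additive N := fun u v =>
    Additive.ofMul (⟨⁅(u : G), (v : G)⁆, hcN u u.2 v v.2⟩ : N)
  have hβl : ∀ u u' v : Q, β (u * u') v = β u v + β u' v := by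
    intro u u' v
    refine congrArg Additive.ofMul (Subtype.ext ?_)
    show ⁅(u : G) * u', (v : G)⁆ = ⁅(u : G), (v : G)⁆ * ⁅(u' : G), (v : G)⁆
    have h1 := hN _ (hcN u' u'.2 v v.2) u u.2
    have h2 := hN _ (hcN u' u'.2 v v.2) ⁅(u : G), (v : G)⁆ (hNQ (hcN u u.2 v v.2))
    calc ⁅(u : G) * u', (v : G)⁆ = (u : G) * ⁅(u' : G), (v : G)⁆ * (u : G)⁻¹ * ⁅(u : G), (v : G)⁆ := by
          simp only [commutatorElement_def]; group
      _ = _ := by rw [h1, mul_inv_cancel_right, ← h2]
  have hβn : ∀ u v : Q, (u : G) ∈ N → β u v = 0 := by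
    intro u v hu
    refine congrArg Additive.ofMul (Subtype.ext ?_)
    show ⁅(u : G), (v : G)⁆ = 1
    rw [commutatorElement_eq_one_iff_mul_comm]
    exact (hN u hu v v.2).symm
  have hβs : ∀ u v : Q, β v u = β u v := by
    intro u v
    refine congrArg Additive.ofMul (Subtype.ext ?_)
    show ⁅(v : G), (u : G)⁆ = ⁅(u : G), (v : G)⁆
    rw [← commutatorElement_inv, inv_eq_iff_mul_eq_one]
    exact hN2 _ (hcN u u.2 v v.2)
  let c : G → Q → Q := fun g u => ⟨g * u * g⁻¹, ‹Q.Normal›.conj_mem u u.2 g⟩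
  have hc : ∀ g h u, c (g * h) u = c g (c h u) := fun g h u => Subtype.ext (by
    show g * h * (u : G) * (g * h)⁻¹ = g * (h * u * h⁻¹) * g⁻¹; group)
  have hc1 : ∀ u, c 1 u = u := fun u => Subtype.ext (by show (1 : G) * u * 1⁻¹ = u; group)
  have hρβ : ∀ (g : G) u v, ρ (e (g : G ⧸ Q)) (β u v) = β (c g u) (c g v) := by
    intro g u v
    apply Additive.toMul.injective
    apply Subtype.ext
    rw [actionHom_apply]
    show g * ⁅(u : G), (v : G)⁆ * g⁻¹ = ⁅g * (u : G) * g⁻¹, g * (v : G) * g⁻¹⁆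
    simp only [commutatorElement_def]
    group
  have h2A : ∀ a : Additive N, a + a = 0 := fun a =>
    congrArg Additive.ofMul (Subtype.ext (hN2 _ a.toMul.2) : a.toMul * a.toMul = 1)
  have heq : ∀ {a b : Additive N}, a + b = 0 → a = b := fun {a b} h => by
    rw [eq_neg_of_add_eq_zero_left h, eq_comm, eq_neg_iff_add_eq_zero]
    exact h2A b
  -- the identity for each conjugate of `x`
  have hid : ∀ h : G, ∀ u v : Q,
      β (c (h * x * h⁻¹) u) v = ρ (e ((h * x * h⁻¹ * (h * x * h⁻¹) : G) : G ⧸ Q)) (β u v) ∧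
      β u (c (h * x * h⁻¹) v) = ρ (e ((h * x * h⁻¹ * (h * x * h⁻¹) : G) : G ⧸ Q)) (β u v) := by
    intro h
    set g := h * x * h⁻¹ with hg
    have hg3 : g ^ 3 = 1 := by rw [hg, conj_pow, hx3, mul_one, mul_inv_cancel]
    have hgf : ∀ q ∈ Q, g * q * g⁻¹ = q → q = 1 := by
      intro q hq hfix
      have h1 : x * (h⁻¹ * q * h) * x⁻¹ = h⁻¹ * q * h := by
        calc _ = h⁻¹ * (g * q * g⁻¹) * h := by rw [hg]; group
          _ = _ := by rw [hfix]
      have h2 := hfpf _ (by simpa using ‹Q.Normal›.conj_mem q hq h⁻¹) h1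
      rwa [← conj_eq_one_iff (a := h⁻¹), inv_inv]
    have hggg : g * (g * g) = 1 := by rw [← hg3, pow_succ', pow_two]
    have hggg' : g * g * g = 1 := by rw [← hg3, pow_succ, pow_two]
    suffices key : ∀ u v : Q, β (c g u) v = ρ (e ((g * g : G) : G ⧸ Q)) (β u v) from
      fun u v => ⟨key u v, by rw [hβs, key, hβs]⟩
    intro u v
    have hrow : ∀ w z : Q, β w z + β (c g w) z + β (c (g * g) w) z = 0 := by
      intro w z
      rw [← hβl, ← hβl]
      exact hβn _ _ (prod_mem Q N hNQ hcN hg3 hgf w.2)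
    have hrow' : β u v + β u (c g v) + β u (c (g * g) v) = 0 := by
      rw [hβs v, hβs (c g v), hβs (c (g * g) v)]
      exact hrow v u
    set a := β u v
    set b := β (c g u) v
    set G1 := ρ (e g)
    set G2 := ρ (e ((g * g : G) : G ⧸ Q)) with hG2
    have hG12 : ∀ y, G2 y = G1 (G1 y) := fun y => by
      rw [hG2, QuotientGroup.mk_mul, map_mul]; exact act_mul ρ _ _ y
    have hG13 : ∀ y, G1 (G2 y) = y := fun y => by
      rw [hG2, ← act_mul, ← map_mul, ← QuotientGroup.mk_mul, hggg, QuotientGroup.mk_one, map_one,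
        act_one]
    have hsum : ∀ y, y + G1 y + G2 y = 0 := by
      intro y
      apply Additive.toMul.injective
      apply Subtype.ext
      show (y.toMul : G) * (G1 y).toMul * (G2 y).toMul = 1
      rw [show ((G1 y).toMul : G) = _ from actionHom_apply Q e N hQN g y,
        show ((G2 y).toMul : G) = _ from actionHom_apply Q e N hQN (g * g) y]
      exact Subgroup.mem_bot.1 (prod_mem N ⊥ bot_le (fun a ha b hb => by
        rw [Subgroup.mem_bot, commutatorElement_eq_one_iff_mul_comm]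
        exact hN b hb a (hNQ ha)) hg3 (fun q hq => hgf q (hNQ hq)) y.toMul.2)
    have hab : β (c (g * g) u) v = a + b := (heq (hrow u v)).symm
    have e1 : β u (c g v) = G1 (a + b) := by
      rw [← hab, hρβ, ← hc, hggg, hc1]
    have e2 : β u (c (g * g) v) = G2 b := by
      show _ = ρ (e ((g * g : G) : G ⧸ Q)) (β (c g u) v)
      rw [hρβ, ← hc, hggg', hc1]
    rw [e1, e2, map_add] at hrow'
    have hG2a := hsum a
    have hG2b := hsum b
    apply heq
    calc b + G2 a
        = (b + G2 a) + ((a + a) + (G1 a + G1 a) + (G1 b + G1 b) + (G2 b + G2 b)) := by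
          simp only [h2A, add_zero]
      _ = (a + G1 a + G2 a) + (b + G1 b + G2 b) + (a + (G1 a + G1 b) + G2 b) := by abel
      _ = 0 := by rw [hG2a, hG2b, hrow', add_zero, add_zero]
  -- two conjugates that do not commute
  obtain ⟨t, ht0, ht1⟩ : ∃ t : F, t ≠ 0 ∧ t ≠ 1 := by
    classical
    have h4 : 2 < Fintype.card F := by
      rw [hF]
      calc 2 < 2 ^ 2 := by norm_num
        _ ≤ 2 ^ n := Nat.pow_le_pow_right two_pos hn
    by_contra h
    push Not at h
    have := Finset.card_le_card (show Finset.univ ⊆ ({0, 1} : Finset F) from fun c _ => by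
      by_cases hc : c = 0
      · simp [hc]
      · simp [h c hc])
    rw [Finset.card_univ] at this
    exact absurd (this.trans Finset.card_le_two) h4.not_ge
  obtain ⟨y, hy⟩ := QuotientGroup.mk_surjective (e.symm (hh (Units.mk0 t ht0)))
  have hey : e y = hh (Units.mk0 t ht0) := by rw [hy, e.apply_symm_apply]
  set g := y * x * y⁻¹ with hgdef
  set s1 : SpecialLinearGroup (Fin 2) F := e ((x * x : G) : G ⧸ Q) with hs1
  set s2 : SpecialLinearGroup (Fin 2) F := e ((g * g : G) : G ⧸ Q) with hs2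
  have hne : s1 * s2 ≠ s2 * s1 := by
    intro h
    have hxx : s1 = g3 * g3 := by rw [hs1, QuotientGroup.mk_mul, map_mul, hx]
    have hgg : s2 = hh (Units.mk0 t ht0) * (g3 * g3) * (hh (Units.mk0 t ht0))⁻¹ := by
      rw [hs2, hgdef, QuotientGroup.mk_mul, QuotientGroup.mk_mul, QuotientGroup.mk_mul,
        QuotientGroup.mk_inv, map_mul, map_mul, map_mul, map_inv, hx, hey]
      group
    have hinv : (hh (Units.mk0 t ht0) : SpecialLinearGroup (Fin 2) F)⁻¹ =
        hh (Units.mk0 t ht0)⁻¹ := by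
      refine inv_eq_of_mul_eq_one_right ?_
      rw [← hh_mul, mul_inv_cancel]
      apply Subtype.ext
      simp [hh_val, Matrix.one_fin_two]
    rw [hxx, hgg, hinv] at h
    have h01 := congrFun (congrFun (congrArg Subtype.val h) 0) 0
    simp [Matrix.SpecialLinearGroup.coe_mul, g3_val, hh_val, Matrix.mul_apply, Fin.sum_univ_two,
      CharTwo.add_self_eq_zero] at h01
    apply ht1
    have h4 : (t * t - 1) * (t * t - 1) = 0 := by
      field_simp at h01
      linear_combination -h01 + (1 - t * t) * (CharTwo.two_eq_zero (R := F))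
    have h5 : (t - 1) * (t - 1) = 0 := by
      have h6 := sub_eq_zero.1 (mul_self_eq_zero.1 h4)
      linear_combination h6 + (1 - t) * (CharTwo.two_eq_zero (R := F))
    exact sub_eq_zero.1 (mul_self_eq_zero.1 h5)
  -- the composite identity
  have hcomm : ∀ u v : Q, ρ s1 (ρ s2 (β u v)) = ρ s2 (ρ s1 (β u v)) := by
    intro u v
    have hX := hid 1
    rw [one_mul, inv_one, mul_one] at hX
    have hG := hid y
    rw [← hgdef] at hG
    have e1 : β (c x (c g u)) v = ρ s1 (ρ s2 (β u v)) := by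
      rw [(hX _ _).1, (hG _ _).1]
    have e2 : β (c x (c g u)) v = ρ s2 (ρ s1 (β u v)) := by
      rw [(hX _ _).1, ← (hX _ _).2, (hG _ _).1, (hX _ _).2]
    exact e1.symm.trans e2
  -- conclusion
  intro u hu v hv
  set z := β ⟨u, hu⟩ ⟨v, hv⟩ with hz
  have hz0 : z = 0 := by
    by_contra hz0
    have h1 : ψ z ≠ 0 := fun h => hz0 (ψ.injective (by rw [h, map_zero]))
    obtain ⟨i, hi⟩ := Function.ne_iff.1 h1
    apply hne
    have key := eq_one_of_fix_all ((s2 * s1)⁻¹ * (s1 * s2)) (ψ z i) hi fun s => by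
      obtain ⟨h, hh'⟩ := QuotientGroup.mk_surjective (e.symm s)
      have hs : s = e h := by rw [hh', e.apply_symm_apply]
      rw [← hψ, ← hψ]
      have h : ρ ((s2 * s1)⁻¹ * (s1 * s2)) (ρ s z) = ρ s z := by
        rw [hs, hρβ, act_mul, act_mul, hcomm, ← act_mul ρ s2 s1, act_inv']
      exact congrFun (congrArg ψ h) i
    exact (inv_mul_eq_one.1 key).symm
  have h3 := congrArg (fun w : Additive N => (w.toMul : G)) hz0
  exact commutatorElement_eq_one_iff_mul_comm.1 h3

theorem isElementaryAbelian_aux {n : ℕ} (hn : 2 ≤ n) (hF : Fintype.card F = 2 ^ n) (m : ℕ) :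
    ∀ {G : Type uG} [Group G] [Finite G] (Q : Subgroup G) [Q.Normal]
      (e : G ⧸ Q ≃* SpecialLinearGroup (Fin 2) F), IsPGroup 2 Q → Nat.card Q = m →
      ∀ x : G, e x = g3 → x ^ 3 = 1 → (∀ q ∈ Q, x * q * x⁻¹ = q → q = 1) →
        (∀ u ∈ Q, ∀ v ∈ Q, u * v = v * u) ∧ ∀ u ∈ Q, u * u = 1 := by
  induction m using Nat.strong_induction_on with
  | _ m ih =>
  intro G _ _ Q _ e hQ hm x hx hx3 hfpf
  let N : Subgroup G :=
    { carrier := {z | z ∈ Q ∧ (∀ q ∈ Q, q * z = z * q) ∧ z * z = 1}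
      one_mem' := ⟨one_mem _, fun q _ => by rw [mul_one, one_mul], one_mul 1⟩
      mul_mem' := fun {a b} ha hb => ⟨mul_mem ha.1 hb.1, fun q hq => by
        rw [← mul_assoc, ha.2.1 q hq, mul_assoc, hb.2.1 q hq, mul_assoc], by
        rw [mul_assoc, ← mul_assoc b, hb.2.1 a ha.1 |>.symm, mul_assoc a b b, hb.2.2, mul_one,
          ha.2.2]⟩
      inv_mem' := fun {a} ha => by
        rw [show a⁻¹ = a from inv_eq_of_mul_eq_one_left ha.2.2]
        exact ha }
  haveI : N.Normal := ⟨fun z hz g => ⟨‹Q.Normal›.conj_mem z hz.1 g, fun q hq => by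
    have h1 := hz.2.1 (g⁻¹ * q * g) (by simpa using ‹Q.Normal›.conj_mem q hq g⁻¹)
    calc q * (g * z * g⁻¹) = g * ((g⁻¹ * q * g) * z) * g⁻¹ := by group
      _ = g * (z * (g⁻¹ * q * g)) * g⁻¹ := by rw [h1]
      _ = g * z * g⁻¹ * q := by group, by
    calc g * z * g⁻¹ * (g * z * g⁻¹) = g * (z * z) * g⁻¹ := by group
      _ = 1 := by rw [hz.2.2, mul_one, mul_inv_cancel]⟩⟩
  by_cases hbot : Q = ⊥
  · subst hbot
    exact ⟨fun u hu v hv => by rw [Subgroup.mem_bot.1 hu, Subgroup.mem_bot.1 hv],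
      fun u hu => by rw [Subgroup.mem_bot.1 hu, one_mul]⟩
  have hNQ : N ≤ Q := fun z hz => hz.1
  have hNbot : N ≠ ⊥ := by
    haveI : Nontrivial Q := (Subgroup.nontrivial_iff_ne_bot Q).2 hbot
    have hc := hQ.center_nontrivial
    obtain ⟨j, hj⟩ := (hQ.to_subgroup (Subgroup.center Q)).exists_card_eq
    have hdvd : 2 ∣ Nat.card (Subgroup.center Q) := by
      rw [hj]
      refine dvd_pow_self 2 fun h0 => ?_
      rw [h0, pow_zero] at hj
      exact absurd hj (Finite.one_lt_card_iff_nontrivial.2 hc).ne'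
    obtain ⟨z, hz⟩ := exists_prime_orderOf_dvd_card' (p := 2) hdvd
    intro hN
    have hzN : (((z : Subgroup.center Q) : Q) : G) ∈ N := by
      refine ⟨(z : Q).2, fun q hq => ?_, ?_⟩
      · exact congrArg Subtype.val (Subgroup.mem_center_iff.1 z.2 ⟨q, hq⟩)
      · have := pow_orderOf_eq_one z
        rw [hz, pow_two] at this
        exact congrArg (fun w : Subgroup.center Q => ((w : Q) : G)) this
    rw [hN, Subgroup.mem_bot] at hzN
    have : z = 1 := Subtype.ext (Subtype.ext hzN)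
    rw [this, orderOf_one] at hz
    omega
  have hlt : Nat.card (Q.map (QuotientGroup.mk' N)) < m := by
    have h1 := Subgroup.card_mul_index (N.subgroupOf Q)
    rw [Nat.card_congr (Subgroup.subgroupOfEquivOfLe hNQ).toEquiv] at h1
    have h2 : (N.subgroupOf Q).index = Nat.card (Q.map (QuotientGroup.mk' N)) := by
      rw [← Subgroup.relIndex_ker, QuotientGroup.ker_mk']; rfl
    rw [h2, hm] at h1
    have h3 : 1 < Nat.card N := (Finite.one_lt_card_iff_nontrivial.2
      ((Subgroup.nontrivial_iff_ne_bot N).2 hNbot))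
    rw [← h1]
    exact (Nat.lt_mul_iff_one_lt_left Nat.card_pos).2 h3
  haveI : (Q.map (QuotientGroup.mk' N)).Normal :=
    ‹Q.Normal›.map _ (QuotientGroup.mk'_surjective N)
  let e' := (QuotientGroup.quotientQuotientEquivQuotient N Q hNQ).trans e
  have hq := ih _ hlt (Q.map (QuotientGroup.mk' N)) e' (hQ.map _) rfl (x : G ⧸ N) hx
    (by rw [← QuotientGroup.mk_pow, hx3]; rfl) (by
      rintro _ ⟨q, hq, rfl⟩ hfix
      have h1 : ((x * q * x⁻¹ : G) : G ⧸ N) = (q : G ⧸ N) := hfix
      rw [QuotientGroup.eq] at h1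
      have h2 : x * q * x⁻¹ * q⁻¹ ∈ N := by
        have h3 := N.inv_mem (‹N.Normal›.conj_mem _ h1 (x * q * x⁻¹))
        convert h3 using 1
        group
      -- every element of `N` is a twisted commutator inside `N`
      let f : N → N := fun z => ⟨x * (z : G) * x⁻¹ * (z : G)⁻¹,
        mul_mem (‹N.Normal›.conj_mem _ z.2 x) (inv_mem z.2)⟩
      have key : ∀ a ∈ Q, ∀ b ∈ Q, x * a * x⁻¹ * a⁻¹ = x * b * x⁻¹ * b⁻¹ → a = b := by
        intro a ha b hb h
        have h1 : x * (b⁻¹ * a) * x⁻¹ = b⁻¹ * a := by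
          calc x * (b⁻¹ * a) * x⁻¹ = (x * b * x⁻¹)⁻¹ * (x * a * x⁻¹ * a⁻¹) * a := by group
            _ = (x * b * x⁻¹)⁻¹ * (x * b * x⁻¹ * b⁻¹) * a := by rw [h]
            _ = b⁻¹ * a := by group
        exact (inv_mul_eq_one.1 (hfpf _ (mul_mem (inv_mem hb) ha) h1)).symm
      have hf : Function.Surjective f := Finite.injective_iff_surjective.1 fun a b h =>
        Subtype.ext (key _ (hNQ a.2) _ (hNQ b.2) (congrArg Subtype.val h))
      obtain ⟨z, hz⟩ := hf ⟨_, h2⟩
      rw [key q hq z (hNQ z.2) (congrArg Subtype.val hz).symm]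
      exact (QuotientGroup.eq_one_iff _).2 z.2)
  have hsqN : ∀ u ∈ Q, u * u ∈ N := fun u hu =>
    (QuotientGroup.eq_one_iff _).1 (hq.2 _ ⟨u, hu, rfl⟩)
  have hcN : ∀ a ∈ Q, ∀ b ∈ Q, ⁅a, b⁆ ∈ N := fun a ha b hb =>
    (QuotientGroup.eq_one_iff _).1 (by
      show QuotientGroup.mk' N ⁅a, b⁆ = 1
      rw [map_commutatorElement, commutatorElement_eq_one_iff_mul_comm]
      exact hq.1 _ ⟨a, ha, rfl⟩ _ ⟨b, hb, rfl⟩)
  have hab := commute_of_section Q hn hF e N hNQ (fun a ha => ha.2.1) (fun a ha => ha.2.2) hcN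
    hx hx3 hfpf
  refine ⟨hab, fun u hu => ?_⟩
  haveI : IsMulCommutative Q := IsMulCommutative.of_comm fun a b =>
    Subtype.ext (hab a a.2 b b.2)
  have h4 : ∀ v : Additive Q, (v + v) + (v + v) = 0 := fun v =>
    congrArg Additive.ofMul (Subtype.ext (hsqN _ v.toMul.2).2.2 :
      v.toMul * v.toMul * (v.toMul * v.toMul) = 1)
  have h2 := two_eq_zero_of_four hn hF (actionHom Q e Q hab) h4
    (actionHom_rel Q e Q hab le_rfl hx hx3 hfpf) (Additive.ofMul ⟨u, hu⟩)
  exact congrArg (fun w : Additive Q => (w.toMul : G)) h2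

/-- An element of order three acting fixed point freely can be moved over the standard one. -/
theorem exists_standard (e : G ⧸ Q ≃* SpecialLinearGroup (Fin 2) F) (hQ : IsPGroup 2 Q) (x : G)
    (hx : orderOf x = 3) (hfpf : ∀ q ∈ Q, x * q * x⁻¹ = q → q = 1) :
    ∃ y : G, e y = g3 ∧ y ^ 3 = 1 ∧ ∀ q ∈ Q, y * q * y⁻¹ = q → q = 1 := by
  have hx3 : x ^ 3 = 1 := hx ▸ pow_orderOf_eq_one x
  have hxQ : x ∉ Q := by
    intro h
    obtain ⟨j, hj⟩ := hQ ⟨x, h⟩
    have h1 : x ^ (2 ^ j) = 1 := congrArg Subtype.val hj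
    have h2 : 3 ∣ 2 ^ j := hx ▸ orderOf_dvd_of_pow_eq_one h1
    have := Nat.Prime.dvd_of_dvd_pow (by norm_num : Nat.Prime 3) h2
    omega
  obtain ⟨h, hh'⟩ := exists_conj_g3 (e x)
    (by rw [← map_pow, ← QuotientGroup.mk_pow, hx3, QuotientGroup.mk_one, map_one])
    (fun h1 => hxQ ((QuotientGroup.eq_one_iff x).1 (e.injective (h1.trans (map_one e).symm))))
  obtain ⟨g, hg⟩ := QuotientGroup.mk_surjective (e.symm h)
  have heg : e g = h := by rw [hg, e.apply_symm_apply]
  refine ⟨g⁻¹ * x * g, ?_, ?_, fun q hq hfix => ?_⟩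
  · rw [QuotientGroup.mk_mul, QuotientGroup.mk_mul, QuotientGroup.mk_inv, map_mul, map_mul,
      map_inv, heg, hh']
    group
  · have := conj_pow (a := g⁻¹) (b := x) (i := 3)
    rw [inv_inv] at this
    rw [this, hx3, mul_one, inv_mul_cancel]
  · have h1 : x * (g * q * g⁻¹) * x⁻¹ = g * q * g⁻¹ := by
      calc _ = g * (g⁻¹ * x * g * q * (g⁻¹ * x * g)⁻¹) * g⁻¹ := by group
        _ = _ := by rw [hfix]
    have h2 := hfpf _ (‹Q.Normal›.conj_mem q hq g) h1
    exact conj_eq_one_iff.1 h2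

end GroupLevel

end Cfsg.Agent.H75.SL2FPF
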